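import Cfsg.Agent.H2.BG7

/-! Linear algebra for groups with three automorphism orbits. -/

namespace CfsgL0
open Polynomial Function

theorem exists_equiv_of_card {K V W : Type*} [Field K] [AddCommGroup V] [AddCommGroup W] [Module K V] [Module K W]
    [Finite V] [Finite W] (h : Nat.card V = Nat.card W) {v : V} {w : W} (hv : v ≠ 0) (hw : w ≠ 0) :
    ∃ e : V ≃ₗ[K] W, e v = w := by
  haveI : Finite K := .of_injective _ (smul_left_injective K hv)
  rw [Module.natCard_eq_pow_finrank (K := K) (V := V), Module.natCard_eq_pow_finrank (K := K) (V := W)] at h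
  have e := LinearEquiv.ofFinrankEq V W (Nat.pow_right_injective Finite.one_lt_card h)
  have h1 : e v ≠ 0 := by simpa using hv
  obtain ⟨g, hg⟩ := Submodule.exists_linearEquiv_restrict_eq ((LinearEquiv.toSpanNonzeroSingleton K W _ h1).symm.trans
    (LinearEquiv.toSpanNonzeroSingleton K W _ hw))
  refine ⟨e.trans g, ?_⟩
  have := hg (LinearEquiv.toSpanNonzeroSingleton K W _ h1 1)
  rw [LinearEquiv.trans_apply, LinearEquiv.symm_apply_apply] at this
  simpa using this.symm

variable {F V : Type*} [Field F] [AddCommGroup V] [Module F V] {g : F[X]} {S T : Module.End F V}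

theorem exists_intertwine [Finite V] (hg : Irreducible g) (h1 : aeval S g = 0) (h2 : aeval T g = 0) {v w : V}
    (hv : v ≠ 0) (hw : w ≠ 0) : ∃ e : V ≃+ V, (∀ u, e (S u) = T (e u)) ∧ e v = w := by
  haveI := Fact.mk hg
  let ρ : ∀ S : Module.End F V, aeval S g = 0 → AdjoinRoot g →+* Module.End F V := fun S h =>
    Ideal.Quotient.lift _ (aeval S).toRingHom fun a ha => by
      obtain ⟨b, rfl⟩ := Ideal.mem_span_singleton'.1 ha
      simp [h]
  obtain ⟨e, he⟩ := @exists_equiv_of_card (AdjoinRoot g) V V _ _ _ (Module.compHom V (ρ S h1))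
    (Module.compHom V (ρ T h2)) _ _ rfl v w hv hw
  refine ⟨@LinearEquiv.toAddEquiv _ _ _ _ _ _ _ _ _ _ _ _ (Module.compHom V (ρ S h1)) (Module.compHom V (ρ T h2)) e,
    fun u => ?_, he⟩
  have := @LinearEquiv.map_smul _ _ _ _ _ _ (Module.compHom V (ρ S h1)) (Module.compHom V (ρ T h2)) e
    (AdjoinRoot.mk g X) u
  change e (aeval S X u) = aeval T X (e u) at this
  rwa [aeval_X, aeval_X] at this

theorem aeval_intertwine (e : V →ₗ[F] V) (h : ∀ u, e (S u) = T (e u)) (f : F[X]) (u : V) :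
    e (aeval S f u) = aeval T f (e u) := by
  induction f using Polynomial.induction_on generalizing u with
  | C a => simp
  | add f g h1 h2 => simp [h1, h2]
  | monomial n a h1 => rw [pow_succ, ← mul_assoc, map_mul, map_mul (aeval T), aeval_X, aeval_X, Module.End.mul_apply,
      Module.End.mul_apply, h1, h]

theorem dvd_of_aeval (hg : Irreducible g) {f : F[X]} {u : V} (hu : u ≠ 0) (h1 : aeval T g u = 0)
    (h2 : aeval T f u = 0) : g ∣ f := by
  refine (hg.isCoprime_or_dvd f).resolve_left fun ⟨a, b, e⟩ => hu ?_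
  simpa [h1, h2] using (congrArg (fun k => aeval T k u) e).symm

theorem exists_irr (f : F[X]) : f ≠ 0 → ∀ v : V, v ≠ 0 → aeval T f v = 0 →
    ∃ g, Irreducible g ∧ g ∣ f ∧ ∃ w : V, w ≠ 0 ∧ aeval T g w = 0 := by
  induction f using WfDvdMonoid.induction_on_irreducible with
  | zero => simp
  | unit f hf => exact fun _ v hv e => absurd (((Module.End.isUnit_iff _).1 (hf.map (aeval T))).1 (e.trans (map_zero _).symm)) hv
  | mul f i hf hi ih =>
    intro _ v hv e
    by_cases k : aeval T f v = 0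
    · obtain ⟨g, a, b, c⟩ := ih hf v hv k
      exact ⟨g, a, b.mul_left _, c⟩
    · exact ⟨i, hi, dvd_mul_right _ _, _, k, by simpa using e⟩

theorem aeval_eq_zero_of_cover {ι : Type*} {T : ι → Module.End F V} (hg : Irreducible g)
    (h1 : ∀ i j, ∃ h : F[X], T i = aeval (T j) h) (h2 : ∀ v : V, v ≠ 0 → ∃ i, aeval (T i) g v = 0)
    (h3 : ∀ i, ∃ v : V, v ≠ 0 ∧ aeval (T i) g v = 0) (i : ι) : aeval (T i) g = 0 := by
  have k : ∀ i j u, u ≠ 0 → aeval (T i) g u = 0 → aeval (T j) g u = 0 → ∀ w, aeval (T j) g w = 0 →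
      aeval (T i) g w = 0 := fun i j u hu a b w c => by
    obtain ⟨h, e⟩ := h1 i j
    rw [e, ← aeval_comp] at a ⊢
    obtain ⟨f, e⟩ := dvd_of_aeval hg hu b a
    simp [e, mul_comm g, c]
  have cm : ∀ i j w, aeval (T j) g w = 0 → aeval (T j) g (aeval (T i) g w) = 0 := fun i j w c => by
    obtain ⟨h, e⟩ := h1 i j
    rw [e, ← aeval_comp, ← Module.End.mul_apply, ← map_mul, mul_comm, map_mul, Module.End.mul_apply, c, map_zero]
  ext w
  by_contra hw
  have w0 : w ≠ 0 := by rintro rfl; simp at hw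
  obtain ⟨j, hj⟩ := h2 w w0
  obtain ⟨u, u0, hu⟩ := h3 i
  have d : ∀ u, aeval (T i) g u = 0 → aeval (T j) g u = 0 → u = 0 := fun u a b => by_contra fun e =>
    hw (k i j u e a b w hj)
  obtain ⟨l, hl⟩ := h2 (u + w) fun e => hw (by rw [eq_neg_of_add_eq_zero_right e, map_neg, hu, neg_zero]; rfl)
  rw [map_add] at hl
  have e := d _ (cm l i u hu) (by rw [eq_neg_of_add_eq_zero_left hl, map_neg, cm l j w hj, neg_zero])
  exact hw (k i l u u0 hu e w (by simpa [e] using hl))

end CfsgL0
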