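import Cfsg.Agent.H3.Hv1

/-! Helpers on involutory automorphisms of odd `p`-groups. -/

namespace CfsgL0
open Subgroup CfsgH2 CfsgHv SemidirectProduct

variable {P : Type*} [Group P] [Finite P] {p : ℕ}

theorem aut_gen {U : Subgroup (MulAut P)} (hU : IsKleinFour U) (hc : (4 : ℕ).Coprime (Nat.card P)) {J : Subgroup P}
    (h : ∀ u ∈ U, u ≠ 1 → ∀ x, u x = x → x ∈ J) : J = ⊤ := by
  have : Finite (P ⋊[MonoidHom.id _] MulAut P) := Finite.of_equiv _ equivProd.symm
  have i1 : Function.Injective (inr : MulAut P →* P ⋊[MonoidHom.id _] MulAut P) := inr_injective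
  have i2 : Function.Injective (inl : P →* P ⋊[MonoidHom.id _] MulAut P) := inl_injective
  have k := le_of_cent1 (A := U.map (inr : MulAut P →* P ⋊[MonoidHom.id _] MulAut P)) (K := (⊤ : Subgroup P).map inl) (M := J.map inl)
    (by have := klein_ab hU; infer_instance) (fun k => IsKleinFour.not_isCyclic ((U.equivMapOfInjective _ i1).isCyclic.2 k))
    (by rw [← MonoidHom.range_eq_map, range_inl_eq_ker_rightHom]; exact le_normalizer_of_normal)
    (by rwa [card_map_of_injective i1, card_map_of_injective i2, klein_card hU, card_top]) (by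
      rintro _ ⟨u, hu, rfl⟩ n _ ⟨⟨x, -, rfl⟩, hx⟩
      refine ⟨x, h u hu (fun e => n (by rw [e, map_one])) x (i2 ?_), rfl⟩
      have := inl_aut (φ := MonoidHom.id (MulAut P)) u x
      rw [map_inv, ← mem_centralizer_singleton_iff.1 hx, mul_inv_cancel_right] at this
      exact this)
  exact top_le_iff.1 ((map_le_map_iff_of_injective i2).1 k)

theorem aut_sign (hp : p.Prime) (hp2 : p ≠ 2) (hP : IsPGroup p P) {T : MulAut P} (T2 : T * T = 1) {c : P} (h : T c ∈ zpowers c) :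
    T c = c ∨ T c = c⁻¹ := by
  have : Fact p.Prime := ⟨hp⟩
  obtain ⟨k, hk⟩ := h
  obtain ⟨n, hn⟩ := IsPGroup.iff_orderOf.1 hP c
  have e : c ^ ((k - 1) * (k + 1)) = 1 := by
    have : T (T c) = c := by rw [← MulAut.mul_apply, T2]; rfl
    rw [← hk, map_zpow, ← hk, ← zpow_mul] at this
    rw [(by ring : (k - 1) * (k + 1) = k * k - 1), zpow_sub, this]; simp
  have pp := Nat.prime_iff_prime_int.1 hp
  rw [← orderOf_dvd_iff_zpow_eq_one, hn, Nat.cast_pow] at e
  have q {j : ℤ} (e : (p : ℤ) ^ n ∣ j) : c ^ j = 1 := orderOf_dvd_iff_zpow_eq_one.1 (by rwa [hn, Nat.cast_pow])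
  by_cases d : (p : ℤ) ∣ k - 1
  · have : ¬ (p : ℤ) ∣ k + 1 := fun d' => by
      have := dvd_sub d' d
      rw [(by ring : k + 1 - (k - 1) = ((2 : ℕ) : ℤ)), Int.natCast_dvd_natCast] at this
      exact hp2 ((Nat.prime_dvd_prime_iff_eq hp Nat.prime_two).1 this)
    exact .inl (hk ▸ mul_inv_eq_one.1 (by simpa [zpow_sub] using q (pp.pow_dvd_of_dvd_mul_right n this e)))
  · exact .inr (hk ▸ eq_inv_of_mul_eq_one_left (by simpa [zpow_add] using q (pp.pow_dvd_of_dvd_mul_left n d e)))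

theorem not_two_gen [IsMulCommutative P] (hp : p.Prime) {x y z : P} (ox : orderOf x = p) (yp : y ^ p = 1) (zp : z ^ p = 1)
    (h1 : y ∉ zpowers x) (h2 : z ∉ zpowers x ⊔ zpowers y) (a b : P) : closure {a, b} ≠ ⊤ := fun e => by
  let f : P →* P := MonoidHom.mk' (· ^ p) fun a b => Commute.mul_pow (mul_comm' a b) p
  have nm (H : Subgroup P) (g : P) : g ∈ N[H] := le_normalizer_of_normal (mem_top g)
  have k1 : p * p * p ≤ f.range.index := by
    rw [index_range]
    refine le_of_eq_of_le ?_ (card_le_of_le (sup_le (sup_le (zpowers_le.2 (show x ^ p = 1 by rw [← ox, pow_orderOf_eq_one]))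
      (zpowers_le.2 yp)) (zpowers_le.2 zp)))
    rw [card_sup_zpowers_prime hp (nm _ _) (zp ▸ one_mem _) h2, card_sup_zpowers_prime hp (nm _ _) (yp ▸ one_mem _) h1,
      Nat.card_zpowers, ox]
  have k2 (H : Subgroup P) (l : f.range ≤ H) (g : P) : o[H ⊔ zpowers g] ≤ o[H] * p := by
    by_cases k : g ∈ H
    · rw [sup_eq_left.2 (zpowers_le.2 k)]; exact Nat.le_mul_of_pos_right _ hp.pos
    · rw [card_sup_zpowers_prime hp (nm _ _) (l ⟨g, rfl⟩) k]
  have k3 := (k2 _ le_sup_left b).trans (Nat.mul_le_mul_right p (k2 _ le_rfl a))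
  have k4 : f.range ⊔ zpowers a ⊔ zpowers b = ⊤ := top_le_iff.1 (e ▸ (closure_le _).2 (by
    rintro _ (rfl | rfl)
    exacts [mem_sup_left (mem_sup_right (mem_zpowers _)), mem_sup_right (mem_zpowers _)]))
  rw [k4, card_top, ← f.range.card_mul_index, mul_assoc] at k3
  have := (k1.trans (Nat.le_of_mul_le_mul_left k3 Nat.card_pos))
  nlinarith [hp.two_le, Nat.mul_pos hp.pos hp.pos]

theorem exists_klein_avoid {A : Type*} [Group A] [Finite A] {I I₀ : Subgroup A} (hI : Cfsg.IsElementaryAbelian 2 I) (h8 : o[I] = 8)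
    (l : I₀ ≤ I) {t : A} (ht : t ∈ I) (n : t ∉ I₀) : ∃ U, I₀ ≤ U ∧ U ≤ I ∧ t ∉ U ∧ IsKleinFour U := by
  obtain ⟨U, ⟨h1, h2, h3⟩, hm⟩ := (Set.toFinite {U | I₀ ≤ U ∧ U ≤ I ∧ t ∉ U}).exists_maximal ⟨I₀, le_rfl, l, n⟩
  have := hI.1
  have sq (x) (hx : x ∈ I) : x * x = 1 := by rw [← sq, hI.2 x hx]
  refine ⟨U, h1, h2, h3, klein_of ?_ fun x hx => sq x (h2 hx)⟩
  have : U.relIndex I = 2 := relIndex_eq_two_iff_exists_notMem_and.2 ⟨t, ht, h3, fun s hs => by
    by_contra! k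
    refine k.2 (hm ⟨h1.trans le_sup_left, sup_le h2 (zpowers_le.2 hs), fun k' => ?_⟩ le_sup_left (mem_sup_right (mem_zpowers s)))
    obtain ⟨u, hu, j, e⟩ := (mem_sup_zpowers (mem_normalizer_fintype fun x hx => by
      rwa [setLike_mul_comm hs (h2 hx), mul_inv_cancel_right])).1 k'
    rcases Int.even_or_odd' j with ⟨i, rfl | rfl⟩
    · exact h3 (by rwa [← e, zpow_mul, zpow_two, sq s hs, one_zpow, mul_one])
    · exact k.1 (by rwa [← e, zpow_add_one, zpow_mul, zpow_two, sq s hs, one_zpow, one_mul, setLike_mul_comm hs (mul_mem (h2 hu) hs),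
        mul_assoc, sq s hs, mul_one])⟩
  have k := card_mul_relIndex h2
  rw [this] at k
  omega

end CfsgL0
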