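import Mathlib

/-! Faithful irreducible `𝔽₂`-modules of `3² : D₈`. -/

namespace CfsgL0
open Subgroup DihedralGroup Finset

/-- the action of `D₈` on coordinates -/
def d8T : DihedralGroup 4 → (ZMod 2 × ZMod 2) × ZMod 2 × ZMod 2 → (ZMod 2 × ZMod 2) × ZMod 2 × ZMod 2
  | .r k, c => (fun c => ((c.2.1 + c.2.2, c.2.2), c.1))^[(-k).val] c
  | .sr k, c => (fun c => ((c.1.1 + c.1.2, c.1.2), c.2)) ((fun c => ((c.2.1 + c.2.2, c.2.2), c.1))^[(-k).val] c)

/-- a four-subgroup of `D₈` -/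
def d8B : Subgroup (DihedralGroup 4) where
  carrier := {d | d = 1 ∨ d = r 2 ∨ d = sr 1 ∨ d = sr 3}
  mul_mem' := by intro a b; simp only [Set.mem_setOf_eq]; revert a b; decide
  one_mem' := Or.inl rfl
  inv_mem' := by intro a; simp only [Set.mem_setOf_eq]; revert a; decide

theorem d8_uniq : ∀ p : DihedralGroup 4 → Bool, (∀ x y, p x → p y → p (x * y)) → (∀ x, p x → x ^ 2 = 1) → #{d | p d} = 4 →
    #{c | ∀ d, p d → d8T d c = c} = 2 → ∀ d, p d ↔ (d = 1 ∨ d = r 2 ∨ d = sr 1 ∨ d = sr 3) := by decide +kernel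

/-- the stabilizer of a submodule -/
def subStab {S M : Type*} [Group S] [Finite S] [AddCommGroup M] [Module (ZMod 2) M] (ρ : Representation (ZMod 2) S M)
    (N : Submodule (ZMod 2) M) : Subgroup S where
  carrier := {g | ∀ m ∈ N, ρ g m ∈ N}
  mul_mem' := fun ha hb m hm => by rw [map_mul]; exact ha _ (hb m hm)
  one_mem' := fun m hm => by simpa using hm
  inv_mem' := fun {g} hg m hm => by
    have k (n : ℕ) : ∀ m ∈ N, ρ (g ^ n) m ∈ N := by
      induction n with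
      | zero => simp
      | succ n ih => intro m hm; rw [pow_succ, map_mul]; exact ih _ (hg m hm)
    have : g⁻¹ = g ^ (orderOf g - 1) := by
      rw [inv_eq_iff_mul_eq_one, ← pow_succ', Nat.sub_add_cancel (orderOf_pos g), pow_orderOf_eq_one]
    exact this ▸ k _ m hm

theorem d8_mod {S M : Type*} [Group S] [Finite S] [AddCommGroup M] [Module (ZMod 2) M] (ρ : Representation (ZMod 2) S M)
    (hf : Function.Injective ρ) (hirr : ∀ N : Submodule (ZMod 2) M, (∀ s : S, ∀ m ∈ N, ρ s m ∈ N) → N = ⊥ ∨ N = ⊤)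
    (D : DihedralGroup 4 →* S) (iD : Function.Injective D) {a b : S} (a1 : a ≠ 1) (a3 : a ^ 3 = 1) (ab : a * b = b * a)
    (ra : D (sr 0) * a = a * D (sr 0)) (rb : D (sr 0) * b = b * (b * D (sr 0))) (sa : D (sr 3) * a = b * D (sr 3))
    (gen : ∀ H : Subgroup S, a ∈ H → b ∈ H → D.range ≤ H → H = ⊤) {m : M} (m0 : m ≠ 0) (hm : ρ a m = m) :
    Nat.card M = 16 ∧ ∃! B : Subgroup S, B ≤ D.range ∧ Nat.card B = 4 ∧ (∀ b ∈ B, b ^ 2 = 1) ∧
      Nat.card {m : M // ∀ b ∈ B, ρ b m = m} = 2 := by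
  classical
  have mu (g h m) : ρ (g * h) m = ρ g (ρ h m) := by rw [map_mul]; rfl
  have dm (d e f) (k : d * e = f) (m) : ρ (D d) (ρ (D e) m) = ρ (D f) m := by rw [← mu, ← map_mul, k]
  have d1 (m) : ρ (D 1) m = m := by simp
  have two (m : M) : m + m = 0 := ZModModule.add_self m
  obtain ⟨t, ht⟩ : ∃ t, t = D (sr 0) := ⟨_, rfl⟩
  obtain ⟨s, hs⟩ : ∃ s, s = D (sr 3) := ⟨_, rfl⟩
  obtain ⟨t', ht'⟩ : ∃ t, t = D (sr 2) := ⟨_, rfl⟩
  have ss : s * s = 1 := by rw [hs, ← map_mul, ← map_one D]; rfl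
  have tt : t * t = 1 := by rw [ht, ← map_mul, ← map_one D]; rfl
  have tt' : t' * t' = 1 := by rw [ht', ← map_mul, ← map_one D]; rfl
  have ts : t * s = s * t' := by rw [ht, hs, ht', ← map_mul, ← map_mul]; rfl
  have st : s * t = t' * s := by rw [ht, hs, ht', ← map_mul, ← map_mul]; rfl
  have ct : t' * t = t * t' := by rw [ht, ht', ← map_mul, ← map_mul]; rfl
  rw [← ht] at ra rb
  rw [← hs] at sa
  have si : s⁻¹ = s := inv_eq_of_mul_eq_one_right ss
  have hb : b = s * a * s := by rw [sa, mul_assoc, ss, mul_one]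
  have sb : s * b = a * s := by rw [hb, ← mul_assoc, ← mul_assoc, ss, one_mul]
  have b3 : b * (b * b) = 1 := by
    have : b ^ 3 = 1 := by rw [hb]; nth_rw 2 [← si]; rw [conj_pow, a3]; simp
    rw [← this, pow_succ', sq]
  have e' : t' = s * t * s := by rw [st, mul_assoc, ss, mul_one]
  have tb : t' * b = b * t' := by
    rw [e', mul_assoc, sb, ← mul_assoc, mul_assoc s, ra, ← mul_assoc, sa]; group
  have ta : a * t' = t' * (a * a) := by
    have : s * (a * a) = b * b * s := by rw [← mul_assoc, sa, mul_assoc, sa, mul_assoc]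
    have tbb : t * (b * b) = b * t := by
      calc t * (b * b) = b * (b * b) * (b * t) := by rw [← mul_assoc, rb, mul_assoc, mul_assoc, rb]; simp only [mul_assoc]
        _ = _ := by rw [b3, one_mul]
    rw [e', mul_assoc (s * t), this, ← mul_assoc, ← mul_assoc, ← sb, mul_assoc s b, ← tbb]; group
  have E {g h g' h' : S} (k : g * h = g' * h') (m) : ρ g (ρ h m) = ρ g' (ρ h' m) := by rw [← mu, k, mu]
  have E1 {g h : S} (k : g * h = 1) (m) : ρ g (ρ h m) = m := by rw [← mu, k]; simp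
  have irr (N : Submodule (ZMod 2) M) (h1 : a ∈ subStab ρ N) (h2 : b ∈ subStab ρ N) (h3 : t ∈ subStab ρ N) (h4 : s ∈ subStab ρ N) :
      N = ⊥ ∨ N = ⊤ := by
    refine hirr N fun g => (gen _ h1 h2 ?_).ge (mem_top g)
    rintro _ ⟨d, rfl⟩
    obtain ⟨k, rfl | rfl⟩ := (by decide : ∀ d : DihedralGroup 4, ∃ k : Fin 4, d = (sr 0 * sr 3) ^ k.1 ∨ d = sr 0 * (sr 0 * sr 3) ^ k.1) d
    all_goals simp only [map_mul, map_pow, ← ht, ← hs]
    exacts [pow_mem (mul_mem h3 h4) _, mul_mem h3 (pow_mem (mul_mem h3 h4) _)]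
  have hbt (m) (k2 : ρ b m = m) : ρ b (ρ t m) = ρ t m := by
    have := E rb m
    rw [k2, mu] at this
    conv_lhs => rw [this, ← mu b, ← mu _ b, mul_assoc b b b, b3]
    simp
  have fix0 (m) (h1 : ρ a m = m) (h2 : ρ b m = m) : m = 0 := by
    rcases irr (LinearMap.eqLocus (ρ a) LinearMap.id ⊓ LinearMap.eqLocus (ρ b) LinearMap.id)
      (fun m k => ⟨congrArg (ρ a) k.1, (E ab m).symm.trans (congrArg (ρ a) k.2)⟩)
      (fun m k => ⟨(E ab m).trans (congrArg (ρ b) k.1), congrArg (ρ b) k.2⟩)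
      (fun m k => ⟨(E ra m).symm.trans (congrArg (ρ t) k.1), hbt m k.2⟩)
      (fun m k => ⟨(E sb m).symm.trans (congrArg (ρ s) k.2), (E sa m).symm.trans (congrArg (ρ s) k.1)⟩) with e | e
    · exact (Submodule.mem_bot _).1 (e.le ⟨h1, h2⟩)
    · exact absurd (hf ((LinearMap.ext fun m => (e.ge Submodule.mem_top).1).trans (map_one ρ).symm)) a1
  have step (g : S) (gg : g * g = 1) (P : M → Prop) (h1 : ∀ m m', P m → P m' → P (m + m')) (h2 : ∀ m, P m → P (ρ g m)) (m) (m0 : m ≠ 0)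
      (hm : P m) : ∃ u, u ≠ 0 ∧ P u ∧ ρ g u = u := by
    by_cases k : ρ g m = m
    · exact ⟨m, m0, hm, k⟩
    · exact ⟨m + ρ g m, fun e => k (add_left_cancel (e.trans (two m).symm)), h1 _ _ hm (h2 m hm), by rw [map_add, E1 gg, add_comm]⟩
  obtain ⟨u, u0, hu⟩ := step t' tt' (fun m => ρ a m = m) (fun m m' k k' => by simp only [map_add, k, k'])
    (fun m k => by rw [E ta, mu, k, k]) m m0 hm
  obtain ⟨u, u0, ⟨au, tu'⟩, tu⟩ := step t tt (fun m => ρ a m = m ∧ ρ t' m = m) (fun m m' k k' => by simp only [map_add, k.1, k'.1, k.2, k'.2, and_self])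
    (fun m k => ⟨by rw [← E ra, k.1], by rw [E ct, k.2]⟩) u u0 hu
  have bb : ρ b (ρ b u) = u + ρ b u := by
    have := fix0 (u + ρ b u + ρ b (ρ b u)) (by simp only [map_add, E ab, au]) (by
      rw [map_add, map_add, ← mu b b (ρ b u), ← mu (b * b), mul_assoc, b3]; simp only [map_one, Module.End.one_apply]; abel)
    exact add_left_cancel (this.trans (two _).symm)
  let p : (ZMod 2 × ZMod 2) →ₗ[ZMod 2] M := (LinearMap.toSpanSingleton _ _ u).coprod (LinearMap.toSpanSingleton _ _ (ρ b u))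
  have hp (x) : p x = x.1 • u + x.2 • ρ b u := rfl
  have pa (x) : ρ a (p x) = p x := by simp only [hp, map_add, map_smul, E ab, au]
  have pt' (x) : ρ t' (p x) = p x := by simp only [hp, map_add, map_smul, E tb, tu']
  have pb (x) : ρ b (p x) = p (x.2, x.1 + x.2) := by simp only [hp, map_add, map_smul, bb, smul_add, add_smul]; abel
  have pt (x) : ρ t (p x) = p (x.1 + x.2, x.2) := by simp only [hp, map_add, map_smul, E rb, mu, tu, bb, smul_add, add_smul]; abel
  have pi (x) (k : p x = 0) : x = 0 := by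
    have k1 := pb x
    rw [k, map_zero] at k1
    have k2 := pb (x.2, x.1 + x.2)
    rw [← k1, map_zero] at k2
    have k3 : p (1, 0) ≠ 0 := by simpa [hp] using u0
    rcases (by decide : ∀ x : ZMod 2 × ZMod 2, x = 0 ∨ x = (1, 0) ∨ (x.2, x.1 + x.2) = (1, 0) ∨ (x.1 + x.2, x.2 + (x.1 + x.2)) = (1, 0)) x
      with e | e | e | e
    exacts [e, (k3 (e ▸ k)).elim, (k3 (e ▸ k1.symm)).elim, (k3 (e ▸ k2.symm)).elim]
  let φ := p.coprod (ρ s ∘ₗ p)
  have hφ (c) : φ c = p c.1 + ρ s (p c.2) := rfl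
  have φt (c) : ρ t (φ c) = φ ((c.1.1 + c.1.2, c.1.2), c.2) := by simp only [hφ, map_add, pt, E ts, pt']
  have φs (c) : ρ s (φ c) = φ (c.2, c.1) := by simp only [hφ, map_add, E1 ss, add_comm]
  have φi : Function.Injective φ := (injective_iff_map_eq_zero φ).2 fun c k => by
    have e : p c.1 = ρ s (p c.2) := add_right_cancel (k.trans (two _).symm)
    have e1 := fix0 _ (pa c.1) (by rw [e, ← E sa, pa])
    have e2 := E1 ss (p c.2)
    rw [← e, e1, map_zero] at e2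
    exact Prod.ext (pi _ e1) (pi _ e2.symm)
  have φo : Function.Surjective φ := by
    rcases irr (LinearMap.range φ) (by rintro _ ⟨c, rfl⟩; exact ⟨(c.1, c.2.2, c.2.1 + c.2.2), by simp only [hφ, map_add, pa, ← E sb, pb]⟩)
      (by rintro _ ⟨c, rfl⟩; exact ⟨((c.1.2, c.1.1 + c.1.2), c.2), by simp only [hφ, map_add, pa, ← E sa, pb]⟩)
      (by rintro _ ⟨c, rfl⟩; exact ⟨_, (φt c).symm⟩) (by rintro _ ⟨c, rfl⟩; exact ⟨_, (φs c).symm⟩) with e | e
    · exact absurd ((Submodule.mem_bot _).1 (e.le ⟨((1, 0), 0), by simp [hφ, hp]⟩)) u0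
    · exact LinearMap.range_eq_top.1 e
  let ε := Equiv.ofBijective φ ⟨φi, φo⟩
  have φr (n : ℕ) (c) : ρ (D (r 3 ^ n)) (φ c) = φ ((fun c => ((c.2.1 + c.2.2, c.2.2), c.1))^[n] c) := by
    induction n generalizing c with
    | zero => simp
    | succ n ih => rw [pow_succ, ← dm _ _ _ rfl, ← dm (sr 0) (sr 3) (r 3) rfl, ← hs, ← ht, φs, φt, ih]; rfl
  have φd (d c) : ρ (D d) (φ c) = φ (d8T d c) := by
    have k : ∀ k : ZMod 4, r k = r 3 ^ (-k).val := by decide
    rcases d with i | i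
    · exact (congrArg (fun d => ρ (D d) (φ c)) (k i)).trans (φr _ c)
    · rw [← dm (sr 0) (r i) (sr i) (by simp), k, φr, ← ht, φt]; rfl
  have cnt (C : Subgroup (DihedralGroup 4)) : Nat.card {m : M // ∀ b ∈ C.map D, ρ b m = m} = #{c | ∀ d, decide (d ∈ C) → d8T d c = c} := by
    rw [← Fintype.card_subtype, ← Nat.card_eq_fintype_card]
    refine (Nat.card_congr (ε.subtypeEquiv fun c => ⟨?_, fun k d hd => φi ((φd d c).symm.trans (k _ ⟨d, of_decide_eq_true hd, rfl⟩))⟩)).symm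
    rintro k _ ⟨d, hd, rfl⟩
    exact (φd d c).trans (congrArg φ (k d (decide_eq_true hd)))
  have cc (C : Subgroup (DihedralGroup 4)) : Nat.card (C.map D) = #{d | decide (d ∈ C)} := by
    rw [card_map_of_injective iD, ← Fintype.card_subtype, ← Nat.card_eq_fintype_card]; simp
  have mB (d) : decide (d ∈ d8B) = decide (d = 1 ∨ d = r 2 ∨ d = sr 1 ∨ d = sr 3) := decide_eq_decide.2 Iff.rfl
  refine ⟨by rw [← Nat.card_congr ε]; simp, d8B.map D, ⟨map_le_range _ _, ?_, ?_, ?_⟩, fun B ⟨h1, h2, h3, h4⟩ => ?_⟩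
  · rw [cc]; simp only [mB]; decide
  · rintro _ ⟨d, hd, rfl⟩
    rw [← map_pow, ← map_one D]
    rcases hd with rfl | rfl | rfl | rfl <;> rfl
  · rw [cnt]; simp only [mB]; decide +kernel
  obtain ⟨C, rfl⟩ : ∃ C : Subgroup (DihedralGroup 4), B = C.map D := ⟨_, (map_comap_eq_self h1).symm⟩
  rw [cnt] at h4
  rw [cc] at h2
  have := d8_uniq (fun d => decide (d ∈ C)) (fun x y hx hy => decide_eq_true (mul_mem (of_decide_eq_true hx) (of_decide_eq_true hy)))
    (fun x hx => iD (by rw [map_pow, map_one]; exact h3 _ ⟨x, of_decide_eq_true hx, rfl⟩)) h2 h4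
  exact congrArg _ (Subgroup.ext fun d => decide_eq_true_iff.symm.trans (this d))

end CfsgL0
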