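import Cfsg.Agent.L0.CI

/-! Extremely closed abelian 2-subgroups. -/

set_option autoImplicit false
namespace CfsgL0.EC
open Subgroup Cfsg CfsgH2
open CfsgH4 (ppart rpart)

local notation "cJ" => CfsgH2.cj

universe u
variable {G : Type*} [Group G] [Finite G] {H K : Subgroup G} {a b y : G}

def EC (H : Subgroup G) : Prop :=
  ∀ g, ∃ K : Subgroup G, ¬ 2 ∣ o[K] ∧ H ≤ N[K] ∧ H.map (cJ g) ≤ K ⊔ H

theorem syl_sup (hH : IsPGroup 2 H) (hK : ¬ 2 ∣ o[K]) (n : H ≤ N[K]) : Syl 2 H (K ⊔ H) :=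
  sup_comm H K ▸ (Syl.self hH).sup_coprime (Or.inl n) hK

theorem odd_mem (hH : IsPGroup 2 H) (hK : ¬ 2 ∣ o[K]) (n : H ≤ N[K]) {x : G} (hx : x ∈ K ⊔ H)
    (ho : ¬ 2 ∣ orderOf x) : x ∈ K := by
  have n' : K ⊔ H ≤ N[K] := sup_le le_normalizer n
  have h1 := (NPC.of_sup n' hK hH rfl).mem hx ((coprime_iff_not_dvd Nat.prime_two).2 ho)
  obtain ⟨k, hk, h, hh, rfl⟩ := (mem_sup_of_norm' n).1 hx
  have h2 := (le_pPrimeCoreOf le_sup_left n' hK) hk
  have h3 := ((O[{2}ᶜ, K ⊔ H]).mul_mem_cancel_left h2).1 h1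
  rw [eq_one_of_coprime_order hH hh ((coprime_iff_not_dvd Nat.prime_two).2 (odd_core h3)), mul_one]
  exact hk

theorem odd_of_mem (hK : ¬ 2 ∣ o[K]) {x : G} (hx : x ∈ K) : ¬ 2 ∣ orderOf x :=
  fun h => hK (h.trans (orderOf_dvd_of_mem hx))

theorem eq_one (hH : IsPGroup 2 H) (hK : ¬ 2 ∣ o[K]) {x : G} (h1 : x ∈ H) (h2 : x ∈ K) : x = 1 :=
  eq_one_of_coprime_order hH h1 ((coprime_iff_not_dvd Nat.prime_two).2 (odd_of_mem hK h2))

theorem conj_norm (hH : IsPGroup 2 H) (hK : ¬ 2 ∣ o[K]) (n : H ≤ N[K]) {g : G}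
    (h : H.map (cJ g) ≤ K ⊔ H) : g ∈ K ⊔ N[H] := by
  obtain ⟨l, hl, h1⟩ := (syl_sup hH hK n).exists_conj_le (hH.map _) h
  rw [map_cj_cj] at h1
  have := mul_mem (inv_mem (sup_le_sup_left le_normalizer K hl))
    (mem_sup_right (S := K) (mem_norm_of_map_le h1))
  rwa [inv_mul_cancel_left] at this

def I (H : Subgroup G) (y : G) : Prop := y * y = 1 ∧ ∃ g, y ∈ H.map (cJ g)

def R (H : Subgroup G) (a y : G) : Prop := I H y ∧ ¬ 2 ∣ orderOf (a * y)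

omit [Finite G] in
theorem I.conj (h : I H y) (g : G) : I H (g * y * g⁻¹) := by
  obtain ⟨h1, x, h2⟩ := h
  exact ⟨CI.sq_conj h1 g, g * x, by rw [← map_cj_cj]; exact conj_mem_map_cj h2⟩

omit [Finite G] in
theorem R.conj (h : R H a y) (g : G) : R H (g * a * g⁻¹) (g * y * g⁻¹) :=
  ⟨h.1.conj g, by
    rw [show g * a * g⁻¹ * (g * y * g⁻¹) = g * (a * y) * g⁻¹ by group, orderOf_conj']; exact h.2⟩

theorem lemA (hH : IsPGroup 2 H) (ec : EC H) (h : I H y) : ∃ a ∈ H, a * a = 1 ∧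
    ∃ K : Subgroup G, ¬ 2 ∣ o[K] ∧ H ≤ N[K] ∧ a * y ∈ K := by
  obtain ⟨y2, g, hg⟩ := h
  obtain ⟨K, hK, n, l⟩ := ec g
  obtain ⟨a, ha, k, hk, rfl⟩ := (mem_sup_of_norm n).1 (sup_comm K H ▸ l hg)
  have a2 : a * a = 1 := eq_one hH hK (mul_mem ha ha) (by
    have := inv_mem (mul_mem (conj_mem_of_norm' (n ha) hk) hk)
    rwa [show a⁻¹ * k * a * k = (a * a)⁻¹ * (a * k * (a * k)) by group, y2, mul_one, inv_inv] at this)
  exact ⟨a, ha, a2, K, hK, n, by rwa [← mul_assoc, a2, one_mul]⟩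

theorem lemC (hH : IsPGroup 2 H) (ec : EC H) (ha : a ∈ H) (h : R H a y) :
    ∃ K : Subgroup G, ¬ 2 ∣ o[K] ∧ H ≤ N[K] ∧ a * y ∈ K := by
  obtain ⟨a', ha', -, K, hK, n, h1⟩ := lemA hH ec h.1
  refine ⟨K, hK, n, odd_mem hH hK n ?_ h.2⟩
  have := mul_mem (mem_sup_right (S := K) (mul_mem ha (inv_mem ha'))) (mem_sup_left h1)
  rwa [mul_assoc, inv_mul_cancel_left] at this

theorem lemB (hH : IsPGroup 2 H) (hab : Ab[H]) (hK : ¬ 2 ∣ o[K]) (n : H ≤ N[K]) (ha : a ∈ H)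
    (a2 : a * a = 1) (hb : b ∈ H) (b2 : b * b = 1) (y2 : y * y = 1) (h : a * y ∈ K)
    (ih : ∀ g ∈ C1[b], H.map (cJ g) ≤ O[{2}ᶜ, C1[b]] ⊔ H) :
    ppart 2 (b * y) * (b * a)⁻¹ ∈ O[{2}ᶜ, C1[b]] := by
  have hba := mul_mem hb ha
  have hHb : H ≤ C1[b] := le_cent1_iff.2 (le_cent_of_comm hab le_rfl hb)
  have e0 : b * y = b * a * (a * y) := by rw [mul_assoc, ← mul_assoc a, a2, one_mul]
  have m0 : b * y ∈ K ⊔ H := e0 ▸ mul_mem (mem_sup_right hba) (mem_sup_left h)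
  have m1 : rpart 2 (b * y) ∈ K :=
    odd_mem hH hK n (CfsgH4.rpart_mem 2 m0) (CfsgH4.reg_rpart 2 _)
  have e1 := CfsgH4.ppart_mul_rpart 2 (b * y)
  have iz := inv_zpowers (CI.inv_l b2 y2) (CfsgH4.ppart_mem_zpowers 2 (b * y))
  have mz := CfsgH4.ppart_mem 2 m0
  obtain ⟨m, hm⟩ := CfsgH4.pelt_ppart 2 (b * y)
  generalize ppart 2 (b * y) = z at *
  generalize rpart 2 (b * y) = r at *
  have m2 : (b * a)⁻¹ * z ∈ K := by
    have := mul_mem h (inv_mem m1)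
    rwa [show a * y = (b * a)⁻¹ * (b * y) by rw [e0, inv_mul_cancel_left], ← e1,
      mul_assoc, mul_inv_cancel_right] at this
  have c2 : b * a * (b * a) = 1 := by
    rw [mul_assoc, ← mul_assoc a, comm_of_isMulComm hab ha hb, mul_assoc, a2, mul_one, b2]
  have pz : IsPGroup 2 (zpowers z) := isPGroup_zpowers (k := m) (by rw [← hm, pow_orderOf_eq_one])
  generalize b * a = c at *
  have z2 : z * z = 1 := eq_one pz hK (mul_mem (mem_zpowers z) (mem_zpowers z)) (by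
    have := mul_mem (conj_mem_of_norm' (n hba) m2) m2
    rwa [show c⁻¹ * (c⁻¹ * z) * c * (c⁻¹ * z) = (c * c)⁻¹ * (z * z) by group, c2, inv_one,
      one_mul] at this)
  have zb : z ∈ C1[b] := mem_centralizer_singleton_iff.2 (by
    rw [inv_eq_of_mul_eq_one_right z2, mul_inv_eq_iff_eq_mul] at iz; exact iz.symm)
  have hK' : ¬ 2 ∣ o[(K ⊓ C1[b] : Subgroup G)] := fun e => hK (e.trans (card_dvd_of_le inf_le_left))
  have n' : H ≤ N[K ⊓ C1[b]] := le_norm_inf n (le_norm_of_le hHb)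
  have mz' : z ∈ K ⊓ C1[b] ⊔ H := by
    rw [← sup_inf_of_norm' (Or.inr n) hHb]; exact ⟨mz, zb⟩
  obtain ⟨l, hl, h1⟩ := (syl_sup hH hK' n').exists_conj_le pz (zpowers_le.2 mz')
  obtain ⟨x, hx, k, hk, rfl⟩ := (mem_sup_of_norm n').1 (sup_comm _ H ▸ hl)
  have h2 : k * z * k⁻¹ ∈ H := by
    have := mul_mem (mul_mem (inv_mem hx) (h1 (conj_mem_map_cj (mem_zpowers z)))) hx
    rwa [show x⁻¹ * (x * k * z * (x * k)⁻¹) * x = k * z * k⁻¹ by group] at this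
  have hk1 := (mem_inf.1 hk).1
  have hk2 := (mem_inf.1 hk).2
  have h3 : c⁻¹ * (k * z * k⁻¹) = 1 := eq_one hH hK (mul_mem (inv_mem hba) h2) (by
    have := mul_mem (mul_mem (conj_mem_of_norm' (n hba) hk1) m2) (inv_mem hk1)
    rwa [show c⁻¹ * k * c * (c⁻¹ * z) * k⁻¹ = c⁻¹ * (k * z * k⁻¹) by group] at this)
  refine odd_mem hH not_dvd_piCoreOf (hHb.trans le_norm_piCoreOf)
    (mul_mem (ih k⁻¹ (inv_mem hk2) (mem_map_cj.2 (by rwa [inv_inv]))) (mem_sup_right (inv_mem hba)))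
    (odd_of_mem hK ?_)
  have := conj_mem_of_norm (n hba) m2
  rwa [mul_inv_cancel_left] at this

theorem lemD (hH : IsPGroup 2 H) (hab : Ab[H]) (ec : EC H) (ha : a ∈ H) (a2 : a * a = 1)
    (hb : b ∈ H) (b2 : b * b = 1) (ih : ∀ g ∈ C1[b], H.map (cJ g) ≤ O[{2}ᶜ, C1[b]] ⊔ H)
    {w : G} (hw : w ∈ O[{2}ᶜ, C1[b]]) (h : R H a y) : R H a (w * y * w⁻¹) := by
  obtain ⟨K, hK, n, h1⟩ := lemC hH ec ha h
  have h' := h.1.conj w
  obtain ⟨a', ha', a2', K', hK', n', h1'⟩ := lemA hH ec h'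
  have e1 := lemB hH hab hK n ha a2 hb b2 h.1.1 h1 ih
  have e2 := lemB hH hab hK' n' ha' a2' hb b2 h'.1 h1' ih
  have hHb : H ≤ C1[b] := le_cent1_iff.2 (le_cent_of_comm hab le_rfl hb)
  have wb : w * b = b * w := mem_centralizer_singleton_iff.1 (piCoreOf_le hw)
  rw [show b * (w * y * w⁻¹) = w * (b * y) * w⁻¹ by rw [← mul_assoc w, wb]; group,
    CfsgH4.ppart_conj] at e2
  have m := mul_mem hb ha
  have m' := mul_mem hb ha'
  have e3 : b * a * (b * a')⁻¹ = 1 := eq_one (K := O[{2}ᶜ, C1[b]]) hH not_dvd_piCoreOf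
      (mul_mem m (inv_mem m')) (by
    generalize ppart 2 (b * y) = z at *
    generalize b * a = c at *
    generalize b * a' = c' at *
    have c0 := conj_mem_of_norm (le_norm_piCoreOf (hHb m)) (inv_mem hw)
    have := mul_mem (inv_mem c0) (mul_mem (inv_mem (mul_mem hw e1)) e2)
    rwa [show (c * w⁻¹ * c⁻¹)⁻¹ * ((w * (z * c⁻¹))⁻¹ * (w * z * w⁻¹ * c'⁻¹)) =
      c * w * w⁻¹ * c'⁻¹ by group, mul_inv_cancel_right] at this)
  rw [mul_left_cancel (mul_inv_eq_one.1 e3)]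
  exact ⟨h', odd_of_mem hK' h1'⟩

def G0 (H : Subgroup G) : Subgroup G where
  carrier := {g | ∀ a ∈ H, a * a = 1 → ∀ y, R H a y ↔ R H a (g * y * g⁻¹)}
  one_mem' := fun _ _ _ _ => by simp
  mul_mem' := fun {g h} hg hh a ha a2 y => by
    rw [hh a ha a2, hg a ha a2, show g * (h * y * h⁻¹) * g⁻¹ = g * h * y * (g * h)⁻¹ by group]
  inv_mem' := fun {g} hg a ha a2 y => by
    rw [hg a ha a2 (g⁻¹ * y * g⁻¹⁻¹), show g * (g⁻¹ * y * g⁻¹⁻¹) * g⁻¹ = y by group]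

omit [Finite G] in
theorem R.conj_iff (g : G) : R H a y ↔ R H (g * a * g⁻¹) (g * y * g⁻¹) :=
  ⟨fun h => h.conj g, fun h => by
    have := h.conj g⁻¹
    rwa [show g⁻¹ * (g * a * g⁻¹) * g⁻¹⁻¹ = a by group,
      show g⁻¹ * (g * y * g⁻¹) * g⁻¹⁻¹ = y by group] at this⟩

theorem norm_G0 : N[H] ≤ N[G0 H] := fun n hn => mem_norm_of_conj fun g hg a ha a2 y => by
  rw [R.conj_iff n⁻¹, hg _ (conj_mem_of_norm (inv_mem hn) ha) (CI.sq_conj a2 _), R.conj_iff n,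
    show n * (n⁻¹ * a * n⁻¹⁻¹) * n⁻¹ = a by group,
    show n * (g * (n⁻¹ * y * n⁻¹⁻¹) * g⁻¹) * n⁻¹ = n * g * n⁻¹ * y * (n * g * n⁻¹)⁻¹ by group]

omit [Finite G] in
theorem le_G0 (hab : Ab[H]) : H ≤ G0 H := fun h hh a ha _ y => by
  rw [R.conj_iff h, comm_of_isMulComm hab hh ha, mul_inv_cancel_right]

omit [Finite G] in
theorem R_self (ha : a ∈ H) (a2 : a * a = 1) : R H a a :=
  ⟨⟨a2, 1, (map_cj_of_mem (one_mem H)).symm ▸ ha⟩, by rw [a2, orderOf_one]; decide⟩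

omit [Finite G] in
theorem mem_zpowers_two {x : G} (h : orderOf x = 2) (hy : y ∈ zpowers x) : y = 1 ∨ y = x := by
  obtain ⟨k, rfl⟩ := hy
  rcases Int.even_or_odd' k with ⟨m, rfl | rfl⟩
  · left; simp only; rw [zpow_mul, zpow_two, inv_mul_self h, one_zpow]
  · right; simp only; rw [zpow_add, zpow_mul, zpow_two, inv_mul_self h, one_zpow, one_mul, zpow_one]

theorem exN (hH : IsPGroup 2 H) (hab : Ab[H]) (ec : EC H) (h0 : H ≠ ⊥)
    (hO : O[{2}ᶜ, (⊤ : Subgroup G)] = ⊥)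
    (ih : ∀ b ∈ H, C1[b] ≠ ⊤ → ∀ g ∈ C1[b], H.map (cJ g) ≤ O[{2}ᶜ, C1[b]] ⊔ H) :
    ∃ N : Subgroup G, N.Normal ∧ N ≠ ⊥ ∧ N ≤ H := by
  by_cases hc : ∃ b ∈ H, b ≠ 1 ∧ C1[b] = ⊤
  · obtain ⟨b, hb, b1, e⟩ := hc
    refine ⟨zpowers b, normal_of_top_le_norm ?_, by simpa using b1, zpowers_le.2 hb⟩
    rw [← e, ← cent_zpowers]; exact cent_le_norm _
  push Not at hc
  replace ih := fun b hb b1 => ih b hb (hc b hb b1)
  let Ω : Subgroup G :=
    { carrier := {a | a ∈ H ∧ a * a = 1}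
      one_mem' := ⟨one_mem H, one_mul 1⟩
      mul_mem' := fun {a b} ha hb => ⟨mul_mem ha.1 hb.1, by
        rw [mul_assoc, ← mul_assoc b, comm_of_isMulComm hab hb.1 ha.1, mul_assoc, hb.2, mul_one, ha.2]⟩
      inv_mem' := fun {a} ha => ⟨inv_mem ha.1, by rw [← mul_inv_rev, ha.2, inv_one]⟩ }
  have lΩ : Ω ≤ H := fun a ha => ha.1
  obtain ⟨a0, ha0, o0⟩ := exists_prime_order_mem Nat.prime_two (dvd_card_of_pgroup hH h0)
  have hO' := pPrimeCore_eq'.trans hO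
  have hcyc : ¬ Cyc[Ω] := fun hcy => by
    refine hc a0 ha0 (inv_ne_one o0) (eq_top_iff.2 fun g _ => mem_centralizer_singleton_iff.2
      (mem_center_iff.1 (CfsgH4.zstar_center (CfsgH4.isolated_of_odd o0 fun g => ?_) hO') g))
    obtain ⟨a, ha, a2, K, hK, n, h1⟩ := lemA hH ec ((R_self ha0 (inv_mul_self o0)).1.conj g)
    have o := odd_of_mem hK h1
    have a1 : a ≠ 1 := fun e => o (by rw [e, one_mul, orderOf_conj', o0])
    rcases cyc_le_or_le hcy (hH.to_le lΩ) (zpowers_le.2 (show a ∈ Ω from ⟨ha, a2⟩))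
      (zpowers_le.2 (show a0 ∈ Ω from ⟨ha0, inv_mul_self o0⟩)) with h | h
    · rcases mem_zpowers_two o0 (h (mem_zpowers a)) with e | e
      · exact absurd e a1
      · rw [e] at o; exact Nat.odd_iff.2 (by omega)
    · rcases mem_zpowers_two (orderOf_two_iff.2 ⟨a2, a1⟩) (h (mem_zpowers a0)) with e | e
      · exact absurd e (inv_ne_one o0)
      · rw [← e] at o; exact Nat.odd_iff.2 (by omega)
  have top : ⊤ ≤ G0 H ⊔ N[H] := fun g _ => by
    obtain ⟨K, hK, n, l⟩ := ec g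
    refine (sup_le ?_ le_sup_right : K ⊔ N[H] ≤ G0 H ⊔ N[H]) (conj_norm hH hK n l)
    refine le_of_cent1 (isMulComm_of_le hab lΩ) hcyc (lΩ.trans n)
      (coprime_of_pgroup (hH.to_le lΩ) hK) fun b hb b1 c hc => ?_
    have hHb : H ≤ C1[b] := le_cent1_iff.2 (le_cent_of_comm hab le_rfl hb.1)
    refine (sup_le_sup_right ?_ _ : O[{2}ᶜ, C1[b]] ⊔ N[H] ≤ G0 H ⊔ N[H])
      (conj_norm hH not_dvd_piCoreOf (hHb.trans le_norm_piCoreOf) (ih b hb.1 b1 c hc.2))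
    refine fun w hw a ha a2 y => ⟨lemD hH hab ec ha a2 hb.1 hb.2 (ih b hb.1 b1) hw, fun h => ?_⟩
    have := lemD hH hab ec ha a2 hb.1 hb.2 (ih b hb.1 b1) (inv_mem hw) h
    rwa [show w⁻¹ * (w * y * w⁻¹) * w⁻¹⁻¹ = y by group] at this
  haveI : (G0 H).Normal := normal_of_top_le_norm (top.trans (sup_le le_normalizer norm_G0))
  refine ⟨Ω, normal_of_top_le_norm (top.trans (sup_le (le_norm_of_le_cent fun g hg => ?_)
    fun n hn => mem_norm_of_conj fun a ha => ⟨conj_mem_of_norm hn ha.1, CI.sq_conj ha.2 n⟩)),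
    fun e => inv_ne_one o0 (mem_bot.1 (e ▸ (show a0 ∈ Ω from ⟨ha0, inv_mul_self o0⟩))), lΩ⟩
  refine mem_cent_iff.2 fun a ha => ?_
  by_cases a1 : a = 1
  · simp [a1]
  have := CfsgH4.zstar_center (u := (⟨a, le_G0 hab ha.1⟩ : G0 H)) (CfsgH4.isolated_of_odd
    (by rw [orderOf_mk]; exact orderOf_two_iff.2 ⟨ha.2, a1⟩) fun x => by
      have := ((x.2 a ha.1 ha.2 a).1 (R_self ha.1 ha.2)).2
      rw [← orderOf_coe]
      exact Nat.odd_iff.2 (by
        simp only [MulMemClass.coe_mul, InvMemClass.coe_inv]; omega))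
    (CfsgH4.core_eq_bot_of_normal hO' _)
  exact (congrArg Subtype.val (mem_center_iff.1 this ⟨g, hg⟩)).symm

omit [Finite G] in
theorem EC.map {G' : Type*} [Group G'] (ec : EC H) {f : G →* G'} (hf : Function.Surjective f) :
    EC (H.map f) := fun g => by
  obtain ⟨g, rfl⟩ := hf g
  obtain ⟨K, hK, n, l⟩ := ec g
  refine ⟨K.map f, fun e => hK (e.trans (card_map_dvd _ _)), map_le_norm_map f n, ?_⟩
  rw [← map_map_cj, ← Subgroup.map_sup]
  exact map_mono l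

theorem EC.sub (ec : EC H) {M : Subgroup G} (hM : H ≤ M) : EC (H.subgroupOf M) := fun g => by
  obtain ⟨K, hK, n, l⟩ := ec g
  have hi := M.subtype_injective
  have e : ∀ X : Subgroup G, (X.subgroupOf M).map M.subtype = X ⊓ M := fun X =>
    subgroupOf_map_subtype X M
  refine ⟨K.subgroupOf M, fun h => hK (h.trans (card_comap_dvd_of_injective _ _ hi)), ?_, ?_⟩
  · rw [← inj_le_norm hi, e, e, inf_eq_left.2 hM]
    exact le_norm_inf n (le_norm_of_le hM)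
  · rw [← map_le_map_iff_of_injective hi, map_map_cj, Subgroup.map_sup, e, e, inf_eq_left.2 hM,
      ← sup_inf_of_norm' (Or.inr n) hM]
    exact le_inf l (map_cj_le_of_mem hM g.2)

theorem main (n : ℕ) : ∀ (G : Type u) [Group G] [Finite G] (H : Subgroup G), Nat.card G = n →
    IsPGroup 2 H → Ab[H] → EC H → ∀ g, H.map (cJ g) ≤ O[{2}ᶜ, (⊤ : Subgroup G)] ⊔ H := by
  induction n using Nat.strong_induction_on with
  | _ n ih =>
  intro G _ _ H hn hH hab ec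
  have q : ∀ (N : Subgroup G) [N.Normal], N ≠ ⊥ → ∀ g, H.map (cJ g) ≤
      O[{2}ᶜ, (⊤ : Subgroup (G ⧸ N))].comap (QuotientGroup.mk' N) ⊔ H := fun N _ h0 g => by
    have sj := QuotientGroup.mk'_surjective N
    have := ih _ (hn ▸ card_quot_lt h0) (G ⧸ N) (H.map (QuotientGroup.mk' N)) rfl (hH.map _)
      (isMulComm_map _ hab) (ec.map sj) (QuotientGroup.mk' N g)
    rw [← map_map_cj, ← map_comap_eq_self_of_surjective sj O[{2}ᶜ, (⊤ : Subgroup (G ⧸ N))],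
      ← Subgroup.map_sup, map_le_iff_le_comap, comap_map_eq_self (by
        rw [QuotientGroup.ker_mk']
        exact (QuotientGroup.le_comap_mk' N _).trans le_sup_left)] at this
    exact this
  by_cases hO : O[{2}ᶜ, (⊤ : Subgroup G)] = ⊥
  swap
  · intro g
    have := q _ hO g
    have e := piCoreOf_map_mk_self (π := {2}ᶜ) (⊤ : Subgroup G)
    rw [map_top_of_surjective _ (QuotientGroup.mk'_surjective _)] at e
    rwa [e, MonoidHom.comap_bot, QuotientGroup.ker_mk'] at this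
  by_cases h0 : H = ⊥
  · intro g; simp [h0]
  obtain ⟨N, hN, N0, l⟩ := exN hH hab ec h0 hO fun b hb hne g hg => by
    have hHb : H ≤ C1[b] := le_cent1_iff.2 (le_cent_of_comm hab le_rfl hb)
    have := map_mono (f := (C1[b]).subtype) (ih _ (hn ▸ card_lt_of_ne_top hne) C1[b]
      (H.subgroupOf _) rfl (hH.comap_subtype) (inferInstance) (ec.sub hHb) ⟨g, hg⟩)
    rwa [map_map_cj, Subgroup.map_sup, ← inj_piCoreOf (subtype_injective _), subgroupOf_map_subtype,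
      inf_eq_left.2 hHb, ← MonoidHom.range_eq_map, range_subtype] at this
  intro g y hy
  have lX := QuotientGroup.le_comap_mk' N O[{2}ᶜ, (⊤ : Subgroup (G ⧸ N))]
  have hX : ¬ 2 ∣ N.relIndex (O[{2}ᶜ, (⊤ : Subgroup (G ⧸ N))].comap (QuotientGroup.mk' N)) := by
    rw [← CfsgH1.card_map_mk', map_comap_eq_self_of_surjective (QuotientGroup.mk'_surjective _)]
    exact not_dvd_piCoreOf
  have h1 := q N N0 g hy
  have nX : (O[{2}ᶜ, (⊤ : Subgroup (G ⧸ N))].comap (QuotientGroup.mk' N)).Normal := inferInstance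
  generalize O[{2}ᶜ, (⊤ : Subgroup (G ⧸ N))].comap (QuotientGroup.mk' N) = X at *
  have nN := top_le_norm_iff.2 hN
  have HC : H ≤ C[N] := le_cent_of_comm hab l
  have s : Syl 2 N (C[N] ⊓ X) := Syl.mono ⟨lX, hH.to_le l, hX⟩ (le_inf (l.trans HC) lX) inf_le_right
  have e := (s.npc_of_norm_le_cent (inf_le_left.trans inf_le_left)).sup_eq s
  rw [le_bot_iff.1 ((piCoreOf_le_of_norm le_top
    (le_norm_inf (le_norm_cent nN) (top_le_norm_iff.2 nX))).trans hO.le), bot_sup_eq] at e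
  obtain ⟨x, hx, h, hh, rfl⟩ := (mem_sup_of_norm' (le_top.trans (top_le_norm_iff.2 nX))).1 h1
  refine mem_sup_right (mul_mem (l (e.ge ⟨?_, hx⟩)) hh)
  exact ((C[N]).mul_mem_cancel_right (HC hh)).1
    (map_cj_le_of_norm HC (le_norm_cent nN (mem_top g)) hy)

end CfsgL0.EC
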