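import Cfsg.Agent.L0.FS3
import Cfsg.Agent.H5.Unit2
import Cfsg.Agent.H5.Symp2
import Cfsg.Agent.H8.PermModule

/-! Sylow `p`-subgroups of symplectic and unitary groups in defining characteristic. -/

namespace CfsgL0
open Function Subgroup Cfsg CfsgH2 CfsgH5 CfsgH5.CForm Module

theorem asimple {G₀ G : Type*} [Group G₀] [Finite G₀] [Group G] [Finite G] {p : ℕ} [Fact p.Prime] {L S : Subgroup G₀}
    (hS : Syl p S L) (h1 : S ≠ ⊥)
    (h2 : ∀ T ≤ S, (∀ x ∈ T, ∀ g ∈ L, g * x * g⁻¹ ∈ S → g * x * g⁻¹ ∈ T) → T = ⊥ ∨ T = S)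
    (h3 : L ⊓ N[S] ≤ closure {g | g ∈ N[S] ∧ ∃ R ≤ S, (∀ x ∈ L, x ∈ C[R] → (∃ k, x ^ p ^ k = 1) → x ∈ R) ∧
      g ∈ closure {g | g ∈ L ∧ g ∈ N[R] ∧ ∃ k, g ^ p ^ k = 1}})
    (π : L →* G) (hπ : Surjective π) (hk : ∀ x : L, x.1 ∈ S → π x = 1 → x = 1) (S' : Sylow p G) :
    (groupFusionSystem (S' : Subgroup G)).IsSimple p := by
  obtain ⟨U, hU⟩ := hS.subgroupOf.exists_top
  have nm : ∀ R ≤ S, ∀ g : L, g ∈ N[R.subgroupOf L] ↔ g.1 ∈ N[R] := fun R hR g => by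
    rw [← subgroupOf_normalizer_eq (hR.trans hS.le)]; rfl
  have cl : ∀ {X : Set G₀} {Y : Subgroup L} {g : G₀}, g ∈ closure X → (∀ x ∈ X, ∃ h : x ∈ L, ⟨x, h⟩ ∈ Y) →
      ∃ h : g ∈ L, ⟨g, h⟩ ∈ Y := fun {X Y g} hg h => by
    have : closure X ≤ Y.map L.subtype := (closure_le _).2 fun x hx => ⟨⟨x, (h x hx).1⟩, (h x hx).2, rfl⟩
    obtain ⟨y, a, rfl⟩ := this hg
    exact ⟨y.2, a⟩
  refine simple_map U (gsimple U ?_ (fun T hT => ?_) fun g hg => ?_) π hπ (fun x hx => hk x (hU.le hx)) S'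
  · rw [hU, Ne, subgroupOf_eq_bot, disjoint_iff, inf_eq_left.2 hS.le]; exact h1
  · rw [hU] at hT ⊢
    have e : (T.map L.subtype).subgroupOf L = T := comap_map_eq_self_of_injective L.subtype_injective T
    refine (h2 (T.map L.subtype) (by rintro _ ⟨x, a, rfl⟩; exact hT.1 a) ?_).imp (fun h => ?_) fun h => by rw [← e, h]
    · rintro _ ⟨x, a, rfl⟩ g hg h
      exact ⟨_, hT.2 x a ⟨g, hg⟩ h, rfl⟩
    · exact (map_eq_bot_iff_of_injective _ L.subtype_injective).1 h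
  · rw [hU] at hg ⊢
    refine (cl (h3 ⟨g.2, (nm S le_rfl g).1 hg⟩) fun x ⟨a, R, b, c, d⟩ => ?_).2
    obtain ⟨h, k⟩ := cl (Y := PN p (R.subgroupOf L)) d fun y ⟨e1, e2, k, e3⟩ =>
      ⟨e1, subset_closure ⟨(nm R b _).2 e2, k, Subtype.ext e3⟩⟩
    refine ⟨h, subset_closure ⟨(nm S le_rfl _).2 a, Or.inr ⟨_, centric_of hS.subgroupOf.pg (comap_mono b) ?_, k⟩⟩⟩
    rintro z hz ⟨k, hk⟩
    exact c z z.2 (fun r hr => congrArg Subtype.val (hz ⟨r, hS.le (b hr)⟩ hr)) ⟨k, congrArg Subtype.val hk⟩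

namespace Frm
universe u v
variable {F : Type u} [Field F] {P : FP F} {V : Type v} [AddCommGroup V] [Module F V] {f : CForm P V}
  {g s z : V ≃ₗ[F] V} {x y a b : V} {c l : F} {K : Submodule F V} {S T : Subgroup (V ≃ₗ[F] V)} {p : ℕ}

theorem eich_pow (h : f.IsEich g x a c) (n : ℕ) : ∃ d, f.IsEich (g ^ n) x ((n : F) • a) d ∧ (a = 0 → d = n * c) := by
  induction n with
  | zero => exact ⟨0, by simpa using isEich_one h.hx, by simp⟩
  | succ n ih =>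
    obtain ⟨d, h1, h2⟩ := ih
    exact ⟨_, by simpa [pow_succ, add_smul] using h1.mul h, fun e => by simp [h2 e, e, add_mul]⟩

theorem eich_p [CharP F p] (h : f.IsEich g x a c) : g ^ p ^ 2 = 1 := by
  obtain ⟨d, h1, -⟩ := eich_pow h p
  obtain ⟨e, h2, h3⟩ := eich_pow h1 p
  rw [h3 (by simp)] at h2
  rw [sq, pow_mul]
  exact h2.unique (by simpa using isEich_one h.hx)

theorem eig_one [Fact p.Prime] [CharP F p] (h : g x = l • x) (hx : x ≠ 0) {k : ℕ} (hk : g ^ p ^ k = 1) : g x = x := by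
  have e : ∀ n : ℕ, (g ^ n) x = l ^ n • x := fun n => by
    induction n with
    | zero => simp
    | succ n ih => rw [pow_succ', LinearEquiv.mul_apply, ih, map_smul, h, smul_smul, pow_succ]
  have h1 : (l ^ p ^ k - 1) • x = 0 := by rw [sub_smul, ← e, hk]; simp
  have h2 : (l - 1) ^ p ^ k = 0 := by rw [sub_pow_char_pow, one_pow]; exact (smul_eq_zero.1 h1).resolve_right hx
  rw [h, sub_eq_zero.1 (pow_eq_zero_iff (pow_ne_zero k (Fact.out : p.Prime).ne_zero) |>.1 h2), one_smul]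

theorem comm_eich (h : f.IsHyp x y) (hz : z ∈ f.Isom) (hx : z x = x) (hg : f.IsEich g x a c) (e : g * z = z * g) :
    z a - a ∈ F ∙ x := by
  have h1 := hg.conj hz
  rw [← e, mul_inv_cancel_right, hx] at h1
  have := (h1.app y).symm.trans (hg.app y)
  rw [h.hyx, P.εε] at this
  exact Submodule.mem_span_singleton.2 ⟨f.B y (z a) - f.B y a, by linear_combination (norm := module) this⟩

theorem comm_tv [FiniteDimensional F V] (hf : f.Nondeg) (hz : z ∈ f.Isom) (hx : x ≠ 0) (hg : f.IsEich g x 0 c) (hc : c ≠ 0)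
    (e : g * z = z * g) : ∃ l : F, z x = l • x := by
  have h1 := hg.conj hz
  rw [← e, mul_inv_cancel_right, map_zero] at h1
  obtain ⟨v, hv⟩ := hf.exists_B_eq_one (x := z x) (by simpa)
  have := (h1.app v).symm.trans (hg.app v)
  rw [f.B_symm (z x) v, hv, map_one] at this
  refine ⟨P.ε * f.B v x, smul_right_injective V hc ?_⟩
  have e1 := P.εε
  simp only [B_zero_right] at this
  linear_combination (norm := skip) (-1 : F) • this
  match_scalars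
  · linear_combination (-c) * e1
  · ring
  · ring

variable (f) in
/-- isometries fixing `K` -/
abbrev IK (K : Submodule F V) : Subgroup (V ≃ₗ[F] V) := f.Isom ⊓ fixS F (K : Set V)

variable (f) in
/-- Eichler transformations at `x` fixing `K` -/
def TK (x : V) (hx : f.Q x = 0) (K : Submodule F V) : Subgroup (V ≃ₗ[F] V) where
  carrier := {g | ∃ a c, f.IsEich g x a c ∧ ∀ w ∈ K, f.B w a = 0}
  mul_mem' := fun ⟨_, _, h, k⟩ ⟨_, _, h', k'⟩ => ⟨_, _, h.mul h', fun w hw => by simp [k w hw, k' w hw]⟩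
  one_mem' := ⟨_, _, isEich_one hx, by simp⟩
  inv_mem' := fun ⟨_, _, h, k⟩ => ⟨_, _, h.inv, fun w hw => by simp [k w hw]⟩

theorem TK_le (hx : f.Q x = 0) (kx : ∀ w ∈ K, f.B w x = 0) : TK f x hx K ≤ IK f K := fun _ ⟨_, _, h, k⟩ =>
  ⟨h.mem_Isom, fun w hw => h.fix (kx w hw) (k w hw)⟩

theorem TK_pg [CharP F p] (hx : f.Q x = 0) : IsPGroup p (TK f x hx K) :=
  isPGroup_of_forall fun _ ⟨_, _, h, _⟩ => ⟨2, eich_p h⟩

theorem eich_conj (hs : s ∈ f.Isom) (h : s x = l • x) (hl : l ≠ 0) (hg : f.IsEich g x a c) :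
    f.IsEich (s * g * s⁻¹) x (P.σ l • s a) (l * P.σ l * c) := by
  have h1 := hg.conj hs
  rw [h] at h1
  refine h1.smul hg.hx ?_
  have := h1.ha
  simpa [hl] using this

theorem TK_conj (hx : f.Q x = 0) (hs : s ∈ f.Isom) (h : s x = l • x) (hl : l ≠ 0)
    (hK : ∀ a, (∀ w ∈ K, f.B w a = 0) → ∀ w ∈ K, f.B w (s a) = 0) (hg : g ∈ TK f x hx K) :
    s * g * s⁻¹ ∈ TK f x hx K := by
  obtain ⟨a, c, h1, h2⟩ := hg
  exact ⟨_, _, eich_conj hs h hl h1, fun w hw => by simp [hK a h2 w hw]⟩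

/-- adjoin a hyperbolic pair -/
abbrev adj (K : Submodule F V) (x y : V) : Submodule F V := K ⊔ Submodule.span F {x, y}

theorem mem_IK_adj : g ∈ IK f (adj K x y) ↔ g ∈ IK f K ∧ g x = x ∧ g y = y := by
  simp [IK, adj, mem_fixS_sup, mem_fixS_span, and_assoc]

theorem perp_adj : (∀ w ∈ adj K x y, f.B w a = 0) ↔ (∀ w ∈ K, f.B w a = 0) ∧ f.B a x = 0 ∧ f.B a y = 0 := by
  rw [← mem_perp', perp_sup, Submodule.mem_inf, mem_perp', IsHyp.mem_perp]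

theorem nd_adj (hK : K ⊓ f.perp K = ⊥) (h : f.IsHyp x y) (kx : ∀ w ∈ K, f.B w x = 0) (ky : ∀ w ∈ K, f.B w y = 0) :
    adj K x y ⊓ f.perp (adj K x y) = ⊥ := by
  refine eq_bot_iff.2 fun v ⟨h1, h2⟩ => ?_
  obtain ⟨k, hk, u, hu, rfl⟩ := Submodule.mem_sup.1 h1
  obtain ⟨α, β, rfl⟩ := Submodule.mem_span_pair.1 hu
  obtain ⟨e1, e2, e3⟩ := perp_adj.1 (f.mem_perp'.1 h2)
  have e4 : β = 0 := by simpa [kx k hk, h.hxx, h.hyx, P.ε_ne] using e2
  have e5 : α = 0 := by simpa [ky k hk, h.hxy, h.hyy] using e3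
  subst e4 e5
  simpa using hK.le ⟨hk, f.mem_perp'.2 (by simpa using e1)⟩

theorem exists_TK (h : f.IsHyp x y) (ky : ∀ w ∈ K, f.B w y = 0) (kx : ∀ w ∈ K, f.B w x = 0) (hg : g ∈ IK f K)
    (hx : g x = x) : ∃ a c t, f.IsEich t x a c ∧ a = y - g y ∧ t ∈ TK f x h.hx K ∧ t⁻¹ * g ∈ IK f (adj K x y) := by
  obtain ⟨t, h1, h2⟩ := exists_eich_map h (hx ▸ h.map hg.1 : f.IsHyp x (g y))
  have h3 : t ∈ TK f x h.hx K := ⟨_, _, h1, fun w hw => by
    have := Isom_B f hg.1 w y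
    rw [hg.2 w hw] at this
    simp [this]⟩
  refine ⟨_, _, t, h1, rfl, h3, mem_IK_adj.2 ⟨mul_mem (inv_mem (TK_le _ kx h3)) hg, ?_, ?_⟩⟩
  · rw [LinearEquiv.mul_apply, hx, h1.inv.fix_x]
  · rw [LinearEquiv.mul_apply, ← h2]; simp

variable [Finite (V ≃ₗ[F] V)] [Fact p.Prime] [CharP F p]

omit [Fact p.Prime] [CharP F p] in
theorem norm_TK (hx : f.Q x = 0) (hs : s ∈ IK f K) (h : s x = x) : s ∈ N[TK f x hx K] :=
  mem_normalizer_fintype fun g hg => TK_conj hx hs.1 (h.trans (one_smul F x).symm) one_ne_zero (fun a ha w hw => by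
    rw [← hs.2 w hw, Isom_B f hs.1, ha w hw]) hg

theorem TK_le_syl (hS : Syl p S (IK f K)) (hx : f.Q x = 0) (kx : ∀ w ∈ K, f.B w x = 0) (h : ∀ s ∈ S, s x = x) :
    TK f x hx K ≤ S :=
  hS.le_of_norm (TK_pg hx) (TK_le hx kx) fun s hs => norm_TK hx (hS.le hs) (h s hs)

theorem syl_adj (hS : Syl p S (IK f K)) (h : f.IsHyp x y) (kx : ∀ w ∈ K, f.B w x = 0) (ky : ∀ w ∈ K, f.B w y = 0)
    (hx : ∀ s ∈ S, s x = x) : Syl p (S ⊓ IK f (adj K x y)) (IK f (adj K x y)) := by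
  refine Syl.of_max inf_le_right (hS.pg.to_le inf_le_left) fun R h1 h2 h3 => le_antisymm (le_inf ?_ h3) h2
  have h4 : R ⊔ TK f x h.hx K = S := hS.eq_of_le (isPGroup_sup h1 (TK_pg _) (.inl fun r hr =>
    norm_TK _ (mem_IK_adj.1 (h3 hr)).1 (mem_IK_adj.1 (h3 hr)).2.1)) (fun s hs => by
      obtain ⟨-, -, t, -, -, a, b⟩ := exists_TK h ky kx (hS.le hs) (hx s hs)
      exact (mul_mem_cancel_left (inv_mem (mem_sup_right a))).1 (mem_sup_left
        (h2 ⟨S.mul_mem (S.inv_mem (TK_le_syl hS _ kx hx a)) hs, b⟩)))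
    (sup_le (fun r hr => (mem_IK_adj.1 (h3 hr)).1) (TK_le _ kx))
  exact h4 ▸ le_sup_left

variable [FiniteDimensional F V] (hf : f.Nondeg) (hQ : ∀ v, f.B v v = 0 → f.Q v = 0)
include hf hQ

theorem exists_pair (hK : K ⊓ f.perp K = ⊥) (hS : Syl p S (IK f K)) (h0 : S ≠ ⊥) :
    ∃ x y, f.IsHyp x y ∧ (∀ w ∈ K, f.B w x = 0) ∧ (∀ w ∈ K, f.B w y = 0) ∧ ∀ s ∈ S, s x = x := by
  let X : Submodule F V :=
    { carrier := {v | ∀ s ∈ S, s v = v}
      add_mem' := fun ha hb s hs => by rw [map_add, ha s hs, hb s hs]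
      zero_mem' := fun s _ => map_zero s
      smul_mem' := fun c v hv s hs => by rw [map_smul, hv s hs] }
  obtain ⟨x, h1, h2, h3⟩ := CfsgH8.exists_fixed_of_isPGroup hS.pg
    ((LinearEquiv.automorphismGroup.toLinearMapMonoidHom).comp S.subtype) (f.perp X) (fun s v hv w hw => by
      show f.B (s.1 v) w = 0
      rw [← hw s.1 s.2, Isom_B f (hS.le s.2).1, hv w hw]) fun e => h0 (eq_bot_iff.2 fun s hs => by
      have : X = ⊤ := by rw [← hf.perp_perp X, e, perp_bot]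
      exact LinearEquiv.ext fun v => (this.ge trivial : v ∈ X) s hs)
  have h4 : x ∈ X := fun s hs => h3 ⟨s, hs⟩
  have kx : ∀ w ∈ K, f.B w x = 0 := fun w hw => f.mem_perp'.1 h1 w fun s hs => (hS.le hs).2 w hw
  obtain ⟨y, a, b⟩ := hf.exists_hyp (hQ x (h1 x h4)) (W := K) (fun e => h2 (hK.le ⟨e, f.mem_perp'.2 kx⟩)) kx
  exact ⟨x, y, a, kx, b, h4⟩

theorem syl_le (K : Submodule F V) : ∀ {S}, K ⊓ f.perp K = ⊥ → Syl p S (IK f K) →
    (∀ g ∈ S, ∀ x a c, f.IsEich g x a c → g ∈ T) → S ≤ T := by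
  induction K using (wellFounded_gt (α := Submodule F V)).induction with
  | _ K ih =>
  intro S hK hS h
  by_cases h0 : S = ⊥
  · exact h0 ▸ bot_le
  obtain ⟨x, y, h1, kx, ky, hx⟩ := exists_pair hf hQ hK hS h0
  have h2 := ih (adj K x y) (lt_of_le_of_ne le_sup_left fun e => h1.x_ne (hK.le ⟨e ▸ Submodule.mem_sup_right
    (Submodule.subset_span (by simp)), f.mem_perp'.2 kx⟩)) (nd_adj hK h1 kx ky) (syl_adj hS h1 kx ky hx)
    fun g hg => h g hg.1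
  intro s hs
  obtain ⟨a, c, t, e1, -, e2, e3⟩ := exists_TK h1 ky kx (hS.le hs) (hx s hs)
  have e4 := TK_le_syl hS _ kx hx e2
  exact (mul_mem_cancel_left (inv_mem (h t e4 _ _ _ e1))).1 (h2 ⟨S.mul_mem (S.inv_mem e4) hs, e3⟩)

end Frm
end CfsgL0
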