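import Cfsg.Agent.L0.FS4

/-! Simplicity of the defining-characteristic fusion systems of symplectic and unitary groups. -/

namespace CfsgL0.Frm
open Function Subgroup Cfsg CfsgH2 CfsgH5 CfsgH5.CForm Module

universe u v
variable {F : Type u} [Field F] {P : FP F} {V : Type v} [AddCommGroup V] [Module F V] {f : CForm P V}
  {g s z : V ≃ₗ[F] V} {x y u v a b : V} {c l : F} {K : Submodule F V} {S T : Subgroup (V ≃ₗ[F] V)} {p : ℕ}

/-- two orthogonal hyperbolic pairs -/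
structure H2 (f : CForm P V) (x y u v : V) : Prop where
  h1 : f.IsHyp x y
  h2 : f.IsHyp u v
  ux : f.B u x = 0
  uy : f.B u y = 0
  vx : f.B v x = 0
  vy : f.B v y = 0

namespace H2
variable (h : H2 f x y u v)
include h
theorem xu : f.B x u = 0 := f.B_zero_symm h.ux
theorem yu : f.B y u = 0 := f.B_zero_symm h.uy
theorem xv : f.B x v = 0 := f.B_zero_symm h.vx
theorem yv : f.B y v = 0 := f.B_zero_symm h.vy
theorem symm : H2 f u v x y := ⟨h.h2, h.h1, h.xu, h.xv, h.yu, h.yv⟩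

theorem ext {g g' : V ≃ₗ[F] V} (e1 : g x = g' x) (e2 : g y = g' y) (e3 : g u = g' u) (e4 : g v = g' v)
    (e5 : ∀ w, f.B w x = 0 → f.B w y = 0 → f.B w u = 0 → f.B w v = 0 → g w = g' w) : g = g' := by
  refine h.h1.ext e1 e2 fun w a b => ?_
  obtain ⟨w', c, d, e⟩ := h.h2.decomp w
  have a' : f.B w' x = 0 := by rw [e] at a; simpa [h.ux, h.vx] using a
  have b' : f.B w' y = 0 := by rw [e] at b; simpa [h.uy, h.vy] using b
  rw [e, map_add, map_add, map_add, map_add, map_smul, map_smul, map_smul, map_smul, e3, e4, e5 w' a' b' c d]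

theorem exists_tor2 [FiniteDimensional F V] (hl : l ≠ 0) {m : F} (hm : m ≠ 0) (e : l * m * (P.σ (l * m))⁻¹ = 1) :
    ∃ s ∈ f.SIsom, s x = l • x ∧ s y = (P.σ l)⁻¹ • y ∧ s u = m • u ∧ s v = (P.σ m)⁻¹ • v ∧
      ∀ w, f.B w x = 0 → f.B w y = 0 → f.B w u = 0 → f.B w v = 0 → s w = w := by
  obtain ⟨s, hs⟩ := exists_tor h.h1 hl
  obtain ⟨t, ht⟩ := exists_tor h.h2 hm
  refine ⟨s * t, mem_SIsom.2 ⟨mul_mem hs.mem_Isom ht.mem_Isom, ?_⟩, ?_, ?_, ?_, ?_, fun w a b c d => ?_⟩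
  · rw [LinearEquiv.coe_toLinearMap_mul, map_mul, hs.det, ht.det, ← e, map_mul, mul_inv]; ring
  · rw [LinearEquiv.mul_apply, ht.fix h.xu h.xv, hs.app_x]
  · rw [LinearEquiv.mul_apply, ht.fix h.yu h.yv, hs.app_y]
  · rw [LinearEquiv.mul_apply, ht.app_x, map_smul, hs.fix h.ux h.uy]
  · rw [LinearEquiv.mul_apply, ht.app_y, map_smul, hs.fix h.vx h.vy]
  · rw [LinearEquiv.mul_apply, ht.fix c d, hs.fix a b]

theorem exists_root (a : F) : ∃ g, f.IsEich g x (P.σ a • v) 0 ∧ g x = x ∧ g y = y - P.σ a • v ∧ g u = u + a • x ∧ g v = v ∧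
    ∀ w, f.B w x = 0 → f.B w v = 0 → g w = w := by
  obtain ⟨g, hg⟩ := exists_eich (f := f) (x := x) (a := P.σ a • v) (c := 0) h.h1.hx (by simp [h.vx])
    (by simp [f.Q_smul, h.h2.hy])
  refine ⟨g, hg, hg.fix_x, ?_, ?_, hg.fix h.vx (by simp [h.h2.hyy]), fun w a b => hg.fix a (by simp [b])⟩
  · rw [hg.app]; simp [h.yv, h.h1.hyx, P.εε]
  · rw [hg.app_perp h.ux]; simp [h.h2.hxy]

theorem tor_mem {X : Subgroup (V ≃ₗ[F] V)} (hl : l ≠ 0)
    (hX : ∀ g, (∃ a : F, f.IsEich g x (a • v) 0) ∨ (∃ a : F, f.IsEich g u (a • y) 0) → g ∈ X)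
    (e1 : s x = l • x) (e2 : s y = (P.σ l)⁻¹ • y) (e3 : s u = l⁻¹ • u) (e4 : s v = (P.σ l⁻¹)⁻¹ • v)
    (e5 : ∀ w, f.B w x = 0 → f.B w y = 0 → f.B w u = 0 → f.B w v = 0 → s w = w) : s ∈ X := by
  obtain ⟨A, a0, a1, a2, a3, a4, a5⟩ := h.exists_root l
  obtain ⟨B, b0, b1, b2, b3, b4, b5⟩ := h.exists_root (-1)
  obtain ⟨C, c0, c1, c2, c3, c4, c5⟩ := h.symm.exists_root (-l⁻¹)
  obtain ⟨D, d0, d1, d2, d3, d4, d5⟩ := h.symm.exists_root 1
  have hσ : P.σ l ≠ 0 := by simpa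
  have : s = A * C * A * B * D * B := by
    refine h.ext ?_ ?_ ?_ ?_ fun w a b c d => ?_
    iterate 4
      simp only [LinearEquiv.mul_apply, map_add, map_sub, map_smul, a1, a2, a3, a4, b1, b2, b3, b4, c1, c2, c3, c4,
        d1, d2, d3, d4, e1, e2, e3, e4, map_neg, map_one, map_inv₀]
      match_scalars <;> field_simp <;> ring
    simp only [LinearEquiv.mul_apply, e5 w a b c d, a5 w a d, b5 w a d, c5 w c b, d5 w c b]
  have kA := hX A (.inl ⟨_, a0⟩)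
  have kB := hX B (.inl ⟨_, b0⟩)
  exact this ▸ mul_mem (mul_mem (mul_mem (mul_mem (mul_mem kA (hX C (.inr ⟨_, c0⟩))) kA) kB) (hX D (.inr ⟨_, d0⟩))) kB

end H2

theorem eich_SIsom [FiniteDimensional F V] (h : f.IsEich g x a c) : g ∈ f.SIsom := mem_SIsom.2 ⟨h.mem_Isom, h.det⟩

theorem sq_ind [Finite F] {A : AddSubgroup F} (h : ∀ l, l ^ 2 ∈ A) (c : F) : c ∈ A := by
  by_cases h2 : ringChar F = 2
  · obtain ⟨r, rfl⟩ := FiniteField.isSquare_of_char_two h2 c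
    exact sq r ▸ h r
  · have : (2 : F) ≠ 0 := Ring.two_ne_zero h2
    convert sub_mem (h ((c + 1) / 2)) (h ((c - 1) / 2)) using 1
    field_simp; ring

theorem mem_EK_of [FiniteDimensional F V] (hf : f.Nondeg) (hk : ∃ c, c ≠ 0 ∧ P.t c = 0) (h : H2 f x y u v)
    (hg : g ∈ f.SIsom) (e1 : g x = x) (e2 : g y = y) : g ∈ f.EK (Submodule.span F {x, y}) := by
  have hc := h.h1.isCompl
  obtain ⟨r, hr⟩ := (fixEquiv hc).surjective ⟨g, (mem_SIsom.1 hg).1, mem_fixS_span.2 (by simp [e1, e2])⟩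
  have e : sumHom hc (1, r) = g := (fixEquiv_coe hc r).symm.trans (congrArg Subtype.val hr)
  have h1 : r.1 ∈ (f.res (f.perp (Submodule.span F {x, y}))).E := by
    rw [← IsHyp.SIsom_eq_E (h.h1.nondeg_perp hf) hk (x := ⟨u, IsHyp.mem_perp.2 ⟨h.ux, h.uy⟩⟩)
      (y := ⟨v, IsHyp.mem_perp.2 ⟨h.vx, h.vy⟩⟩) ⟨h.h2.hx, h.h2.hy, h.h2.hxy⟩]
    have := (mem_SIsom.1 hg).2
    rw [← e, sumHom_det] at this
    exact mem_SIsom.2 ⟨r.2, by simpa using this⟩
  have : (f.res (f.perp (Submodule.span F {x, y}))).E ≤ (f.EK (Submodule.span F {x, y})).comap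
      ((sumHom hc).comp (MonoidHom.inr _ _)) := E_le fun g x' a c hg => by
    refine IsEich.mem_EK (f := f) (x := x'.1) (a := a.1) (c := c) ⟨hg.hx, hg.ha, hg.hc, fun w => ?_⟩ (f.mem_perp'.1 x'.2)
      (f.mem_perp'.1 a.2)
    obtain ⟨k, w, rfl⟩ := exists_add_of_isCompl hc w
    show sumHom hc (1, g) _ = _
    rw [sumHom_apply, hg.app]
    simp [f.mem_perp'.1 x'.2 k k.2, f.mem_perp'.1 a.2 k k.2]
    abel
  exact e ▸ this h1

variable (f) in
/-- radical of a minimal parabolic subgroup -/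
def R2 (U W : Submodule F V) (A : Subgroup (V ≃ₗ[F] V)) (hA : ∀ s ∈ A, ∀ w ∈ W, s w ∈ W) : Subgroup (V ≃ₗ[F] V) where
  carrier := {g | g ∈ IK f U ∧ ∃ s ∈ A, ∀ w ∈ W, g w - s w ∈ U}
  mul_mem' := fun {g g'} ⟨a, s, b, c⟩ ⟨a', s', b', c'⟩ => ⟨mul_mem a a', s * s', mul_mem b b', fun w hw => by
    have := add_mem (c' w hw) (c _ (hA s' b' w hw))
    rw [← a.2 _ (c' w hw)] at this
    simpa using this⟩
  one_mem' := ⟨one_mem _, 1, one_mem _, by simp⟩
  inv_mem' := fun {g} ⟨a, s, b, c⟩ => ⟨inv_mem a, s⁻¹, inv_mem b, fun w hw => by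
    have := c _ (hA _ (inv_mem b) w hw)
    rw [← (inv_mem a).2 _ this] at this
    simpa using neg_mem this⟩

theorem norm_R2 [Finite (V ≃ₗ[F] V)] [FiniteDimensional F V] {U W : Submodule F V} {A : Subgroup (V ≃ₗ[F] V)}
    {hA : ∀ s ∈ A, ∀ w ∈ W, s w ∈ W} (h1 : z ∈ f.Isom) (h2 : ∀ w ∈ U, z w ∈ U) (h3 : ∀ w ∈ W, z w = w) :
    z ∈ N[R2 f U W A hA] := mem_normalizer_fintype fun g ⟨a, s, b, c⟩ => by
  refine ⟨⟨f.Isom.mul_mem (f.Isom.mul_mem h1 a.1) (f.Isom.inv_mem h1), fun w hw => ?_⟩, s, b, fun w hw => ?_⟩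
  · have := ((inv_mem (mem_stabS_of_le h2) : z⁻¹ ∈ stabS F (U : Set V)) w).1 hw
    rw [LinearEquiv.mul_apply, LinearEquiv.mul_apply, a.2 _ this]; simp
  · have e : z⁻¹ w = w := (inv_mem (show z ∈ fixS F (W : Set V) from h3) : z⁻¹ ∈ fixS F (W : Set V)) w hw
    have := h2 _ (c w hw)
    rwa [map_sub, h3 _ (hA s b w hw), ← e, ← LinearEquiv.mul_apply, ← LinearEquiv.mul_apply, e] at this

variable (f) in
/-- closed under the stabilizer of the point `x` on Eichler transformations -/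
def Cl (x : V) (T : Subgroup (V ≃ₗ[F] V)) : Prop :=
  ∀ s ∈ f.SIsom, ∀ l : F, s x = l • x → ∀ g ∈ T, (∃ a c, f.IsEich g x a c) → s * g * s⁻¹ ∈ T

variable [Finite F] [FiniteDimensional F V] (hf : f.Nondeg) (hk : ∃ c, c ≠ 0 ∧ P.t c = 0)
include hf hk

theorem Tx_le (h : H2 f x y u v) (hT : Cl f x T) (hZ : ∀ g c, f.IsEich g x 0 c → g ∈ T) {k : F} (k0 : k ≠ 0)
    (h1 : f.IsEich g x (k • u) c) (h2 : g ∈ T) : ∀ g a c, f.IsEich g x a c → g ∈ T := by
  let A : AddSubgroup V :=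
    { carrier := {a | ∃ g c, f.IsEich g x a c ∧ g ∈ T}
      add_mem' := fun ⟨_, _, a, b⟩ ⟨_, _, c, d⟩ => ⟨_, _, a.mul c, mul_mem b d⟩
      zero_mem' := ⟨_, _, isEich_one h.h1.hx, one_mem _⟩
      neg_mem' := fun ⟨_, _, a, b⟩ => ⟨_, _, a.inv, inv_mem b⟩ }
  have a1 : ∀ s ∈ f.SIsom, ∀ l : F, l ≠ 0 → s x = l • x → ∀ a ∈ A, P.σ l • s a ∈ A := fun s hs l hl e a ⟨g, c, b, d⟩ =>
    ⟨_, _, eich_conj (mem_SIsom.1 hs).1 e hl b, hT s hs l e g d ⟨_, _, b⟩⟩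
  have a2 : ∀ u' v', H2 f x y u' v' → ∀ c : F, c • u' ∈ A := fun u' v' h' c => by
    obtain ⟨c0, c1, c2⟩ := hk
    obtain ⟨e, he, l, hl, e1, -⟩ := exists_EK_hyp (K := Submodule.span F {x, y}) h'.h2 h.h2
      (f.mem_perp'.1 (IsHyp.mem_perp.2 ⟨h'.ux, h'.uy⟩)) (f.mem_perp'.1 (IsHyp.mem_perp.2 ⟨h'.vx, h'.vy⟩))
      (f.mem_perp'.1 (IsHyp.mem_perp.2 ⟨h.ux, h.uy⟩)) (f.mem_perp'.1 (IsHyp.mem_perp.2 ⟨h.vx, h.vy⟩))
      fun _ => ⟨0, c0, c1, by simp [c2], by simp, by simp, by simp⟩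
    have b1 := a1 e (mem_SIsom.2 ⟨E_le_Isom (EK_le_E _ he), E_det (EK_le_E _ he)⟩) 1 one_ne_zero
      (by rw [one_smul]; exact EK_le_fixS _ he x (Submodule.subset_span (by simp))) _ ⟨g, _, h1, h2⟩
    rw [map_one, one_smul, map_smul, e1] at b1
    have := sq_ind (A := A.comap ((LinearMap.toSpanSingleton F V (k • l • u')).toAddMonoidHom)) (fun m => by
      by_cases hm : m = 0
      · simp [hm]
      obtain ⟨s, s1, s2, -, s3, -⟩ := h'.exists_tor2 (l := P.σ m) (by simpa) hm (by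
        rw [map_mul, P.σσ, mul_comm m]; exact mul_inv_cancel₀ (by simp [hm]))
      have := a1 s s1 _ (by simpa) s2 _ b1
      rw [map_smul, map_smul, s3, P.σσ] at this
      show m ^ 2 • k • l • u' ∈ A
      convert this using 1
      module) (c * (k * l)⁻¹)
    have e : c • u' = (c * (k * l)⁻¹) • k • l • u' := by
      match_scalars
      field_simp
    exact e ▸ this
  intro g a c hg
  obtain ⟨a, c, hg, ay⟩ := hg.exists_perp h.h1
  obtain ⟨w, w1, w2, e⟩ := h.h2.decomp a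
  have wx : f.B w x = 0 := by have := hg.ha; rw [e] at this; simpa [h.ux, h.vx] using this
  have wy : f.B w y = 0 := by rw [e] at ay; simpa [h.uy, h.vy] using ay
  obtain ⟨d, hd⟩ := f.exists_t w
  have hb : H2 f x y (u + P.σ (-d) • v + w) v := ⟨h.h1, ⟨by
      have := h.h2.Q_comb 1 (P.σ (-d)) w1 w2
      rw [one_smul] at this
      rw [this, ← hd]; simp, h.h2.hy, by simp [h.h2.hxy, h.h2.hyy, w2]⟩, by simp [h.ux, h.vx, wx],
    by simp [h.uy, h.vy, wy], h.vx, h.vy⟩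
  have hv : ∀ c : F, c • v ∈ A := a2 v (P.ε • u) ⟨h.h1, h.h2.symm, h.vx, h.vy, by simp [h.ux], by simp [h.uy]⟩
  have : a ∈ A := by
    rw [e]
    refine add_mem (add_mem (a2 u v h _) (hv _)) ?_
    convert sub_mem (sub_mem (a2 _ v hb 1) (a2 u v h 1)) (hv (P.σ (-d))) using 1
    module
  obtain ⟨g', c', b1, b2⟩ := this
  exact (mul_mem_cancel_left (inv_mem b2)).1 (hZ _ _ (by simpa using b1.inv.mul hg))

theorem main [Fact p.Prime] [CharP F p] (hQ : ∀ v, f.B v v = 0 → f.Q v = 0) (h0 : ∃ x y, f.IsHyp x y)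
    (h2 : ∀ x y, f.IsHyp x y → ∃ u, u ≠ 0 ∧ f.Q u = 0 ∧ f.B u x = 0 ∧ f.B u y = 0)
    (hZ1 : ∀ x y a c g T, f.IsHyp x y → f.B a y = 0 → a ≠ 0 → f.IsEich g x a c → g ∈ T → Cl f x T →
      ∃ g d, d ≠ 0 ∧ f.IsEich g x 0 d ∧ g ∈ T)
    (hZ2 : ∀ A : AddSubgroup F, ∀ d, d ≠ 0 → P.t d = 0 → (∀ l, l * P.σ l * d ∈ A) → ∀ e, P.t e = 0 → e ∈ A)
    {G : Type*} [Group G] [Finite G] (π : f.SIsom →* G) (hπ : Surjective π) (hker : ∀ x, π x = 1 → x ∈ center _)
    (S' : Sylow p G) : (groupFusionSystem (S' : Subgroup G)).IsSimple p := by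
  haveI := finite_linearEquiv (F := F) (V := V)
  obtain ⟨S, hS⟩ := exists_syl (p := p) f.SIsom
  obtain ⟨k, k0, k1⟩ := id hk
  have tv : ∀ x, f.Q x = 0 → ∃ g, f.IsEich g x 0 k := fun x hx => exists_eich hx (by simp) (by simp [k1])
  have tv1 : ∀ {g x c}, x ≠ 0 → c ≠ 0 → f.IsEich g x 0 c → g ≠ 1 := fun {g x c} a b h e => by
    obtain ⟨w, hw⟩ := hf.exists_B_eq_one a
    have := h.app w
    rw [e, f.B_symm x w, hw] at this
    have : (P.ε * c * P.ε) • x = 0 := by simpa [eq_sub_iff_add_eq] using this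
    simp [a, b, P.ε_ne] at this
  have nb : ∀ {K S x}, Syl p S (IK f K) → x ≠ 0 → f.Q x = 0 → (∀ w ∈ K, f.B w x = 0) → S ≠ ⊥ := fun {K S x} h a b c e => by
    obtain ⟨g, hg⟩ := tv x b
    have := h.le_of_norm (TK_pg b) (TK_le b c) (e ▸ bot_le) ⟨_, _, hg, by simp⟩
    exact tv1 a k0 hg (mem_bot.1 (e ▸ this))
  have hS0 : Syl p S (IK f ⊥) := Syl.of_max (fun s hs => ⟨(mem_SIsom.1 (hS.le hs)).1, fun w hw => by rw [(Submodule.mem_bot F).1 hw, map_zero]⟩) hS.pg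
    fun R a b c => hS.eq_of_le a b fun r hr => mem_SIsom.2 ⟨(c hr).1, by
      obtain ⟨n, hn⟩ := pgroup_pow_eq_one a hr
      have : (LinearMap.det (r : V →ₗ[F] V) - 1) ^ p ^ n = 0 := by
        rw [sub_pow_char_pow, ← map_pow, show (r : V →ₗ[F] V) ^ p ^ n = (r ^ p ^ n : V ≃ₗ[F] V) from
          (map_pow LinearEquiv.automorphismGroup.toLinearMapMonoidHom r _).symm, hn]; simp
      exact sub_eq_zero.1 (pow_eq_zero_iff (pow_ne_zero n (Fact.out : p.Prime).ne_zero) |>.1 this)⟩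
  have S0 : S ≠ ⊥ := by
    obtain ⟨x, y, h⟩ := h0
    exact nb hS0 h.x_ne h.hx (by simp)
  obtain ⟨x, y, h1, kx, ky, hx⟩ := exists_pair hf hQ (bot_inf_eq _) hS0 S0
  have hS1 := syl_adj hS0 h1 kx ky hx
  have n1 := nd_adj (bot_inf_eq _) h1 kx ky
  obtain ⟨u, v, h3, ku, kv, hu⟩ := exists_pair hf hQ n1 hS1 (by
    obtain ⟨u, a, b, c, d⟩ := h2 x y h1
    exact nb hS1 a b (perp_adj.2 ⟨by simp, c, d⟩))
  have h : H2 f x y u v := ⟨h1, h3, (perp_adj.1 ku).2.1, (perp_adj.1 ku).2.2, (perp_adj.1 kv).2.1, (perp_adj.1 kv).2.2⟩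
  have t1 : TK f x h1.hx ⊥ ≤ S := TK_le_syl hS0 _ kx hx
  have t2 : TK f u h3.hx (adj ⊥ x y) ≤ S := (TK_le_syl hS1 _ ku hu).trans inf_le_left
  have mT : ∀ {g a c}, f.IsEich g x a c → g ∈ TK f x h1.hx ⊥ := fun h => ⟨_, _, h, by simp⟩
  have c1 : ∀ z ∈ f.SIsom, z ∈ C[TK f x h1.hx ⊥] → (∃ k, z ^ p ^ k = 1) → z ∈ TK f x h1.hx ⊥ := fun z a b ⟨n, hn⟩ => by
    have a := (mem_SIsom.1 a).1
    obtain ⟨g, hg⟩ := tv x h1.hx
    obtain ⟨l, hl⟩ := comm_tv hf a h1.x_ne hg k0 (b g (mT hg))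
    have e := eig_one hl h1.x_ne hn
    obtain ⟨a', c', t, b1, -, b2, b3⟩ := exists_TK h1 ky kx ⟨a, fun w hw => by rw [(Submodule.mem_bot F).1 hw, map_zero]⟩ e
    obtain ⟨b4, b5, b6⟩ := mem_IK_adj.1 b3
    have : t⁻¹ * z = 1 := h1.ext b5 b6 fun w wx wy => by
      obtain ⟨c, hc⟩ := f.exists_t w
      obtain ⟨g, hg⟩ := exists_eich h1.hx wx hc
      obtain ⟨m, hm⟩ := Submodule.mem_span_singleton.1 (comm_eich h1 a e hg (b g (mT hg)))
      have e1 : (t⁻¹ * z) w = w + (m + f.B w (-a')) • x := by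
        rw [LinearEquiv.mul_apply, ← sub_add_cancel (z w) w, ← hm, map_add, map_smul, b1.inv.fix_x, b1.inv.app_perp wx]
        module
      have e2 := Isom_B f b4.1 w y
      rw [b6, e1, wy, B_add_left, B_smul_left, wy, h1.hxy, zero_add, mul_one] at e2
      rw [e1, e2]; simp
    exact inv_mul_eq_one.1 this ▸ b2
  have hr := rich_of_ker (f := f) hk
  have hE := h1.SIsom_eq_E hf hk
  refine asimple hS S0 (fun T hT hc => or_iff_not_imp_left.2 fun T0 => le_antisymm hT ?_) ?_ π hπ (fun z hz e => ?_) S'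
  · have hCl : Cl f x T := fun s hs l e g hg ⟨a, c, h⟩ => hc g hg s hs (t1 (mT (eich_conj (mem_SIsom.1 hs).1 e
      (by rintro rfl; exact h1.x_ne (by simpa using e)) h)))
    obtain ⟨⟨z, hz⟩, z1⟩ := ne_bot_iff_exists_ne_one.1 (inf_cent_ne_bot hS.pg (H := T)
      (fun s hs => mem_normalizer_fintype fun x hx => hc x hx s (hS.le hs) (mul_mem (mul_mem hs (hT hx)) (inv_mem hs)))
      (dvd_card_of_pgroup (hS.pg.to_le hT) T0))
    obtain ⟨a, c, z2, -⟩ := c1 z (hS.le (hT hz.1)) (cent_anti t1 hz.2) (pgroup_pow_eq_one hS.pg (hT hz.1))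
    obtain ⟨a, c, z2, z3⟩ := z2.exists_perp h1
    obtain ⟨g, d, d0, d1, d2⟩ : ∃ g d, d ≠ 0 ∧ f.IsEich g x 0 d ∧ g ∈ T := by
      by_cases e : a = 0
      · subst e
        exact ⟨z, c, fun e => z1 (Subtype.ext (z2.unique (e ▸ isEich_one h1.hx))), z2, hz.1⟩
      · exact hZ1 x y a c z T h1 z3 e z2 hz.1 hCl
    have hZ : ∀ g c, f.IsEich g x 0 c → g ∈ T := fun g' c hg => by
      let A : AddSubgroup F :=
        { carrier := {c | ∃ g, f.IsEich g x 0 c ∧ g ∈ T}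
          add_mem' := fun ⟨_, a, b⟩ ⟨_, c, d⟩ => ⟨_, by simpa using a.mul c, mul_mem b d⟩
          zero_mem' := ⟨_, isEich_one h1.hx, one_mem _⟩
          neg_mem' := fun {c} ⟨_, a, b⟩ => ⟨_, by
            have := f.B_self (v := 0) a.hc
            rw [show -c = P.ε * P.σ c by rw [B_zero_left] at this; linear_combination this]
            simpa using a.inv, inv_mem b⟩ }
      obtain ⟨g'', a, b⟩ := hZ2 A d d0 (by simpa using d1.hc) (fun l => by
        by_cases hl : l = 0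
        · simp [hl]
        obtain ⟨s, s1, s2, -⟩ := h.exists_tor2 hl (inv_ne_zero hl) (by simp [hl])
        exact ⟨_, by simpa using eich_conj (mem_SIsom.1 s1).1 s2 hl d1, hCl s s1 l s2 g d2 ⟨_, _, d1⟩⟩) c
        (by simpa using hg.hc)
      exact hg.unique a ▸ b
    have tr : ∀ g ∈ S, ∀ w a c, f.IsEich g w a c → (∀ g a', (a = 0 → a' = 0) → ∀ c, f.IsEich g x a' c → g ∈ T) → g ∈ T :=
      fun g hg w a c b H => by
        by_cases w0 : w = 0
        · subst w0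
          exact b.eq_one_of_x_zero ▸ one_mem _
        obtain ⟨w', hw⟩ := hf.exists_hyp' b.hx w0
        obtain ⟨e, he, l, hl, e1, -⟩ := hr.exists_E_hyp h1 hw
        have b1 := b.conj (E_le_Isom he)
        rw [e1] at b1
        have := hc _ (H _ _ (by simp +contextual) _ (b1.smul h1.hx (by simpa [hl] using b1.ha))) e⁻¹
          (hE ▸ inv_mem he) (by simpa [mul_assoc] using hg)
        simpa [mul_assoc] using this
    obtain ⟨g1, b1⟩ := tv u h3.hx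
    obtain ⟨g2, b2⟩ := exists_eich (f := f) (x := x) (a := k • u) (c := k) h1.hx (by simp [h.ux])
      (by simp [k1, f.Q_smul, h3.hx])
    have b3 : f.IsEich (g2 * g1) (x + u) 0 k := ⟨by rw [f.Q_add_of_perp h.xu, h1.hx, h3.hx, add_zero], by simp, by simp [k1],
      fun w => by
        have e := f.B_self (v := 0) b1.hc
        rw [B_zero_left] at e
        have e' : P.σ k = -(P.ε * k) := by linear_combination (-P.ε) * e - P.σ k * P.εε
        rw [LinearEquiv.mul_apply, b1.app, b2.app]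
        simp only [B_zero_right, B_add_left, B_sub_left, B_smul_left, B_smul_right, B_add_right, h.ux, h3.hxx, e', B_zero_left]
        module⟩
    have g1S : g1 ∈ S := t2 ⟨_, _, b1, by simp⟩
    have g1T : g1 ∈ T := tr g1 g1S _ _ _ b1 fun g a' e c H => hZ g c (e rfl ▸ H)
    have g2T : g2 ∈ T := (mul_mem_cancel_right g1T).1 (tr _ (mul_mem (t1 (mT b2)) g1S) _ _ _ b3
      fun g a' e c H => hZ g c (e rfl ▸ H))
    exact syl_le hf hQ ⊥ (bot_inf_eq _) hS0 fun g hg w a c b => tr g hg w a c b fun g a' _ c =>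
      Tx_le hf hk h hCl hZ k0 b2 g2T g a' c
  · rintro g ⟨g1, g2⟩
    obtain ⟨l, hl⟩ := Submodule.mem_span_singleton.1 (mem_span_of_fixed hf hr h1.hx h1.x_ne (v := g x) fun t a c ht => by
      have := hx _ ((mem_normalizer_iff''.1 g2 t).1 (t1 (mT ht)))
      rw [LinearEquiv.mul_apply, LinearEquiv.mul_apply] at this
      simpa using congrArg g this)
    have l0 : l ≠ 0 := by rintro rfl; exact h1.x_ne (by simpa using hl.symm)
    obtain ⟨s, s1, s2, s3, s4, s5, s6⟩ := h.exists_tor2 l0 (inv_ne_zero l0) (by simp [l0])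
    have sI := (mem_SIsom.1 s1).1
    have dec : ∀ g ∈ IK f ⊥, g x = x → ∃ a c t a' c' t', f.IsEich t x a c ∧ a = y - g y ∧ f.IsEich t' u a' c' ∧
        t' ∈ TK f u h3.hx (adj ⊥ x y) ∧ ((t⁻¹ * g) u = u → t'⁻¹ * (t⁻¹ * g) ∈ IK f (adj (adj ⊥ x y) u v)) :=
      fun g a b => by
        obtain ⟨a1, c1, t, b1, b2, -, b3⟩ := exists_TK h1 ky kx a b
        by_cases e : (t⁻¹ * g) u = u
        · obtain ⟨a2, c2, t', b4, -, b5, b6⟩ := exists_TK h3 kv ku b3 e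
          exact ⟨_, _, t, _, _, t', b1, b2, b4, b5, fun _ => b6⟩
        · exact ⟨_, _, t, _, _, 1, b1, b2, isEich_one h3.hx, one_mem _, fun k => absurd k e⟩
    have sN : s ∈ N[S] := mem_normalizer_fintype fun r hr => by
      obtain ⟨a, c, t, b1, -, b2, b3⟩ := exists_TK h1 ky kx (hS0.le hr) (hx r hr)
      have b4 : t⁻¹ * r ∈ S := mul_mem (inv_mem (t1 b2)) hr
      obtain ⟨a', c', t', -, -, b5, b6⟩ := exists_TK h3 kv ku b3 (hu _ ⟨b4, b3⟩)
      have b7 : t'⁻¹ * (t⁻¹ * r) ∈ S := mul_mem (inv_mem (t2 b5)) b4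
      rw [show s * r * s⁻¹ = s * t * s⁻¹ * (s * t' * s⁻¹) * (s * (t'⁻¹ * (t⁻¹ * r)) * s⁻¹) by group]
      generalize t'⁻¹ * (t⁻¹ * r) = r' at b6 b7
      obtain ⟨b8, r3, r4⟩ := mem_IK_adj.1 b6
      obtain ⟨b9, r1, r2⟩ := mem_IK_adj.1 b8
      have : s * r' = r' * s := h.ext (by simp [r1, s2]) (by simp [r2, s3]) (by simp [r3, s4]) (by simp [r4, s5])
        fun w w1 w2 w3 w4 => by
          rw [LinearEquiv.mul_apply, LinearEquiv.mul_apply, s6 w w1 w2 w3 w4, s6]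
          exacts [r1 ▸ (Isom_B f b9.1 w x).trans w1, r2 ▸ (Isom_B f b9.1 w y).trans w2,
            r3 ▸ (Isom_B f b9.1 w u).trans w3, r4 ▸ (Isom_B f b9.1 w v).trans w4]
      rw [this, mul_inv_cancel_right]
      refine mul_mem (mul_mem (t1 (mT (eich_conj sI s2 l0 b1))) (t2 (TK_conj _ sI s4 (inv_ne_zero l0)
        (fun a ha => perp_adj.2 ⟨by simp, ?_, ?_⟩) b5))) b7
      · have := Isom_B f sI a x
        rw [s2, (perp_adj.1 ha).2.1] at this
        simpa [l0] using this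
      · have := Isom_B f sI a y
        rw [s3, (perp_adj.1 ha).2.2] at this
        simpa [l0] using this
    rw [← mul_inv_cancel_left s g]
    refine mul_mem (subset_closure ⟨sN, ?_⟩) (subset_closure ⟨mul_mem (inv_mem sN) g2, _, t1, c1, ?_⟩)
    · have hA : ∀ s ∈ S ⊓ IK f (adj (adj ⊥ x y) u v), ∀ w ∈ f.perp (adj (adj ⊥ x y) u v),
          s w ∈ f.perp (adj (adj ⊥ x y) u v) := fun s hs w hw k hk => by
        rw [← hs.2.2 k hk, Isom_B f hs.2.1, hw k hk]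
      have mW : ∀ {w}, w ∈ f.perp (adj (adj ⊥ x y) u v) ↔ f.B w x = 0 ∧ f.B w y = 0 ∧ f.B w u = 0 ∧ f.B w v = 0 := by
        intro w
        rw [mem_perp', perp_adj, perp_adj]
        simp [and_assoc]
      have xU : x ∈ Submodule.span F {x, u} := Submodule.subset_span (by simp)
      have uU : u ∈ Submodule.span F {x, u} := Submodule.subset_span (by simp)
      have fU : ∀ {g}, g ∈ IK f (Submodule.span F {x, u}) ↔ g ∈ f.Isom ∧ g x = x ∧ g u = u := by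
        simp [IK, mem_fixS_span]
      have le : ∀ z ∈ IK f (Submodule.span F {x, u}), ∀ r ∈ S ⊓ IK f (adj (adj ⊥ x y) u v),
          (∀ w ∈ f.perp (adj (adj ⊥ x y) u v), z w - r w ∈ Submodule.span F {x, u}) → z ∈ S := fun z hz r hr e => by
        obtain ⟨z1, z2, z3⟩ := fU.1 hz
        obtain ⟨a, c, t, a', c', t', b1, b2, b3, b4, b5⟩ := dec z ⟨z1, fun w hw => by rw [(Submodule.mem_bot F).1 hw, map_zero]⟩ z2
        have tu : t⁻¹ u = u := b1.inv.fix h.ux (by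
          rw [b2, B_neg_right, B_sub_right, h.uy, ← z3, Isom_B f z1, h.uy]; simp)
        have b6 := b5 (by rw [LinearEquiv.mul_apply, z3, tu])
        obtain ⟨b8, r3, r4⟩ := mem_IK_adj.1 b6
        obtain ⟨b9, r1, r2⟩ := mem_IK_adj.1 b8
        obtain ⟨b8', r3', r4'⟩ := mem_IK_adj.1 hr.2
        obtain ⟨-, r1', r2'⟩ := mem_IK_adj.1 b8'
        have : t'⁻¹ * (t⁻¹ * z) = r := h.ext (r1.trans r1'.symm) (r2.trans r2'.symm) (r3.trans r3'.symm)
          (r4.trans r4'.symm) fun w w1 w2 w3 w4 => by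
            obtain ⟨α, β, e1⟩ := Submodule.mem_span_pair.1 (e w (mW.2 ⟨w1, w2, w3, w4⟩))
            obtain ⟨q1, q2, q3, q4⟩ := mW.1 (hA r hr w (mW.2 ⟨w1, w2, w3, w4⟩))
            have tx : t'⁻¹ x = x := (inv_mem (TK_le _ ku b4)).2 x (Submodule.mem_sup_right (Submodule.subset_span (by simp)))
            have e2 : (t'⁻¹ * (t⁻¹ * z)) w = r w + (α + f.B (r w) (-a)) • x + (β + f.B (r w) (-a')) • u := by
              rw [LinearEquiv.mul_apply, LinearEquiv.mul_apply, ← sub_add_cancel (z w) (r w), ← e1]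
              simp only [map_add, map_smul, b1.inv.fix_x, tu, b1.inv.app_perp q1, tx, b3.inv.fix_x, b3.inv.app_perp q3]
              module
            have e3 := Isom_B f b9.1 w y
            have e4 := Isom_B f b9.1 w v
            rw [r2, e2] at e3
            rw [r4, e2] at e4
            simp only [B_add_left, B_smul_left, q2, q4, w2, w4, h.uy, h.xv, h1.hxy, h3.hxy, mul_zero, mul_one, zero_add,
              add_zero] at e3 e4
            rw [e2, e3, e4]; simp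
        exact (mul_mem_cancel_left (inv_mem (t1 (mT b1)))).1 ((mul_mem_cancel_left (inv_mem (t2 b4))).1 (this ▸ hr.1))
      refine ⟨R2 f (Submodule.span F {x, u}) _ _ hA, fun z ⟨a, r, b, c⟩ => le z a r b c, fun z a b ⟨n, hn⟩ => ?_,
        h.tor_mem l0 ?_ s2 s3 s4 s5 s6⟩
      · have a := (mem_SIsom.1 a).1
        have m1 : ∀ {g w c}, f.IsEich g x w c → f.B u w = 0 → g ∈ R2 f (Submodule.span F {x, u}) _ _ hA :=
          fun {g w c} hg e => ⟨fU.2 ⟨hg.mem_Isom, hg.fix_x, hg.fix h.ux e⟩, 1, one_mem _, fun w' hw => by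
            rw [hg.app_perp (mW.1 hw).1]
            simpa using Submodule.smul_mem _ _ xU⟩
        obtain ⟨g1, b1⟩ := tv x h1.hx
        obtain ⟨g2, b2⟩ := tv u h3.hx
        obtain ⟨l1, e1⟩ := comm_tv hf a h1.x_ne b1 k0 (b g1 (m1 b1 (by simp)))
        obtain ⟨l2, e2⟩ := comm_tv hf a h3.x_ne b2 k0 (b g2 ⟨fU.2 ⟨b2.mem_Isom, b2.fix h.xu (by simp), b2.fix_x⟩, 1,
          one_mem _, fun w' hw => by rw [b2.fix (mW.1 hw).2.2.1 (by simp)]; simp⟩)
        have e3 := eig_one e1 h1.x_ne hn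
        refine ⟨fU.2 ⟨a, e3, eig_one e2 h3.x_ne hn⟩, 1, one_mem _, fun w hw => ?_⟩
        obtain ⟨c, hc⟩ := f.exists_t w
        obtain ⟨g, hg⟩ := exists_eich h1.hx (mW.1 hw).1 hc
        exact Submodule.span_mono (by simp) (comm_eich h1 a e3 hg (b g (m1 hg (f.B_zero_symm (mW.1 hw).2.2.1))))
      · have sp : ∀ {z : V ≃ₗ[F] V}, z x ∈ Submodule.span F {x, u} → z u ∈ Submodule.span F {x, u} →
            ∀ w ∈ Submodule.span F {x, u}, z w ∈ Submodule.span F {x, u} := fun a b w hw => by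
          obtain ⟨α, β, rfl⟩ := Submodule.mem_span_pair.1 hw
          rw [map_add, map_smul, map_smul]
          exact add_mem (Submodule.smul_mem _ _ a) (Submodule.smul_mem _ _ b)
        rintro z (⟨a, hz⟩ | ⟨a, hz⟩)
        · exact subset_closure ⟨eich_SIsom hz, norm_R2 hz.mem_Isom (sp (hz.fix_x.symm ▸ xU)
            (hz.app_perp h.ux ▸ add_mem uU (Submodule.smul_mem _ _ xU)))
            fun w hw => hz.fix (mW.1 hw).1 (by simp [(mW.1 hw).2.2.2]), 2, eich_p hz⟩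
        · exact subset_closure ⟨eich_SIsom hz, norm_R2 hz.mem_Isom (sp
            (hz.app_perp h.xu ▸ add_mem xU (Submodule.smul_mem _ _ uU)) (hz.fix_x.symm ▸ uU))
            fun w hw => hz.fix (mW.1 hw).2.2.1 (by simp [(mW.1 hw).2.1]), 2, eich_p hz⟩
    · have b0 : s⁻¹ * g ∈ f.SIsom := mul_mem (inv_mem s1) g1
      obtain ⟨a, c, t, b1, -, b2, b3⟩ := exists_TK h1 ky kx (g := s⁻¹ * g) ⟨(mem_SIsom.1 b0).1, fun w hw => by rw [(Submodule.mem_bot F).1 hw, map_zero]⟩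
        (by rw [LinearEquiv.mul_apply, ← hl, ← s2]; simp)
      obtain ⟨-, b4, b5⟩ := mem_IK_adj.1 b3
      refine (Subgroup.mul_mem_cancel_left _ (x := t⁻¹)
        (Subgroup.inv_mem _ (Subgroup.subset_closure (by exact ⟨eich_SIsom b1, le_normalizer b2, 2, eich_p b1⟩)))).1
        (closure_mono ?_ (mem_EK_of hf hk h (mul_mem (inv_mem (eich_SIsom b1)) b0) b4 b5))
      rintro e ⟨x', a', c', e1, e2, e3⟩
      exact ⟨eich_SIsom e1, norm_TK _ ⟨e1.mem_Isom, fun w hw => by rw [(Submodule.mem_bot F).1 hw, map_zero]⟩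
        (e1.fix (e2 x (Submodule.subset_span (by simp))) (e3 x (Submodule.subset_span (by simp)))), 2, eich_p e1⟩
  · obtain ⟨l, hl⟩ := (mem_center_iff_scalar hf hr h1 hE.ge inf_le_left).1 (hker z e)
    obtain ⟨n, hn⟩ := pgroup_pow_eq_one hS.pg hz
    refine Subtype.ext (LinearEquiv.ext fun w => ?_)
    by_cases w0 : w = 0
    · simp [w0]
    · exact eig_one (hl w) w0 hn

omit hk [Finite F] in
theorem exists_B_perp (h : f.IsHyp x y) (ax : f.B a x = 0) (ay : f.B a y = 0) (a0 : a ≠ 0) :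
    ∃ b, f.B a b = 1 ∧ f.B b x = 0 ∧ f.B b y = 0 := by
  obtain ⟨b, b1, b2⟩ := hf.exists_dual (W := Submodule.span F {x, y}) (x := a) fun e =>
    a0 (h.isCompl.inf_eq_bot.le ⟨e, IsHyp.mem_perp.2 ⟨ax, ay⟩⟩)
  exact ⟨b, b1, IsHyp.mem_perp.1 (f.mem_perp'.2 b2)⟩

omit hk [Finite F] in
theorem z1_comm (hβ : ∃ β, P.σ β ≠ P.ε * β) (h : f.IsHyp x y) (ay : f.B a y = 0) (a0 : a ≠ 0) (hg : f.IsEich g x a c)
    (gT : g ∈ T) (hT : Cl f x T) : ∃ g d, d ≠ 0 ∧ f.IsEich g x 0 d ∧ g ∈ T := by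
  obtain ⟨β, hβ⟩ := hβ
  obtain ⟨b, b1, b2, -⟩ := exists_B_perp hf h hg.ha ay a0
  obtain ⟨d, hd⟩ := f.exists_t (β • b)
  obtain ⟨s, hs⟩ := exists_eich h.hx (by simp [b2]) hd
  refine ⟨_, _, ?_, hs.commutator hg, mul_mem (hT s (eich_SIsom hs) 1 (by simp [hs.fix_x]) g gT ⟨_, _, hg⟩) (inv_mem gT)⟩
  rw [B_smul_right, B_smul_left, f.B_one_symm b1, b1, mul_one, mul_comm]
  exact sub_ne_zero.2 hβ

omit hk [Finite F] in
theorem z1_symp {f : CForm (FP.symp F) V} (hf : f.Nondeg) (hn : 6 ≤ finrank F V ∨ ∃ l : F, l ≠ 0 ∧ l ≠ 1)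
    (h : f.IsHyp x y) (ay : f.B a y = 0) (a0 : a ≠ 0) (hg : f.IsEich g x a c)
    (gT : g ∈ T) (hT : Cl f x T) : ∃ g d, d ≠ 0 ∧ f.IsEich g x 0 d ∧ g ∈ T := by
  have key : ∀ b, f.B a b = 1 → f.B b x = 0 → ∀ l : F, ∃ g ∈ T, f.IsEich g x (l • b) (-l) := fun b b1 b2 l => by
    obtain ⟨s, hs⟩ := symp_exists_transvection (f := f) b l
    have e : s x = (1 : F) • x := by rw [one_smul]; exact hs.fix (f.B_zero_symm b2) (by simp)
    refine ⟨_, mul_mem (hT s (eich_SIsom hs) 1 e g gT ⟨_, _, hg⟩) (inv_mem gT), ?_⟩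
    have := hg.comm_of_smul hs.mem_Isom one_ne_zero e
    rw [hs.app] at this
    simpa [b1, symp_B_self, commutatorElement_def] using this
  obtain ⟨b, b1, b2, b3⟩ := exists_B_perp hf h hg.ha ay a0
  rcases hn with hn | ⟨l, l0, l1⟩
  · have h2 : f.IsHyp a b := ⟨by simp, by simp, b1⟩
    have n1 := nd_adj (nd_adj (bot_inf_eq _) h (by simp) (by simp)) h2 (perp_adj.2 ⟨by simp, hg.ha, ay⟩)
      (perp_adj.2 ⟨by simp, b2, b3⟩)
    obtain ⟨u, hu, u0⟩ := Submodule.exists_mem_ne_zero_of_ne_bot (p := f.perp (adj (adj ⊥ x y) a b)) fun e => by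
      have e1 := hf.finrank_perp (adj (adj ⊥ x y) a b)
      have e2 := Submodule.finrank_add_le_finrank_add_finrank (adj ⊥ x y) (Submodule.span F {a, b})
      rw [e, finrank_bot] at e1
      rw [h2.finrank_span, show adj ⊥ x y = Submodule.span F {x, y} from bot_sup_eq _, h.finrank_span] at e2
      rw [show adj ⊥ x y = Submodule.span F {x, y} from bot_sup_eq _] at e1
      change finrank F (Submodule.span F {x, y} ⊔ Submodule.span F {a, b} : Submodule F V) + 0 = _ at e1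
      omega
    obtain ⟨u', h3, hu'⟩ := hf.exists_hyp (x := u) (by simp) (fun e => u0 (n1.le ⟨e, hu⟩)) (f.mem_perp'.1 hu)
    have k2 : ∀ w, (∀ k ∈ adj (adj ⊥ x y) a b, f.B k w = 0) → ∃ g ∈ T, f.IsEich g x w 0 := fun w hw => by
      obtain ⟨e1, e2, e3⟩ := perp_adj.1 hw
      obtain ⟨g1, c1, c2⟩ := key b b1 b2 1
      obtain ⟨g2, c3, c4⟩ := key (b + w) (by simp [b1, f.B_zero_symm e2]) (by simp [b2, (perp_adj.1 e1).2.1]) 1
      exact ⟨_, mul_mem (inv_mem c1) c3, by simpa [e3, symp_B_self] using c2.inv.mul c4⟩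
    obtain ⟨g1, c1, c2⟩ := k2 u (f.mem_perp'.1 hu)
    obtain ⟨g2, c3, c4⟩ := k2 u' hu'
    obtain ⟨g3, c5, c6⟩ := k2 (u + u') fun k hk => by simp [f.mem_perp'.1 hu k hk, hu' k hk]
    exact ⟨_, -1, by simp, by simpa [symp_B_self, h3.hxy, h3.hyx] using c6.inv.mul (c2.mul c4),
      mul_mem (inv_mem c5) (mul_mem c1 c3)⟩
  · obtain ⟨g1, c1, c2⟩ := key b b1 b2 1
    obtain ⟨g2, c3, c4⟩ := key b b1 b2 l
    obtain ⟨s, hs⟩ := exists_tor h l0
    have c5 := eich_conj hs.mem_Isom hs.app_x l0 c2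
    refine ⟨_, l - l * l, fun e => l1 (mul_left_cancel₀ l0 (by linear_combination -e)), ?_, mul_mem (inv_mem c3)
      (hT s (mem_SIsom.2 ⟨hs.mem_Isom, by simp [hs.det, l0]⟩) l hs.app_x g1 c1 ⟨_, _, c2⟩)⟩
    simpa [hs.fix b2 b3, symp_B_self, sub_eq_add_neg] using c4.inv.mul c5

end CfsgL0.Frm
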