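import Cfsg.Agent.H2.MaxCl
import Cfsg.Agent.L0.Invol

/-! Recognition of `GL₂(3)` as `Q₈ : S₃`. -/

namespace CfsgL0
open Subgroup QuaternionGroup DihedralGroup

/-- the map on `Q₈` determined by the images of the two generators -/
def qA (u v : QuaternionGroup 2) : QuaternionGroup 2 → QuaternionGroup 2
  | .a i => u ^ i.val
  | .xa i => v * u ^ i.val

/-- an action of `S₃` on `Q₈` -/
def qAct : DihedralGroup 3 → QuaternionGroup 2 → QuaternionGroup 2
  | .r k, q => (qA (xa 0) (xa 3))^[k.val] q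
  | .sr k, q => qA (a 3) (xa 1) ((qA (xa 0) (xa 3))^[k.val] q)

theorem qAct_hom : ∀ d u v, qAct d (u * v) = qAct d u * qAct d v := by decide +kernel
theorem qAct_mul : ∀ d e v, qAct (d * e) v = qAct d (qAct e v) := by decide +kernel

/-- the group `Q₈ : S₃` -/
structure M48 where
  q : QuaternionGroup 2
  d : DihedralGroup 3
deriving DecidableEq

namespace M48
instance : Fintype M48 := Fintype.ofEquiv (QuaternionGroup 2 × DihedralGroup 3) ⟨fun p => ⟨p.1, p.2⟩, fun x => (x.q, x.d),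
  fun _ => rfl, fun _ => rfl⟩
instance : Mul M48 := ⟨fun x y => ⟨x.q * qAct x.d y.q, x.d * y.d⟩⟩
instance : One M48 := ⟨⟨1, 1⟩⟩
instance : Inv M48 := ⟨fun x => ⟨qAct x.d⁻¹ x.q⁻¹, x.d⁻¹⟩⟩
instance : Group M48 := Group.ofLeftAxioms
  (fun x y z => congrArg₂ M48.mk (by
    change x.q * qAct x.d y.q * qAct (x.d * y.d) z.q = x.q * qAct x.d (y.q * qAct y.d z.q)
    rw [qAct_hom, qAct_mul, mul_assoc]) (mul_assoc _ _ _)) (by decide +kernel) (by decide +kernel)

theorem min : ∀ m : M48, m ≠ 1 → m = ⟨a 2, 1⟩ ∨ ∃ g : M48, m * g * m⁻¹ * g⁻¹ = ⟨a 2, 1⟩ ∨ (m * g * m⁻¹ * g⁻¹) ^ 2 = ⟨a 2, 1⟩ := by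
  decide +kernel

theorem equiv {X : Type*} [Group X] [Finite X] (hX : Nat.card X = 48) (f : QuaternionGroup 2 →* X) {y t : X} (hy : y ^ 3 = 1) (ht : t * t = 1)
    (hyt : t * y * t⁻¹ = y⁻¹) (h1 : ∀ q, y * f q * y⁻¹ = f (qA (xa 0) (xa 3) q)) (h2 : ∀ q, t * f q * t⁻¹ = f (qA (a 3) (xa 1) q))
    (hz : f (a 2) ≠ 1) : Nonempty (M48 ≃* X) := by
  obtain ⟨D, d1, d2⟩ := exists_dihedral_hom 3 t y hy ht hyt
  have m {d e} (h1 : ∀ v, D d * f v * (D d)⁻¹ = f (qAct d v)) (h2 : ∀ v, D e * f v * (D e)⁻¹ = f (qAct e v)) (v) :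
      D (d * e) * f v * (D (d * e))⁻¹ = f (qAct (d * e) v) := by rw [qAct_mul, ← h1, ← h2]; simp [mul_assoc]
  have k1 (v) : D (r 1) * f v * (D (r 1))⁻¹ = f (qAct (r 1) v) := by
    have := d1 1
    rw [Int.cast_one, zpow_one] at this
    rw [this, h1]; rfl
  have k2 (v) : D (sr 0) * f v * (D (sr 0))⁻¹ = f (qAct (sr 0) v) := by
    have := d2 0
    rw [Int.cast_zero, zpow_zero, mul_one] at this
    rw [this, h2]; rfl
  have ac (d) : ∀ v, D d * f v * (D d)⁻¹ = f (qAct d v) := by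
    fin_cases d
    exacts [m k2 k2, k1, m k1 k1, k2, m k2 k1, m k2 (m k1 k1)]
  let g : M48 →* X := MonoidHom.mk' (fun x => f x.q * D x.d) fun x y => by
    change f (x.q * qAct x.d y.q) * D (x.d * y.d) = _
    rw [map_mul, ← ac, map_mul]; group
  have gz : g ⟨a 2, 1⟩ ≠ 1 := by simpa [g] using hz
  refine ⟨.ofBijective g ((Nat.bijective_iff_injective_and_card g).2 ⟨(injective_iff_map_eq_one g).2 fun x e => by_contra fun n => ?_,
    by rw [hX, Nat.card_eq_fintype_card]; rfl⟩)⟩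
  rcases min x n with rfl | ⟨u, k | k⟩
  exacts [gz e, gz (by simp [← k, e]), gz (by simp [← k, e])]

/-- an element of order four -/
def gk : GL (Fin 2) (ZMod 3) := ⟨!![0, 2; 1, 0], !![0, 1; 2, 0], by decide, by decide⟩
/-- an element of order four -/
def gi : GL (Fin 2) (ZMod 3) := ⟨!![1, 1; 1, 2], !![2, 2; 2, 1], by decide, by decide⟩
/-- an element of order three -/
def gy : GL (Fin 2) (ZMod 3) := ⟨!![1, 1; 0, 1], !![1, 2; 0, 1], by decide, by decide⟩
/-- an involution -/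
def gt : GL (Fin 2) (ZMod 3) := ⟨!![1, 0; 0, 2], !![1, 0; 0, 2], by decide, by decide⟩
/-- the quaternion subgroup -/
def gq : QuaternionGroup 2 →* GL (Fin 2) (ZMod 3) :=
  MonoidHom.mk' (fun | .a n => gk ^ n.val | .xa n => gi * gk ^ n.val) (by decide +kernel)

theorem gl : Nonempty (M48 ≃* GL (Fin 2) (ZMod 3)) :=
  equiv (by
    have : Fact (Nat.Prime 3) := ⟨by norm_num⟩
    rw [Matrix.card_GL_field]; simp [Fin.prod_univ_two]) gq (y := gy) (t := gt)
    (by decide +kernel) (by decide +kernel) (by decide +kernel) (by decide +kernel) (by decide +kernel) (by decide +kernel)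

end M48

theorem qA_norm : ∀ u v, (∀ x y, qA u v (x * y) = qA u v x * qA u v y) → (∀ x, qA u v (qA u v (qA u v x)) = x) → (¬ ∀ x, qA u v x = x) →
    ∀ u' v', (∀ x y, qA u' v' (x * y) = qA u' v' x * qA u' v' y) → (∀ x, qA u' v' (qA u' v' x) = x) →
      (∀ x, qA u' v' (qA u v (qA u' v' (qA u v x))) = x) → ∃ k i, (∀ x y, qA k i (x * y) = qA k i x * qA k i y) ∧ qA k i (a 2) = a 2 ∧
        (∀ x, qA u v (qA k i x) = qA k i (qA (xa 0) (xa 3) x)) ∧ ∀ x, qA u' v' (qA k i x) = qA k i (qA (a 3) (xa 1) x) := by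
  decide +kernel

theorem gl23_of {X : Type*} [Group X] [Finite X] (hX : Nat.card X = 48) {Q : Subgroup X} [hQ : Q.Normal] (e : Q ≃* QuaternionGroup 2) {y t : X}
    (hy : y ^ 3 = 1) (ht : t * t = 1) (hyt : t * y * t⁻¹ = y⁻¹) (n : y ∉ centralizer (Q : Set X)) :
    Nonempty (X ≃* GL (Fin 2) (ZMod 3)) := by
  let f := Q.subtype.comp e.symm.toMonoidHom
  have fi : Function.Injective f := Subtype.val_injective.comp e.symm.injective
  have k (g : X) : ∃ u v, (∀ x y, qA u v (x * y) = qA u v x * qA u v y) ∧ ∀ q, g * f q * g⁻¹ = f (qA u v q) := by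
    let α := (e.symm.trans (MulAut.conjNormal g)).trans e
    have : ∀ q, qA (α (a 1)) (α (xa 0)) q = α q := fun q => by
      have : ∀ q : QuaternionGroup 2, q = qA (a 1) (xa 0) q := by decide
      conv_rhs => rw [this q]
      cases q
      exacts [(map_pow α _ _).symm, ((map_mul α _ _).trans (congrArg _ (map_pow α _ _))).symm]
    exact ⟨α (a 1), α (xa 0), fun x y => by simp only [this, map_mul], fun q => by rw [this]; simp [f, α]⟩
  obtain ⟨u, v, h1, h2⟩ := k y
  obtain ⟨u', v', h3, h4⟩ := k t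
  have y3 : y * (y * y) = 1 := by rw [← hy, pow_succ', sq]
  have ti : t⁻¹ = t := inv_eq_of_mul_eq_one_right ht
  obtain ⟨k, i, h5, h6, h7, h8⟩ := qA_norm u v h1 (fun x => fi (by
      rw [← h2, ← h2, ← h2]
      calc _ = y * (y * y) * f x * (y * (y * y))⁻¹ := by group
        _ = _ := by simp [y3]))
    (fun k => n fun x hx => by
      have := h2 (e ⟨x, hx⟩)
      rw [k, mul_inv_eq_iff_eq_mul] at this
      simpa [f] using this.symm) u' v' h3 (fun x => fi (by
      rw [← h4, ← h4]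
      calc _ = t * t * f x * (t * t)⁻¹ := by group
        _ = _ := by simp [ht])) (fun x => fi (by
      rw [← h4, ← h2, ← h4, ← h2]
      calc _ = t * y * t⁻¹ * (t * t) * y * f x * (t * y * t⁻¹ * (t * t) * y)⁻¹ := by group
        _ = _ := by simp [hyt, ht]))
  obtain ⟨e1⟩ := M48.equiv hX (f.comp (MonoidHom.mk' (qA k i) h5)) hy ht hyt (fun q => (h2 _).trans (congrArg f (h7 q)))
    (fun q => (h4 _).trans (congrArg f (h8 q))) fun k => absurd (h6.symm.trans (fi (k.trans (map_one f).symm))) (by decide)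
  exact M48.gl.map e1.symm.trans

end CfsgL0
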