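import Cfsg.Agent.L0.TT
import Cfsg.Agent.H9.Tech2

/-! Involutions in `GL₃` of odd characteristic. -/

namespace CfsgL0
open Function Matrix Subgroup Cfsg CfsgH2

section
variable {F : Type*} [Field F] {A B : Matrix (Fin 3) (Fin 3) F} {v w : Fin 3 → F}

theorem i3_fix (h2 : (2 : F) ≠ 0) (hA : A * A = 1) (hd : A.det = 1) : ∃ v, v ≠ 0 ∧ A *ᵥ v = v := by
  have e : A - 1 = A * -(A - 1) := by rw [neg_sub, mul_sub, hA, mul_one]
  have d := congrArg det e
  rw [det_mul, hd, one_mul, det_neg, Fintype.card_fin] at d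
  have d0 : (A - 1).det = 0 := (mul_eq_zero.1 (show 2 * (A - 1).det = 0 by linear_combination d)).resolve_left h2
  obtain ⟨v, v0, hv⟩ := Matrix.exists_mulVec_eq_zero_iff.2 d0
  exact ⟨v, v0, by rwa [sub_mulVec, one_mulVec, sub_eq_zero] at hv⟩

theorem i3_par (h2 : (2 : F) ≠ 0) (hA : A * A = 1) (hd : A.det = 1) (A1 : A ≠ 1) (v0 : v ≠ 0)
    (hv : A *ᵥ v = v) (hw : A *ᵥ w = w) : ∃ l : F, w = l • v := by
  let c : Fin 3 → F := ![v 1 * w 2 - v 2 * w 1, v 2 * w 0 - v 0 * w 2, v 0 * w 1 - v 1 * w 0]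
  by_cases c0 : c = 0
  · have c1 : v 1 * w 2 - v 2 * w 1 = 0 := congrFun c0 0
    have c2 : v 2 * w 0 - v 0 * w 2 = 0 := congrFun c0 1
    have c3 : v 0 * w 1 - v 1 * w 0 = 0 := congrFun c0 2
    have e : ∀ i j, v i * w j = v j * w i := by
      intro i j
      fin_cases i <;> fin_cases j <;> simp only [Fin.zero_eta, Fin.mk_one, Fin.reduceFinMk] <;> grind
    obtain ⟨i, hi⟩ := Function.ne_iff.1 v0
    have hi : v i ≠ 0 := hi
    refine ⟨w i / v i, funext fun j => ?_⟩
    rw [Pi.smul_apply, smul_eq_mul]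
    field_simp
    linear_combination e i j
  obtain ⟨k, hk⟩ := Function.ne_iff.1 c0
  have hk : c k ≠ 0 := hk
  have r : ∀ m : Fin 3 → F, m ⬝ᵥ v = 0 → m ⬝ᵥ w = 0 → ∀ j, m j * c k = m k * c j := by
    intro m h1 h2 j
    simp only [dotProduct, Fin.sum_univ_three] at h1 h2
    fin_cases j <;> fin_cases k <;> simp [c] <;> grind
  have hv' : (A - 1) *ᵥ v = 0 := by rw [sub_mulVec, one_mulVec, hv, sub_self]
  have hw' : (A - 1) *ᵥ w = 0 := by rw [sub_mulVec, one_mulVec, hw, sub_self]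
  have e : A = 1 + vecMulVec (fun i => (A - 1) i k / c k) c := by
    rw [← sub_eq_iff_eq_add']
    ext i j
    have := r ((A - 1) i) (congrFun hv' i) (congrFun hw' i) j
    rw [vecMulVec_apply]
    field_simp
    exact this
  generalize (fun i => (A - 1) i k / c k) = a at e
  subst e
  have t : c ⬝ᵥ a = 0 := by
    simp only [det_fin_three, Matrix.add_apply, vecMulVec_apply, one_apply] at hd
    simp only [dotProduct, Fin.sum_univ_three]
    simp at hd
    linear_combination hd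
  rw [add_mul, mul_add, mul_add, vecMulVec_mul_vecMulVec, t, zero_smul, vecMulVec_zero, one_mul,
    one_mul, mul_one, add_zero, add_assoc, add_eq_left, ← two_smul F, smul_eq_zero] at hA
  exact absurd (by rw [hA.resolve_left h2, add_zero]) A1

theorem i3_eq (h2 : (2 : F) ≠ 0) (hA : A * A = 1) (hd : A.det = 1) (A1 : A ≠ 1) (hB : B * B = 1)
    (hd' : B.det = 1) (B1 : B ≠ 1) (hc : A * B = B * A) (v0 : v ≠ 0) (hv : A *ᵥ v = v)
    (hv' : B *ᵥ v = v) : A = B := by
  refine Matrix.ext_of_mulVec_single fun i => ?_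
  generalize (Pi.single i 1 : Fin 3 → F) = x
  obtain ⟨l, hl⟩ := i3_par (w := x + A *ᵥ x) h2 hA hd A1 v0 hv (by
    rw [mulVec_add, mulVec_mulVec, hA, one_mulVec, add_comm])
  obtain ⟨m, hm⟩ := i3_par (w := x + B *ᵥ x) h2 hB hd' B1 v0 hv' (by
    rw [mulVec_add, mulVec_mulVec, hB, one_mulVec, add_comm])
  have e1 := congrArg (B *ᵥ ·) hl
  have e2 := congrArg (A *ᵥ ·) hm
  simp only [mulVec_add, mulVec_smul, mulVec_mulVec, hv, hv', hc] at e1 e2
  have : (2 : F) • (A *ᵥ x - B *ᵥ x) = 0 := by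
    rw [two_smul]
    linear_combination (exp := 1) hl - hm + e2 - e1 + (hl - hm) + (e1 - e2) + (e2 - e1) - (hl - hm) 
  exact sub_eq_zero.1 ((smul_eq_zero.1 this).resolve_left h2)

theorem i3_neg (h2 : (2 : F) ≠ 0) {E : Type*} [Group E] [Finite E] (hE : Nat.card E = 8)
    (hc : ∀ a b : E, a * b = b * a) (he : ∀ a : E, a * a = 1) (f : E →* Matrix (Fin 3) (Fin 3) F)
    (hf : Injective f) : ∃ z, f z = -1 := by
  classical
  by_contra! hn
  have ex : ∀ s : Finset E, s.card ≤ 4 → ∃ x, x ∉ s := fun s hs => by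
    have := Fintype.ofFinite E
    by_contra! h
    have := Finset.card_le_card (fun x _ => h x : Finset.univ ⊆ s)
    rw [Finset.card_univ, ← Nat.card_eq_fintype_card] at this
    omega
  have d2 : ∀ a, (f a).det * (f a).det = 1 := fun a => by rw [← det_mul, ← map_mul, he, map_one, det_one]
  let g : E → Matrix (Fin 3) (Fin 3) F := fun a => (f a).det • f a
  have gm : ∀ a b, g (a * b) = g a * g b := fun a b => by
    simp only [g, map_mul, det_mul, smul_mul_smul_comm]
  have g1 : g 1 = 1 := by simp [g]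
  have gg : ∀ a, g a * g a = 1 := fun a => by rw [← gm, he, g1]
  have gd : ∀ a, (g a).det = 1 := fun a => by
    rw [det_smul, Fintype.card_fin]
    linear_combination ((f a).det * (f a).det + 1) * d2 a
  have gi : ∀ a, g a = 1 → a = 1 := fun a h => by
    rcases mul_self_eq_one_iff.1 (d2 a) with e | e
    · simp only [g, e, one_smul] at h
      exact hf (h.trans (map_one f).symm)
    · simp only [g, e, neg_smul, one_smul] at h
      exact absurd (neg_eq_iff_eq_neg.1 h) (hn a)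
  obtain ⟨u, hu⟩ := ex {1} (by simp)
  rw [Finset.mem_singleton] at hu
  obtain ⟨v, v0, hv⟩ := i3_fix h2 (gg u) (gd u)
  have k1 : ∀ a, g a *ᵥ v = v → a = 1 ∨ a = u := fun a h => or_iff_not_imp_left.2 fun a1 => by
    have := i3_eq h2 (gg a) (gd a) (mt (gi a) a1) (gg u) (gd u) (mt (gi u) hu)
      (by rw [← gm, ← gm, hc]) v0 h hv
    have := gi (a * u) (by rw [gm, this, gg])
    rw [← he u] at this
    exact mul_right_cancel this
  have k2 : ∀ a, a ≠ 1 → a ≠ u → g a *ᵥ v = -v := fun a a1 a2 => by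
    obtain ⟨l, hl⟩ := i3_par (w := g a *ᵥ v) h2 (gg u) (gd u) (mt (gi u) hu) v0 hv (by
      rw [mulVec_mulVec, ← gm, hc, gm, ← mulVec_mulVec, hv])
    have : (l * l - 1) • v = 0 := by
      rw [sub_smul, mul_smul, ← hl, ← mulVec_smul, ← hl, mulVec_mulVec, gg, one_mulVec, one_smul, sub_self]
    rcases mul_self_eq_one_iff.1 (sub_eq_zero.1 ((smul_eq_zero.1 this).resolve_right v0)) with e | e
    · rw [e, one_smul] at hl
      exact ((k1 a hl).elim a1 a2).elim
    · rw [hl, e, neg_smul, one_smul]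
  obtain ⟨a, ha⟩ := ex {1, u} (Finset.card_le_two.trans (by omega))
  obtain ⟨b, hb⟩ := ex {1, u, a, a * u} (Finset.card_le_four)
  simp only [Finset.mem_insert, Finset.mem_singleton, not_or] at ha hb
  rcases k1 (a * b) (by rw [gm, ← mulVec_mulVec, k2 b hb.1 hb.2.1, mulVec_neg, k2 a ha.1 ha.2, neg_neg])
    with e | e
  · rw [← he a] at e
    exact hb.2.2.1 (mul_left_cancel e)
  · exact hb.2.2.2 (by rw [← e, ← mul_assoc, he, one_mul])

theorem i3_comm (h2 : (2 : F) ≠ 0) {P : Type*} [Group P] (f : P →* Matrix (Fin 3) (Fin 3) F)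
    (hf : Injective f) {s u : P} (hs : s * s = 1) (s1 : s ≠ 1) (hd : (f s).det = 1)
    (sc : ∀ x, x * s = s * x) (hu : u * u = 1) (u1 : u ≠ 1) (uc : u ∈ commutator P) : u = s := by
  have ss : f s * f s = 1 := by rw [← map_mul, hs, map_one]
  have n1 : ∀ a, a ≠ 1 → f a ≠ 1 := fun a h e => h (hf (e.trans (map_one f).symm))
  obtain ⟨v, v0, hv⟩ := i3_fix h2 ss hd
  have k : ∀ x, ∃ l : F, f x *ᵥ v = l • v := fun x => i3_par h2 ss hd (n1 s s1) v0 hv (by
    rw [mulVec_mulVec, ← map_mul, ← sc, map_mul, ← mulVec_mulVec, hv])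
  let K : Subgroup P :=
    { carrier := {x | f x *ᵥ v = v ∧ (f x).det = 1}
      mul_mem' := fun {a b} ha hb =>
        ⟨by rw [map_mul, ← mulVec_mulVec, hb.1, ha.1], by rw [map_mul, det_mul, ha.2, hb.2, mul_one]⟩
      one_mem' := ⟨by rw [map_one, one_mulVec], by rw [map_one, det_one]⟩
      inv_mem' := fun {a} ha => ⟨by
        conv_lhs => rw [← ha.1, mulVec_mulVec, ← map_mul, inv_mul_cancel, map_one, one_mulVec], by
        have := congrArg (fun x => (f x).det) (mul_inv_cancel a)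
        simp only [map_mul, det_mul, map_one, det_one] at this
        rwa [ha.2, one_mul] at this⟩ }
  have l : commutator P ≤ K := commutator_le.2 fun a _ b _ => by
    obtain ⟨l, hl⟩ := k a⁻¹
    obtain ⟨m, hm⟩ := k b⁻¹
    have e : f (a⁻¹ * b⁻¹) *ᵥ v = f (b⁻¹ * a⁻¹) *ᵥ v := by
      rw [map_mul, map_mul, ← mulVec_mulVec, ← mulVec_mulVec, hl, hm, mulVec_smul, mulVec_smul, hl, hm,
        smul_comm]
    refine ⟨?_, ?_⟩
    · rw [commutatorElement_def, mul_assoc, map_mul, ← mulVec_mulVec, e, mulVec_mulVec, ← map_mul,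
        ← _root_.mul_inv_rev, mul_inv_cancel, map_one, one_mulVec]
    · have := congrArg (fun x => (f x).det) (show a * a⁻¹ * (b * b⁻¹) = 1 by group)
      simp only [map_mul, det_mul, map_one, det_one] at this
      rw [commutatorElement_def]
      simp only [map_mul, det_mul]
      linear_combination this
  exact hf (i3_eq h2 (by rw [← map_mul, hu, map_one]) (l uc).2 (n1 u u1) ss hd (n1 s s1)
    (by rw [← map_mul, sc, map_mul]) v0 (l uc).1 hv)

end
end CfsgL0
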