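import Mathlib
import Cfsg.Agent.L0.M3
import Cfsg.Agent.H1.System

set_option autoImplicit false
open Cfsg Subgroup CfsgH2 Function
open scoped Pointwise

namespace CfsgL0
variable {G : Type*} [Group G] [Finite G] {H W : Subgroup G}

theorem relIndex_cent_mem {q : ℕ} [Fact q.Prime] (hW : PG[q, W]) (hn : H ≤ N[W]) (hs : Sol[H])
    (hc : ¬ q ∣ o[H]) : C[H].relIndex W ∈ Submonoid.closure
      {a : ℕ | (∃ e, a = q ^ e) ∧ a ∣ o[W] ∧ ∃ r : ℕ, r.Prime ∧ r ∣ o[H] ∧ a ≡ 1 [MOD r]} := by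
  refine chf_ind (M := H) le_rfl le_normalizer bot_le (by rw [norm_bot]; exact le_top)
    (fun T => C[T].relIndex W ∈ _) (by rw [cent_bot, relIndex_top_left]; exact one_mem _) ?_
  intro U V h hU _ ih
  obtain ⟨r, hr, hE, hd⟩ := h.exists_elem (isSolvable_of_le hs hU)
  obtain ⟨R, hR⟩ := exists_syl r U
  have h1 := isPGroup_iff_piN.1 (elem_pgroup hE)
  rw [card_qt (hU.trans h.nY)] at h1
  rw [← hR.sup_eq_of_index h.lt.le h1, cent_sup, inf_comm, ← relIndex_inf_mul_relIndex]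
  refine mul_mem (Submonoid.subset_closure ⟨exists_relIndex_eq_pow hW.to_inf_right _,
    (relIndex_dvd_card _ _).trans (card_dvd_of_le inf_le_right), r, hr.out,
    hd.trans ((relIndex_dvd_card _ _).trans (card_dvd_of_le hU)), ?_⟩) ih
  have h2 : ¬ r ∣ o[C[V] ⊓ W] := fun h3 => by
    obtain ⟨k, hk⟩ := exists_card_eq_pow hW
    have := (Nat.prime_dvd_prime_iff_eq hr.out Fact.out).1
      (hr.out.dvd_of_dvd_pow (hk ▸ h3.trans (card_dvd_of_le inf_le_right)))
    exact hc (this ▸ hd.trans ((relIndex_dvd_card _ _).trans (card_dvd_of_le hU)))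
  have := dvd_relIndex_cent_sub_one hR.pg
    (le_norm_inf (le_norm_cent (hR.le.trans (hU.trans h.nY))) (hR.le.trans (hU.trans hn))) h2
  exact ((Nat.modEq_iff_dvd' (relIndex_pos _ _)).2 this).symm

omit [Finite G] in
theorem card_conj_subgroup (V : Subgroup G) :
    Nat.card {W // ∃ g : G, V.map (CfsgH2.cj g) = W} = N[V].index := by
  have h1 : MulAction.stabilizer (ConjAct G) V = N[V] :=
    Subgroup.ext fun g => Subgroup.conjAct_pointwise_smul_iff (g := g)
  exact (MulAction.index_stabilizer (ConjAct G) V).symm.trans (congrArg Subgroup.index h1)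

theorem hall_index_mem [Group.IsSolvable G] {π : Set ℕ} (hH : Hall π H ⊤) :
    N[H].index ∈ Submonoid.closure {a : ℕ | (∃ q e : ℕ, q.Prime ∧ a = q ^ e) ∧
      (∃ U V : Subgroup G, Chf ⊤ U V ∧ a ∣ V.relIndex U) ∧ ∃ r : ℕ, r.Prime ∧ r ∣ o[H] ∧ a ≡ 1 [MOD r]} := by
  rw [← relIndex_top_right]
  refine chf_ind (M := ⊤) le_rfl (le_norm_of_le le_rfl) bot_le (by rw [norm_bot])
    (fun T => N[H].relIndex T ∈ _) (by rw [relIndex_bot_right]; exact one_mem _) ?_
  intro U V h _ _ ih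
  have nV : ∀ X : Subgroup G, X ≤ N[V] := fun X => le_top.trans h.nY
  have nU : ∀ X : Subgroup G, X ≤ N[U] := fun X => le_top.trans h.nX
  have e1 : V ⊔ U ⊓ N[H] = U ⊓ N[H ⊔ V] := by
    refine le_antisymm (sup_le (le_inf h.lt.le (le_norm_of_le le_sup_right))
      (inf_le_inf_left _ (le_norm_sup le_rfl (nV _)))) fun u hu => ?_
    obtain ⟨k, hk, n, hn, e⟩ := (hH.mono le_sup_left le_top).frattini inferInstance hu.2
    obtain ⟨v, hv, a, ha, rfl⟩ := (mem_sup_of_norm' (nV _)).1 (sup_comm H V ▸ hk)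
    rw [e, mul_assoc]
    refine mul_mem_sup hv ⟨?_, mul_mem (le_normalizer ha) hn⟩
    have := mul_mem (inv_mem (h.lt.le hv)) hu.1
    rw [e] at this
    simpa [mul_assoc] using this
  have e2 : N[H].relIndex U = N[H].relIndex V * (U ⊓ N[H ⊔ V]).relIndex U := by
    rw [← inf_relIndex_right N[H] U, ← relIndex_mul_relIndex _ (V ⊔ U ⊓ N[H]) U
      (by rw [inf_comm]; exact le_sup_right) (sup_le h.lt.le inf_le_left), e1, ← e1, inf_comm N[H],
      CfsgH1.relIndex_sup_right_of_le_normalizer (nV _), ← inf_relIndex_right _ V, inf_comm U, inf_assoc,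
      inf_eq_right.2 h.lt.le, inf_relIndex_right]
  rw [e2]
  refine mul_mem ih ?_
  obtain ⟨q, hq, hE, -⟩ := h.exists_elem inferInstance
  have pU := elem_pgroup hE
  by_cases hπ : q ∈ π
  · have : U ≤ H ⊔ V := by
      rw [← qt_le_qt (nV _) (nV _)]
      have h2 := (hH.qt (nV _)).le_of_norm (IsPGroup.piN pU hπ) (qt_mono le_top) (Or.inl (qt_le_norm (nU _)))
      exact h2
    rw [relIndex_eq_one.2 (le_inf le_rfl (le_norm_of_le this))]
    exact one_mem _
  · have hc : ¬ q ∣ o[qt V H] := fun hd => hπ (hH.pi q hq.out (hd.trans card_qt_dvd))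
    rw [← relIndex_qt (nV _) (le_inf h.lt.le (le_norm_of_le le_sup_right)), qt_inf_norm (nV _) le_sup_right,
      qt_sup_self (nV _)]
    have e3 : qt V U ⊓ N[qt V H] = qt V U ⊓ C[qt V H] := le_antisymm (le_inf inf_le_left
      (le_cent_of_inf_eq_bot inf_le_right (le_norm_inf (qt_le_norm (nU _)) (le_norm_of_le le_normalizer))
        (inf_eq_bot_of_coprime' (coprime_of_pgroup pU.to_inf_left hc)))) (inf_le_inf_left _ (cent_le_norm _))
    rw [e3, inf_comm, inf_relIndex_right]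
    refine Submonoid.closure_mono ?_ (relIndex_cent_mem pU (qt_le_norm (nU _)) inferInstance hc)
    rintro a ⟨⟨e, he⟩, h1, r, hr, h2, h3⟩
    exact ⟨⟨q, e, hq.out, he⟩, ⟨U, V, h, by rwa [card_qt (nV _)] at h1⟩, r, hr, h2.trans card_qt_dvd, h3⟩

end CfsgL0
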