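import Cfsg.Agent.H2.Gs2
import Cfsg.Agent.H2.BG0
import Cfsg.Agent.H2.MaxCl3
import Cfsg.Prelude.Def_MonsterType

/-! Large extraspecial 2-subgroups. -/

namespace CfsgL0
open Function Subgroup Cfsg CfsgH2
open scoped commutatorElement IsMulCommutative

variable {G : Type*} [Group G] {Q Q' A K L M P T : Subgroup G} {a b c g k w x y z : G}

theorem mem_zp2 (h : z * z = 1) : w ∈ zpowers z ↔ w = 1 ∨ w = z := by
  refine ⟨fun ⟨n, e⟩ => ?_, by rintro (rfl | rfl); exacts [one_mem _, mem_zpowers _]⟩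
  obtain ⟨m, rfl | rfl⟩ := n.even_or_odd' <;> simp [← e, zpow_add, zpow_mul, pow_two, h]

theorem mem_v4 (hz : z * z = 1) (hx : x * x = 1) (c : x * z = z * x) :
    w ∈ zpowers z ⊔ zpowers x ↔ w = 1 ∨ w = z ∨ w = x ∨ w = z * x := by
  rw [mem_sup_of_norm' (le_norm_of_le_cent (by rw [cent_zpowers, zpowers_le]; exact mem_centralizer_singleton_iff.2 c))]
  simp only [mem_zp2 hz, mem_zp2 hx]
  constructor
  · rintro ⟨_, rfl | rfl, _, rfl | rfl, rfl⟩ <;> simp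
  · rintro (rfl | rfl | rfl | rfl) <;> simp

theorem inv_eq2 (h : z * z = 1) : z⁻¹ = z := inv_eq_of_mul_eq_one_left h

variable [Finite G]

theorem syl_of_cen (hp : PG[2, Q]) (zp : Z[Q] = zpowers z) (cen : C[Q] ≤ Q) (o : orderOf z = 2) (l : Q ≤ M) :
    ∃ T, Syl 2 T M ∧ Q ≤ T ∧ T ≤ C1[z] ∧ Z[T] = zpowers z ∧ N[T] ≤ C1[z] := by
  have zQ : z ∈ Z[Q] := zp.ge (mem_zpowers z)
  obtain ⟨T, hT, h1⟩ := exists_syl_ge hp (le_inf l (le_cent1_iff.2 zQ.2))
  have l2 : T ≤ C1[z] := hT.le.trans inf_le_right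
  have e : Z[T] = zpowers z := le_antisymm (zp ▸ le_inf (inf_le_right.trans ((cent_anti h1).trans cen))
    (inf_le_right.trans (cent_anti h1))) (zpowers_le.2 ⟨h1 zQ.1, le_cent1_iff.1 l2⟩)
  have n : N[T] ≤ C1[z] := fun g hg => by
    have := conj_mem_of_norm (norm_le_norm_center hg) (e.ge (mem_zpowers z))
    have z2 : z * z = 1 := by rw [← sq, ← o, pow_orderOf_eq_one]
    rw [e, mem_zp2 z2] at this
    refine mem_centralizer_singleton_iff.2 (mul_inv_eq_iff_eq_mul.1 (this.resolve_left fun k => ?_))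
    rw [conj_eq_one_iff] at k; rw [k, orderOf_one] at o; omega
  exact ⟨T, Syl.of_norm (hT.le.trans inf_le_left) (hT.mono (le_inf (hT.le.trans inf_le_left) le_normalizer)
    (inf_le_inf_left _ n)), h1, l2, e, n⟩

structure LE (Q : Subgroup G) (z : G) : Prop where
  wx : Wx 2 Q
  nab : ¬ Ab[Q]
  zp : Z[Q] = zpowers z
  cen : C[Q] ≤ Q
  nor : C1[z] ≤ N[Q]

theorem le_of (h1 : IsExtraspecial 2 Q) (h2 : C[Q] = (center Q).map Q.subtype)
    (h3 : C[(center Q).map Q.subtype] ≤ N[Q]) : ∃ z, LE Q z := by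
  obtain ⟨w, n⟩ := extraspecial_iff.1 h1
  rw [map_center_subtype] at h2 h3
  obtain ⟨z, e⟩ := isCyclic_iff_zpowers.1 (isCyclic_of_card_prime Nat.prime_two w.cardZ)
  exact ⟨z, w, n, e.symm, h2.le.trans inf_le_left, by rwa [← e, cent_zpowers] at h3⟩

theorem le_of' (h : IsLargeExtraspecial Q) (e : (center Q).map Q.subtype = zpowers z) : LE Q z := by
  obtain ⟨w, n⟩ := extraspecial_iff.1 h.1
  have h3 := h.2.2.1
  rw [e, cent_zpowers] at h3
  exact ⟨w, n, map_center_subtype.symm.trans e, h.2.1.le.trans (map_subtype_le _), h3⟩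

theorem le_of_cen (h1 : IsExtraspecial 2 Q) (o : orderOf z = 2) (l : Q ≤ C1[z]) (cen : C[Q] ≤ Q) (n : C1[z] ≤ N[Q]) :
    LE Q z := by
  obtain ⟨w, na⟩ := extraspecial_iff.1 h1
  refine ⟨w, na, (zpowers_eq_of_prime (w.cardZ ▸ Nat.prime_two) (mem_inf.2 ⟨cen (le_cent1_iff.1 l), le_cent1_iff.1 l⟩)
    fun e => ?_).symm, cen, n⟩
  rw [e, orderOf_one] at o; omega

namespace LE
variable (h : LE Q z)
include h

theorem ord : orderOf z = 2 := by rw [← Nat.card_zpowers, ← h.zp, h.wx.cardZ]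
theorem z2 : z * z = 1 := by rw [← sq, ← h.ord, pow_orderOf_eq_one]
theorem z1 : z ≠ 1 := fun e => by have := h.ord; rw [e, orderOf_one] at this; omega
omit [Finite G] in
theorem zZ : z ∈ Z[Q] := h.zp.ge (mem_zpowers z)
omit [Finite G] in
theorem zQ : z ∈ Q := h.zZ.1
omit [Finite G] in
theorem le : Q ≤ C1[z] := le_cent1_iff.2 h.zZ.2
omit [Finite G] in
theorem cz (ha : a ∈ Q) : a * z = z * a := mem_centralizer_singleton_iff.1 (h.le ha)
omit [Finite G] in
theorem cenE : C[Q] = zpowers z := h.zp ▸ (inf_eq_right.2 h.cen).symm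
omit [Finite G] in
theorem der : ⁅Q, Q⁆ ≤ zpowers z := h.zp ▸ h.wx.der
theorem sq (ha : a ∈ Q) : a * a ∈ zpowers z := by simpa [h.zp, pow_two] using h.wx.pow_mem ha

theorem conj (g : G) : LE (Q.map (cj g)) (g * z * g⁻¹) := by
  refine ⟨(inj_wx (cj_injective g)).2 h.wx, fun k => h.nab ((inj_isMulComm (cj_injective g)).1 k), ?_, ?_, ?_⟩
  · rw [centralizer_map_cj, ← map_cj_inf, h.zp, MonoidHom.map_zpowers, cj_apply]
  · rw [centralizer_map_cj]; exact map_mono h.cen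
  · rw [centralizer_conj, normalizer_map_cj]; exact map_mono h.nor

omit [Finite G] in
theorem uniq (e : g * z * g⁻¹ = k * z * k⁻¹) : Q.map (cj g) = Q.map (cj k) := by
  have : k⁻¹ * g ∈ C1[z] := mem_centralizer_singleton_iff.2 (by
    rw [show k⁻¹ * g * z = k⁻¹ * (g * z * g⁻¹) * g by group, e]; group)
  rw [show g = k * (k⁻¹ * g) by group, ← map_cj_cj, map_cj_eq (h.nor this)]

theorem conj_cases (ha : a ∈ Q) (hb : b ∈ Q) : a * b * a⁻¹ = b ∨ a * b * a⁻¹ = b * z := by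
  rcases (mem_zp2 h.z2).1 (h.der (commutator_mem_commutator ha hb)) with e | e
  · exact .inl (mul_inv_eq_one.1 e)
  · exact .inr (by rw [h.cz hb]; exact mul_inv_eq_iff_eq_mul.1 e)

theorem inner (l : L ≤ C1[z]) (c : ⁅L, Q⁆ ≤ zpowers z) : L ≤ Q := by
  have n : ∀ X : Subgroup G, X ≤ C1[z] → X ≤ N[zpowers z] := fun X k => le_norm_of_le_cent (by rwa [cent_zpowers])
  have := h.wx.sup_cent (L := Q ⊔ L) le_sup_left (h.zp ▸ CfsgH1.commutator_sup_le (n _ h.le) (n _ l) h.der c)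
    (by rw [h.zp, cent_zpowers]; exact sup_le h.le l)
  exact le_sup_right.trans (this.ge.trans (sup_le le_rfl (inf_le_right.trans h.cen)))

theorem inner' (l : g ∈ C1[z]) (c : ∀ y ∈ Q, y⁻¹ * (g * y * g⁻¹) ∈ zpowers z) : g ∈ Q := by
  have n : ∀ X : Subgroup G, X ≤ C1[z] → X ≤ N[zpowers z] := fun X k => le_norm_of_le_cent (by rwa [cent_zpowers])
  refine zpowers_le.1 (h.inner (zpowers_le.2 l) ?_)
  rw [commutator_comm]
  exact comm_zpowers_le' (n _ h.le) (n _ le_rfl l) fun y hy => by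
    simpa [commutatorElement_def, mul_assoc] using c _ (inv_mem hy)

theorem dbl (hA : A ≤ Q) (hz : z ∈ A) : Q ⊓ C[Q ⊓ C[A]] = A := by
  have e1 := h.wx.card_cent hA
  have e2 := h.wx.card_cent (inf_le_left : Q ⊓ C[A] ≤ Q)
  rw [inf_eq_right.2 (h.zp.le.trans (zpowers_le.2 hz))] at e1
  rw [inf_eq_right.2 (inf_le_inf_left _ (cent_anti hA)), ← e1, mul_comm] at e2
  exact (eq_of_le_of_card_le (le_inf hA (le_centralizer_iff.1 inf_le_right))
    (Nat.eq_of_mul_eq_mul_right (card_pos' _) e2).le).symm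

theorem sep (hA : A ≤ Q) (hz : z ∈ A) (hx : x ∈ Q) (h1 : x ∉ A) : ∃ y ∈ Q ⊓ C[A], y * x * y⁻¹ = x * z := by
  by_contra! k
  exact h1 ((h.dbl hA hz).le ⟨hx, mem_cent_iff.2 fun y hy =>
    mul_inv_eq_iff_eq_mul.1 ((h.conj_cases hy.1 hx).resolve_right (k y hy))⟩)

theorem sep0 (hx : x ∈ Q) (h1 : x ∉ zpowers z) : ∃ y ∈ Q, y * x * y⁻¹ = x * z :=
  let ⟨y, a, b⟩ := h.sep (zpowers_le.2 h.zQ) (mem_zpowers z) hx h1; ⟨y, a.1, b⟩

theorem idx (hx : x ∈ Q) (h1 : x ∉ zpowers z) : C1[x].relIndex Q = 2 := by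
  have a := relIndex_cent1_le (H := Q) (a := x) fun y hy => h.der (commutator_mem_commutator hy hx)
  rw [Nat.card_zpowers, h.ord] at a
  exact le_antisymm a (Nat.le_of_dvd (relIndex_pos _ _) (dvd_relIndex_of_not_le h.wx.pg fun k =>
    h1 (h.cenE.le (le_cent1_iff.1 k))))

theorem odd_triv (o : Odd o[K]) (n : Q ≤ N[K]) (l : K ≤ C1[z]) : K = ⊥ := by
  have d : K ⊓ Q = ⊥ := inf_eq_bot_of_coprime' (coprime_of_pgroup h.wx.pg o.not_two_dvd_nat).symm
  exact eq_bot_iff.2 ((le_inf le_rfl ((le_cent_of_inf_eq_bot (l.trans h.nor) n d).trans h.cen)).trans d.le)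

omit [Finite G] in
theorem large (k : ∀ K : Subgroup G, Odd o[K] → Q ≤ N[K] → K = ⊥) [Finite G] : IsLargeExtraspecial Q := by
  refine ⟨extraspecial_iff.2 ⟨h.wx, h.nab⟩, ?_, ?_, k⟩ <;> rw [map_center_subtype, h.zp]
  exacts [h.cenE, cent_zpowers z ▸ h.nor]

omit h in
theorem cent_of_core (o : Odd o[K]) (l : K ≤ M) (hz : z ∈ O[{2}, M]) (n : z ∈ N[K]) : K ≤ C1[z] := fun k hk => by
  have d : K ⊓ O[{2}, M] = ⊥ := inf_eq_bot_of_coprime' (coprime_of_pgroup isPGroup_piCoreOf o.not_two_dvd_nat).symm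
  refine mem_centralizer_singleton_iff.2 (commutatorElement_eq_one_iff_mul_comm.1 (mem_bot.1 (d.le ⟨?_, ?_⟩)))
  · simpa [commutatorElement_def, mul_assoc] using K.mul_mem hk (conj_mem_of_norm n (inv_mem hk))
  · exact Subgroup.mul_mem _ (conj_mem_of_norm (le_norm_piCoreOf (l hk)) hz) (inv_mem hz)

theorem large1 (hz : z ∈ O[{2}, ⊤]) : IsLargeExtraspecial Q :=
  h.large fun _ o n => h.odd_triv o n (cent_of_core o le_top hz (n h.zQ))

theorem card_V (hx : x ∈ C1[z]) (h1 : x ∉ zpowers z) (x2 : x * x = 1) : o[zpowers z ⊔ zpowers x] = 4 := by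
  rw [card_sup_zpowers_prime Nat.prime_two (cent_le_norm _ (cent_zpowers z ▸ hx)) (by rw [pow_two, x2]; exact one_mem _) h1,
    Nat.card_zpowers, h.ord]

theorem large2 (hb : b ∈ Q) (h1 : b ∉ zpowers z) (b2 : b * b = 1) (hz : z ∈ O[{2}, C1[b]]) : IsLargeExtraspecial Q := by
  refine h.large fun K o n => eq_bot_iff.2 ?_
  have od : ∀ a, Odd o[K ⊓ C1[a]] := fun a => o.of_dvd_nat (card_dvd_of_le inf_le_left)
  have k1 : K ⊓ C1[z] = ⊥ := h.odd_triv (od z) (le_norm_inf n (le_norm_of_le h.le)) inf_le_right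
  have k2 : K ⊓ C1[b] = ⊥ := eq_bot_iff.2 ((le_inf inf_le_left (cent_of_core (od b) inf_le_right hz
    (mem_norm_inf (n h.zQ) (le_normalizer (mem_centralizer_singleton_iff.2 (h.cz hb).symm))))).trans k1.le)
  have el : IsElementaryAbelian 2 (zpowers z ⊔ zpowers b : Subgroup G) := elem_sup (elem_zpowers (by rw [pow_two, h.z2]))
    (elem_zpowers (by rw [pow_two, b2])) (by rw [le_centralizer_iff, cent_zpowers, zpowers_le]; exact h.le hb)
  have c := h.card_V (h.le hb) h1 b2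
  refine le_of_cent1 el.1 (not_cyclic_of_elem Nat.prime_two el (n := 2) c le_rfl)
    ((sup_le (zpowers_le.2 h.zQ) (zpowers_le.2 hb)).trans n) (coprime_of_pgroup (elem_pgroup el) o.not_two_dvd_nat)
    fun a ha a1 => le_of_eq ?_
  rcases (mem_v4 h.z2 b2 (h.cz hb)).1 ha with rfl | rfl | rfl | rfl
  exacts [(a1 rfl).elim, k1, k2, by
    obtain ⟨y, hy, e⟩ := h.sep0 hb h1
    rw [← h.cz hb, ← e, centralizer_conj, ← map_cj_eq (n hy), ← map_cj_inf, k2, Subgroup.map_bot]]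

theorem cent_P (hx : x ∈ Q) (h1 : x ∉ zpowers z) (x2 : x * x = 1) :
    C1[z] ⊓ C[Q ⊓ C1[x]] ≤ zpowers z ⊔ zpowers x := by
  have lV : zpowers z ⊔ zpowers x ≤ Q := sup_le (zpowers_le.2 h.zQ) (zpowers_le.2 hx)
  have d := h.dbl lV (mem_sup_left (mem_zpowers z))
  rw [cent_sup, cent_zpowers, cent_zpowers, ← inf_assoc, inf_eq_left.2 h.le] at d
  have nP : Q ≤ N[Q ⊓ C1[x]] := le_norm_of_commutator_le
    (h.der.trans (zpowers_le.2 ⟨h.zQ, mem_centralizer_singleton_iff.2 (h.cz hx).symm⟩)) inf_le_left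
  refine fun a ha => d.le ⟨h.inner' ha.1 fun y hy => ?_, ha.2⟩
  have m : y⁻¹ * (a * y * a⁻¹) ∈ zpowers z ⊔ zpowers x := d.le ⟨Q.mul_mem (inv_mem hy) (conj_mem_of_norm (h.nor ha.1) hy), by
    simpa [commutatorElement_def, mul_assoc] using comm_le_cent_of_norm nP (zpowers_le.2 ha.2)
      (commutator_mem_commutator (inv_mem hy) (mem_zpowers a))⟩
  have s : a * (y * y) * a⁻¹ = y * y := by
    rw [mem_cent_iff.1 (le_centralizer_iff.1 (cent_zpowers z ▸ le_rfl) (h.sq hy)) a ha.1]; simp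
  by_cases c : y ∈ C1[x]
  · rw [← mem_cent_iff.1 ha.2 y ⟨hy, c⟩]; simp
  have e := (h.conj_cases hy hx).resolve_left fun e => c (mem_centralizer_singleton_iff.2 (mul_inv_eq_iff_eq_mul.1 e))
  have key : ∀ w, w * w = 1 → y * w * y⁻¹ = w * z → y⁻¹ * (a * y * a⁻¹) ≠ w := fun w w2 e1 e2 => h.z1 (by
    have : y * w * (y * w) = y * y := by rw [← s, ← e2]; group
    have e3 : w * y * w = y := mul_left_cancel (a := y) (by rw [← this]; group)
    have : y * w * y⁻¹ = w⁻¹ := by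
      rw [show y * w * y⁻¹ = w⁻¹ * (w * y * w) * y⁻¹ by group, e3]; simp
    rwa [e1, inv_eq2 w2, mul_eq_left] at this)
  rcases (mem_v4 h.z2 x2 (h.cz hx)).1 m with k | k | k | k
  exacts [k ▸ one_mem _, k ▸ mem_zpowers _, (key x x2 e k).elim, (key _ (by
    rw [mul_assoc, ← mul_assoc x, h.cz hx, mul_assoc, x2, mul_one, h.z2]) (by
    rw [← mul_assoc, h.cz hy, mul_assoc, mul_assoc, ← mul_assoc y, e, mul_assoc]) k).elim]

theorem nP (hx : x ∈ Q) : Q ≤ N[Q ⊓ C1[x]] := le_norm_of_commutator_le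
  (h.der.trans (zpowers_le.2 ⟨h.zQ, mem_centralizer_singleton_iff.2 (h.cz hx).symm⟩)) inf_le_left

theorem swap (hx : g * z * g⁻¹ ∈ Q) (h1 : g * z * g⁻¹ ∉ zpowers z) (ha : a ∈ Q.map (cj g))
    (e : a * z * a⁻¹ = z * (g * z * g⁻¹)) : z ∈ Q.map (cj g) := by
  obtain ⟨y, hy, e1⟩ := h.sep0 hx h1
  have h' := h.conj g
  set x := g * z * g⁻¹
  have a1 : a * x * a⁻¹ = x := mul_inv_eq_iff_eq_mul.2 (h'.cz ha)
  have y1 : y * z * y⁻¹ = z := mul_inv_eq_iff_eq_mul.2 (h.cz hy)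
  have k1 : y * a * y * z * (y * a * y)⁻¹ = x := by
    rw [show y * a * y * z * (y * a * y)⁻¹ = y * (a * (y * z * y⁻¹) * a⁻¹) * y⁻¹ by group, y1, e,
      show y * (z * x) * y⁻¹ = y * z * y⁻¹ * (y * x * y⁻¹) by group, y1, e1, h.cz hx, ← mul_assoc, h.z2, one_mul]
  have k2 : y * a * y * x * (y * a * y)⁻¹ = z := by
    rw [show y * a * y * x * (y * a * y)⁻¹ = y * (a * (y * x * y⁻¹) * a⁻¹) * y⁻¹ by group, e1,
      show a * (x * z) * a⁻¹ = a * x * a⁻¹ * (a * z * a⁻¹) by group, a1, e, ← h.cz hx, ← mul_assoc x, h'.z2, one_mul, y1]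
  rw [← h.uniq k1, ← k2]
  exact conj_mem_map_cj hx

theorem symm (hx : g * z * g⁻¹ ∈ Q) (na : ¬ Ab[Q ⊓ C1[g * z * g⁻¹]]) : z ∈ Q.map (cj g) := by
  have h' := h.conj g
  by_cases h1 : g * z * g⁻¹ ∈ zpowers z
  · exact ((mem_zp2 h.z2).1 h1).resolve_left h'.z1 ▸ h'.zQ
  by_contra hz
  have sw := fun a ha e => hz (h.swap (a := a) hx h1 ha e)
  set x := g * z * g⁻¹
  set R := Q.map (cj g)
  set P := Q ⊓ C1[x]
  set A := R ⊓ C1[z]
  have zP : z ∈ P := ⟨h.zQ, mem_centralizer_singleton_iff.2 (h.cz hx).symm⟩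
  have PR : P ≤ N[R] := inf_le_right.trans h'.nor
  have AQ : A ≤ N[Q] := inf_le_right.trans h.nor
  have nx : ∀ X : Subgroup G, X ≤ C1[x] → X ≤ N[zpowers x] := fun X k => le_norm_of_le_cent (by rwa [cent_zpowers])
  have E : Q ⊓ R ≤ zpowers x := fun e he => by
    have : e ∈ C[P] := mem_cent_iff.2 fun p hp => mul_inv_eq_iff_eq_mul.1 ((h.conj_cases hp.1 he.1).resolve_right
      fun k => hz ((mul_mem_cancel_left (mem_inf.1 he).2).1 (k ▸ conj_mem_of_norm (PR hp) he.2)))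
    rcases (mem_v4 h.z2 h'.z2 (h.cz hx)).1 (h.cent_P hx h1 h'.z2 ⟨h.le he.1, this⟩) with k | k | k | k
    exacts [k ▸ one_mem _, (hz (k ▸ he.2)).elim, k ▸ mem_zpowers _,
      (hz ((mul_mem_cancel_right h'.zQ).1 (k ▸ he.2))).elim]
  have AP : ⁅A, P⁆ ≤ zpowers x := (le_inf ((commutator_mono le_rfl inf_le_left).trans (comm_le_right AQ))
    ((commutator_mono inf_le_left le_rfl).trans (comm_le_left PR))).trans E
  have st : ∀ b ∈ R, ⁅b, z⁆ ∈ zpowers x → b ∈ A := fun b hb k => ⟨hb, by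
    rcases (mem_zp2 h'.z2).1 k with k | k
    · exact mem_centralizer_singleton_iff.2 (commutatorElement_eq_one_iff_mul_comm.1 k)
    · exact (sw b hb (by rw [← h.cz hx]; exact mul_inv_eq_iff_eq_mul.1 k)).elim⟩
  have RZ : ⁅R, zpowers z⁆ ≤ A := comm_zpowers_le' (le_norm_of_commutator_le (h'.der.trans (zpowers_le.2
    ⟨h'.zQ, h.le hx⟩)) inf_le_left |> fun k => k) (mem_norm_inf (PR zP) (le_normalizer (self_mem_cent1 z))) fun y hy => by
      have m : ⁅y, z⁆ ∈ R := comm_le_left PR (commutator_mem_commutator hy zP)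
      refine st _ m ?_
      have : ⁅⁅y, z⁆, z⁆ = ⁅y, z⁆ * ⁅y, z⁆ := by
        simp only [commutatorElement_def, inv_eq2 h.z2, mul_inv_rev, inv_inv, mul_assoc]
        rw [← mul_assoc z z, h.z2, one_mul]
      rw [this]; exact h'.sq m
  have cx : ∀ X : Subgroup G, X ≤ C1[x] → ⁅zpowers x, X⁆ = ⊥ := fun X k => by
    rw [commutator_comm, comm_eq_bot_iff, cent_zpowers]; exact k
  have RP : ⁅P, R⁆ ≤ R ⊓ C[A] := le_inf (comm_le_right PR) (comm_eq_bot_iff.1 (three_subgroup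
    (eq_bot_iff.2 ((commutator_mono ((commutator_mono le_rfl inf_le_left).trans h'.der) le_rfl).trans
      (cx P inf_le_right).le)) (eq_bot_iff.2 ((commutator_mono AP le_rfl).trans (cx R h'.le).le))))
  have BA : R ⊓ C[A] ≤ A := fun b hb => st b hb.1 (h'.cenE.le (comm_eq_bot_iff.1 (three_subgroup (H := R ⊓ C[A])
    (K := zpowers z) (L := R) (by
      rw [commutator_comm (zpowers z), comm_eq_bot_iff]
      exact RZ.trans (le_centralizer_iff.1 inf_le_right)) (eq_bot_iff.2 ((commutator_mono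
        ((commutator_mono le_rfl inf_le_left).trans h'.der) le_rfl).trans (cx _ (zpowers_le.2 zP.2)).le)))
      (commutator_mem_commutator hb (mem_zpowers z))))
  have k := (commutator_mono (RP.trans BA) le_rfl).trans AP
  obtain ⟨p, hp, q, hq, n⟩ := exists_not_commute na
  have l := h'.inner (L := ⁅P, P⁆) (commutator_self_le.trans inf_le_right) (three_subgroup_le (nx _ inf_le_right)
    (nx _ inf_le_right) (nx _ h'.le) k (by rwa [commutator_comm R]))
  have := l (commutator_mem_commutator hp hq)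
  rcases (mem_zp2 h.z2).1 (h.der (commutator_mem_commutator hp.1 hq.1)) with e | e
  exacts [n (commutatorElement_eq_one_iff_commute.1 e), hz (e ▸ this)]

theorem nab_P (c : 8 < o[Q]) (hx : x ∈ Q) : ¬ Ab[Q ⊓ C1[x]] := fun k => by
  have a := h.wx.card_cent_le (inf_le_left : Q ⊓ C1[x] ≤ Q)
  have b := card_le_of_le (le_inf (inf_le_left : Q ⊓ C1[x] ≤ Q) (le_cent_self k))
  have d := card_inf_mul_relIndex C1[x] Q
  have e := relIndex_cent1_le (H := Q) (a := x) fun y hy => h.der (commutator_mem_commutator hy hx)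
  rw [Nat.card_zpowers, h.ord] at e
  rw [inf_comm] at d
  have : o[Q] ≤ o[Q ⊓ C1[x]] * 2 := d ▸ Nat.mul_le_mul_left _ e
  nlinarith

end LE
end CfsgL0
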