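import Mathlib
import Cfsg.Agent.L0.M3
import Cfsg.Agent.H2.FT

set_option autoImplicit false
open Cfsg Subgroup CfsgH2 Function
open scoped commutatorElement

namespace CfsgL0
variable {G : Type*} [Group G] [Finite G] {π : Set ℕ} {K L : Subgroup G}

theorem pclosed_iff_hall : (∃ K : Subgroup G, ∀ x : G, x ∈ K ↔ PiN π (orderOf x)) ↔
    Hall π O[π, (⊤ : Subgroup G)] ⊤ := by
  refine ⟨fun ⟨K, hK⟩ => ?_, fun h => ⟨_, fun x => ⟨piN_orderOf h.pi, h.mem_of_norm le_norm_piCoreOf (mem_top x)⟩⟩⟩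
  have h1 : Hall π K ⊤ := ⟨le_top, piN_of_forall fun x hx => (hK x).1 hx, fun p hp hd hπ => by
    obtain ⟨x, -, h1, h2⟩ := exists_pelem_not_mem hp hd
    exact h2 ((hK x).2 (h1.mono (Set.singleton_subset_iff.2 hπ)))⟩
  rwa [h1.eq_piCoreOf fun g _ => mem_norm_of_conj fun x hx => by
    rw [hK, orderOf_conj']; exact (hK x).1 hx]

theorem hom_elem (hhom : ∀ H : Subgroup G, H ≠ ⊥ → PiN πᶜ o[H] → PiN πᶜ (C[H].relIndex N[H])) :
    ∀ H : Subgroup G, PiN πᶜ o[H] → ∀ x ∈ N[H], PiN π (orderOf x) → x ∈ C[H] := fun H hH x hx h => by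
  by_cases h0 : H = ⊥
  · rw [h0, cent_bot]; trivial
  exact le_of_coprime_relIndex (H := zpowers x) (zpowers_le.2 hx) (norm_le_norm_cent H)
    (PiN.coprime (piN_card_zpowers h) (hhom H h0 hH)) (mem_zpowers x)

theorem pclosed_step (hom : ∀ H : Subgroup G, PiN πᶜ o[H] → ∀ x ∈ N[H], PiN π (orderOf x) → x ∈ C[H])
    (hKL : K ≤ L) (hn : L ≤ N[K]) (hK : Hall π O[π, K] K)
    (h : PiN π (K.relIndex L) ∨ PiN πᶜ (K.relIndex L)) : Hall π O[π, L] L := by
  have nO : L ≤ N[O[π, K]] := le_norm_piCoreOf' hn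
  rcases h with h | h
  swap
  · have := hK.trans hKL h
    rwa [this.eq_piCoreOf nO]
  obtain ⟨H, h1, h2, h3, h4⟩ := exists_compl hK.le le_norm_piCoreOf hK.coprime
  have hH : PiN πᶜ o[H] := h4 ▸ hK.pi'
  have hc : o[H].Coprime o[O[π, K]] := PiN.coprime' hH hK.pi
  have hfr : L ≤ O[π, K] ⊔ (L ⊓ N[H]) := fun l hl => by
    have hc' : o[H.map (CfsgH2.cj l)].Coprime o[O[π, K]] := by rwa [card_map_cj]
    obtain ⟨k, hk, hle⟩ := exists_conj_le_compl (B := H.map (CfsgH2.cj l)) (h1.trans le_norm_piCoreOf) hc hc' (sol_or hc')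
      (by rw [h2]; exact map_cj_le_of_norm h1 (hn hl))
    rw [map_cj_cj] at hle
    have := mul_mem_sup (T := L ⊓ N[H]) (inv_mem hk) (⟨mul_mem (hKL (hK.le hk)) hl, mem_norm_of_map_le hle⟩ : k * l ∈ L ⊓ N[H])
    simpa using this
  have hi : PiN π (H.relIndex (L ⊓ N[H])) := by
    have e1 := relIndex_mul_relIndex H (L ⊓ N[H]) L (le_inf (h1.trans hKL) le_normalizer) inf_le_left
    have e2 := relIndex_mul_relIndex H K L h1 hKL
    have e3 : H.relIndex K = o[O[π, K]] := by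
      have a := card_mul_relIndex h1
      have b := card_mul_relIndex hK.le
      rw [← h4, ← a, mul_comm] at b
      exact (Nat.eq_of_mul_eq_mul_left Nat.card_pos b).symm
    exact ((e3 ▸ hK.pi).mul h).of_dvd (e2 ▸ e1 ▸ dvd_mul_right _ _)
  obtain ⟨T, t1, t2, -, t4⟩ := exists_compl (le_inf (h1.trans hKL) le_normalizer) inf_le_right
    (PiN.coprime' hH hi)
  have hT : PiN π o[T] := t4 ▸ hi
  have hTC : H ≤ C[T] := le_centralizer_iff.1 fun x hx => hom H hH x (t1 hx).2 (piN_orderOf hT hx)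
  have hTL : T ≤ L := t1.trans inf_le_left
  have nH : H ≤ N[O[π, K] ⊔ T] := le_norm_sup (h1.trans le_norm_piCoreOf) (le_norm_of_le_cent hTC)
  have hs : O[π, K] ⊔ T ⊔ H = L := by
    refine le_antisymm (sup_le (sup_le (hK.le.trans hKL) hTL) (h1.trans hKL)) ?_
    rwa [sup_assoc, sup_comm T, t2]
  have := Hall.of_compl (sup_le (hK.le.trans hKL) hTL) (piN_sup hK.pi hT (Or.inr (hTL.trans nO))) hH (Or.inr nH) hs
  rwa [this.eq_piCoreOf (by rw [← hs]; exact sup_le le_normalizer nH)]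

end CfsgL0
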