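import Cfsg.Agent.S0877
import Cfsg.Agent.H4.PPart
import Cfsg.Agent.H1.SylowIn
import Cfsg.Agent.H2.BG0

/-! π-homogeneous `D_π`-groups are π'-closed. -/

set_option autoImplicit false
namespace CfsgL0.PH
open Subgroup Cfsg CfsgH2
open CfsgH4 (ppart rpart)

local notation "cJ" => CfsgH2.cj

variable {G : Type*} [Group G] [Finite G] {π : Set ℕ} {D H L M N Q : Subgroup G} {p : ℕ}

theorem min_supp (hM : M ≤ L) (hn : L ≤ N[M]) (h : PiN π (M.relIndex L)) :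
    ∃ K ≤ L, PiN π o[K] ∧ K ⊔ M = L := by
  obtain ⟨K, hK, h1, hmin⟩ := exists_minimal_le (fun K => K ⊔ M = L) (H := L) (sup_eq_left.2 hM)
  refine ⟨K, hK, fun q hq hd => ?_, h1⟩
  by_contra hq'
  haveI := Fact.mk hq
  have n1 : K ≤ N[M ⊓ K] := le_norm_inf (hK.trans hn) le_normalizer
  have i1 : ¬ q ∣ (M ⊓ K).relIndex K := fun e => hq' (h q hq (by
    rwa [inf_relIndex_right, ← relIndex_sup_of_norm (hK.trans hn), h1] at e))
  obtain ⟨U, hU⟩ := exists_syl q (M ⊓ K)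
  have hUK : Syl q U K := hU.trans inf_le_right i1
  have e1 := hU.frattini_sup inf_le_right n1
  have e2 : K ⊓ N[U] = K := hmin _ (le_antisymm (sup_le (inf_le_left.trans hK) hM) (by
    rw [← h1]
    exact sup_le (e1.ge.trans (sup_le (inf_le_left.trans le_sup_right) le_sup_left)) le_sup_right))
    inf_le_left
  obtain ⟨K', l, e3, e4, -⟩ := exists_compl hUK.le (inf_eq_left.1 e2) hUK.coprime
  have e5 : K' = K := hmin _ (le_antisymm (sup_le (l.trans hK) hM) (by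
    rw [← h1]
    exact sup_le (e3.ge.trans (sup_le ((hU.le.trans inf_le_left).trans le_sup_right) le_sup_left))
      le_sup_right)) l
  rw [e5, inf_eq_left.2 hUK.le] at e4
  exact hUK.ne_bot hd e4

def Hom (π : Set ℕ) (G : Type*) [Group G] : Prop :=
  ∀ X : Subgroup G, PiN π o[X] → PiN π (C[X].relIndex N[X])

theorem exK [hp : Fact p.Prime] (hh : Hom π G) (hπ : p ∈ π) (hD : PiN π o[D]) (hQ : IsPGroup p Q)
    (hl : Q ≤ C[D]) : ∃ K ≤ C[D] ⊓ N[Q], PiN π o[K] ∧ ¬ p ∣ K.relIndex (C[D] ⊓ N[Q]) ∧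
      ∀ n ∈ C[D] ⊓ N[Q], ∃ k ∈ K, k⁻¹ * n ∈ C[Q] := by
  have n0 : C[D] ⊓ N[Q] ≤ N[D ⊔ Q] :=
    le_norm_sup (inf_le_left.trans (cent_le_norm D)) inf_le_right
  have l0 : C[D ⊔ Q] ≤ C[D] ⊓ N[Q] := by
    rw [cent_sup]; exact inf_le_inf_left _ (cent_le_norm Q)
  have n1 : C[D] ⊓ N[Q] ≤ N[C[D ⊔ Q]] := le_norm_cent n0
  have hi := hh (D ⊔ Q) (piN_sup hD (IsPGroup.piN hQ hπ) (Or.inr (hl.trans (cent_le_norm D))))
  have lQ : C[D ⊔ Q] ≤ C[Q] := cent_anti le_sup_right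
  generalize C[D] ⊓ N[Q] = N at *
  obtain ⟨R, hR⟩ := exists_syl p N
  have hR0 := hR.inf_norm l0 (hR.le.trans n1)
  have f1 := hR0.frattini_sup l0 n1
  have hRN : R ≤ N ⊓ N[R ⊓ C[D ⊔ Q]] :=
    le_inf hR.le (le_norm_inf le_normalizer (hR.le.trans n1))
  generalize hN1 : N ⊓ N[R ⊓ C[D ⊔ Q]] = N1 at *
  have l1 : N1 ≤ N := hN1 ▸ inf_le_left
  have l2 : N1 ≤ N[R ⊓ C[D ⊔ Q]] := hN1 ▸ inf_le_right
  obtain ⟨K, hK, hKπ, e⟩ := min_supp (π := π) (M := C[D ⊔ Q] ⊓ N1) (L := N1) inf_le_right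
    (le_norm_inf (l1.trans n1) le_normalizer) (by
      rw [inf_relIndex_right]
      exact hi.of_dvd (CfsgH1.relIndex_dvd_of_le_normalizer (cent_le_norm _) (norm_le_norm_cent _)
        (l1.trans n0)))
  have l3 : K ⊔ R ⊓ C[D ⊔ Q] ≤ N1 := sup_le hK (inf_le_left.trans hRN)
  refine ⟨K ⊔ R ⊓ C[D ⊔ Q], l3.trans l1,
    piN_sup hKπ (IsPGroup.piN hR0.pg hπ) (Or.inl (hK.trans l2)), ?_, fun n hn => ?_⟩
  · rw [← relIndex_mul_relIndex _ _ _ l3 l1, hp.out.dvd_mul, not_or]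
    refine ⟨?_, hR.not_dvd_of_le hRN⟩
    have s1 : Syl p (R ⊓ C[D ⊔ Q]) (C[D ⊔ Q] ⊓ N1) :=
      hR0.mono (le_inf inf_le_right (inf_le_left.trans hRN)) inf_le_left
    have s2 := s1.not_dvd_of_le (K := (K ⊔ R ⊓ C[D ⊔ Q]) ⊓ (C[D ⊔ Q] ⊓ N1))
      (le_inf le_sup_right s1.le)
    have e2 : (K ⊔ R ⊓ C[D ⊔ Q]) ⊔ C[D ⊔ Q] ⊓ N1 = N1 :=
      le_antisymm (sup_le l3 inf_le_right) (e.ge.trans (sup_le_sup_right le_sup_left _))
    have c1 := card_sup_mul_card_inf (H := K ⊔ R ⊓ C[D ⊔ Q]) (K := C[D ⊔ Q] ⊓ N1)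
      (l3.trans (le_norm_inf (l1.trans n1) le_normalizer))
    rw [e2, ← card_mul_relIndex l3, ← card_mul_relIndex (inf_le_right :
      (K ⊔ R ⊓ C[D ⊔ Q]) ⊓ (C[D ⊔ Q] ⊓ N1) ≤ C[D ⊔ Q] ⊓ N1), mul_assoc,
      Nat.mul_right_inj (card_pos' _).ne', mul_comm, Nat.mul_right_inj (card_pos' _).ne'] at c1
    rwa [c1]
  · have : n ∈ K ⊔ C[D ⊔ Q] := by
      rw [← f1, ← e] at hn
      exact (sup_le le_sup_right (sup_le le_sup_left (inf_le_left.trans le_sup_right)) :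
        _ ≤ K ⊔ C[D ⊔ Q]) hn
    obtain ⟨k, hk, c, hc, rfl⟩ := (mem_sup_of_norm ((hK.trans l1).trans n1)).1 this
    exact ⟨k, mem_sup_left hk, by rw [inv_mul_cancel_left]; exact lQ hc⟩

/-- every π-subgroup of `C(D)` is conjugate in `C(D)` into `H` -/
def DP (π : Set ℕ) (H D : Subgroup G) : Prop :=
  ∀ K ≤ C[D], PiN π o[K] → ∃ c ∈ C[D], K.map (cJ c) ≤ H

theorem DP.syl [hp : Fact p.Prime] (hA : DP π H D) (hπ : p ∈ π) {S : Subgroup G}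
    (hS : Syl p S (H ⊓ C[D])) : Syl p S C[D] := by
  obtain ⟨T, hT⟩ := exists_syl p C[D]
  obtain ⟨c, hc, h⟩ := hA T hT.le (IsPGroup.piN hT.pg hπ)
  have h1 := hT.map_cj_mem hc
  exact h1.of_card_ge hS.pg (hS.le.trans inf_le_right) (hS.card_le h1.pg (le_inf h h1.le))

theorem fus [hp : Fact p.Prime] (hh : Hom π G) (hπ : p ∈ π) (hD : PiN π o[D]) (hA : DP π H D)
    (n : ℕ) : ∀ Q : Subgroup G, Q.index = n → IsPGroup p Q → Q ≤ H ⊓ C[D] → ∀ g ∈ C[D],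
      Q.map (cJ g) ≤ H → ∃ h ∈ H ⊓ C[D], h⁻¹ * g ∈ C[Q] := by
  induction n using Nat.strong_induction_on with
  | _ n ih =>
  intro Q hn hQ hl
  have hlC := hl.trans inf_le_right
  obtain ⟨K, hK, hKπ, hKi, hKn⟩ := exK hh hπ hD hQ hlC
  obtain ⟨y, hy, hyK⟩ := hA K (hK.trans inf_le_left) hKπ
  obtain ⟨R, hR⟩ := exists_syl p K
  have hRN := hR.trans hK hKi
  have hQR : Q ≤ R := hRN.le_of_norm hQ (le_inf hlC le_normalizer) (hRN.le.trans inf_le_right)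
  have key : ∀ g ∈ C[D], Q.map (cJ g) ≤ H →
      ∃ h ∈ H ⊓ C[D], ∃ m ∈ C[D] ⊓ N[Q], g = h * y * m := by
    intro g hg hgH
    have hgl : Q.map (cJ g) ≤ H ⊓ C[D] := le_inf hgH (map_cj_le_of_mem hlC hg)
    obtain ⟨S, hS, hQS⟩ := exists_syl_ge (hQ.map (cJ g)) hgl
    rcases hQS.eq_or_lt with e | e
    · have hyl : Q.map (cJ y) ≤ H ⊓ C[D] :=
        le_inf ((map_mono (hQR.trans hR.le)).trans hyK) (map_cj_le_of_mem hlC hy)
      have hS2 : Syl p (Q.map (cJ y)) (H ⊓ C[D]) :=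
        hS.of_card_ge (hQ.map _) hyl (by rw [← e, card_map_cj, card_map_cj])
      obtain ⟨h, hh, e2⟩ := hS2.conj hS
      refine ⟨h, hh, (h * y)⁻¹ * g, mem_inf.2 ⟨mul_mem (inv_mem (mul_mem (mem_inf.1 hh).2 hy)) hg, ?_⟩,
        by group⟩
      rw [← map_cj_eq_iff, ← map_cj_cj, e, ← e2, map_cj_cj h y, map_cj_cj,
        inv_mul_cancel]
      exact map_cj_of_mem (one_mem Q)
    · have e1 := lt_inf_norm (nil_of_pg hS.pg) e
      have p2 : IsPGroup p (S ⊓ N[Q.map (cJ g)] : Subgroup G) := hS.pg.to_le inf_le_left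
      have l2 : S ⊓ N[Q.map (cJ g)] ≤ H ⊓ C[D] := inf_le_left.trans hS.le
      have l3 : (S ⊓ N[Q.map (cJ g)]).map (cJ g⁻¹) ≤ C[D] ⊓ N[Q] :=
        le_inf (map_cj_le_of_mem (l2.trans inf_le_right) (inv_mem hg)) (by
          rw [map_cj_le_iff, inv_inv, ← normalizer_map_cj]; exact inf_le_right)
      obtain ⟨m, hm, h2⟩ := hRN.exists_conj_le (p2.map _) l3
      obtain ⟨h, hh, h3⟩ := ih _ (by
          rw [← hn, ← index_map_cj g Q]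
          exact index_strictAnti e1) _ rfl p2 l2 (y * (m * g⁻¹))
        (mul_mem hy (mul_mem hm.1 (inv_mem hg))) (by
          rw [← map_cj_cj, ← map_cj_cj]
          exact (map_mono (h2.trans hR.le)).trans hyK)
      have h4 := cent_anti e1.le h3
      rw [centralizer_map_cj, mem_map_cj] at h4
      refine ⟨h⁻¹, inv_mem hh, m * (g⁻¹ * (h⁻¹ * (y * (m * g⁻¹))) * g)⁻¹, mul_mem hm (inv_mem (mem_inf.2 ⟨?_,
        cent_le_norm Q h4⟩)), by group⟩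
      exact mul_mem (mul_mem (inv_mem hg) (mul_mem (inv_mem (mem_inf.1 hh).2)
        (mul_mem hy (mul_mem (mem_inf.1 hm).1 (inv_mem hg))))) hg
  have key2 : ∀ g ∈ C[D], Q.map (cJ g) ≤ H → ∃ h ∈ H ⊓ C[D], y⁻¹ * h⁻¹ * g ∈ C[Q] := by
    intro g hg hgH
    obtain ⟨h, hh, m, hm, rfl⟩ := key g hg hgH
    obtain ⟨k, hk, hc⟩ := hKn m hm
    refine ⟨h * (y * k * y⁻¹), mul_mem hh (mem_inf.2 ⟨hyK (conj_mem_map_cj hk),
      mul_mem (mul_mem hy (mem_inf.1 (hK hk)).1) (inv_mem hy)⟩), ?_⟩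
    rwa [show y⁻¹ * (h * (y * k * y⁻¹))⁻¹ * (h * y * m) = k⁻¹ * m by group]
  intro g hg hgH
  obtain ⟨h1, hh1, c1⟩ := key2 1 (one_mem _)
    ((map_cj_of_mem (one_mem Q)).le.trans (hl.trans inf_le_left))
  obtain ⟨h2, hh2, c2⟩ := key2 g hg hgH
  refine ⟨h2 * h1⁻¹, mul_mem hh2 (inv_mem hh1), ?_⟩
  have := mul_mem (inv_mem c1) c2
  rwa [show (y⁻¹ * h1⁻¹ * 1)⁻¹ * (y⁻¹ * h2⁻¹ * g) = (h2 * h1⁻¹)⁻¹ * g by group] at this

theorem DP.step [hp : Fact p.Prime] (hh : Hom π G) (hπ : p ∈ π) (hD : PiN π o[D]) (hA : DP π H D)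
    (hQ : IsPGroup p Q) (hl : Q ≤ H ⊓ C[D]) : DP π H (D ⊔ Q) := by
  intro K hK hKπ
  rw [cent_sup] at hK ⊢
  obtain ⟨y, hy, h1⟩ := hA (K ⊔ Q) (sup_le (hK.trans inf_le_left) (hl.trans inf_le_right))
    (piN_sup hKπ (IsPGroup.piN hQ hπ) (Or.inl ((hK.trans inf_le_right).trans (cent_le_norm Q))))
  obtain ⟨h, hh, hc⟩ := fus hh hπ hD hA _ Q rfl hQ hl y hy ((map_mono le_sup_right).trans h1)
  refine ⟨h⁻¹ * y, mem_inf.2 ⟨mul_mem (inv_mem (mem_inf.1 hh).2) hy, hc⟩, ?_⟩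
  rw [← map_cj_cj]
  exact map_cj_le_of_mem ((map_mono le_sup_left).trans h1) (inv_mem (mem_inf.1 hh).1)

theorem fus_elt (hh : Hom π G) (hH : PiN π o[H]) (n : ℕ) : ∀ (D : Subgroup G) (x : G),
    orderOf x = n → PiN π o[D] → DP π H D → x ∈ H ⊓ C[D] → ∀ g ∈ C[D], g * x * g⁻¹ ∈ H →
      ∃ h ∈ H ⊓ C[D], h * x * h⁻¹ = g * x * g⁻¹ := by
  induction n using Nat.strong_induction_on with
  | _ n ih =>
  intro D x hn hD hA hx g hg hgx
  by_cases x1 : x = 1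
  · exact ⟨1, one_mem _, by simp [x1]⟩
  obtain ⟨p, hp, hd⟩ := Nat.exists_prime_and_dvd (mt orderOf_eq_one_iff.1 x1)
  haveI := Fact.mk hp
  have hπ : p ∈ π := piN_orderOf hH hx.1 p hp hd
  obtain ⟨k, hk⟩ := CfsgH4.pelt_ppart p x
  have hQ : IsPGroup p (zpowers (ppart p x)) :=
    isPGroup_zpowers (k := k) (by rw [← hk, pow_orderOf_eq_one])
  have hl : zpowers (ppart p x) ≤ H ⊓ C[D] := zpowers_le.2 (CfsgH4.ppart_mem p hx)
  obtain ⟨h, hh1, hc⟩ := fus hh hπ hD hA _ _ rfl hQ hl g hg (by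
    rw [MonoidHom.map_zpowers, zpowers_le, CfsgH2.cj_apply, ← CfsgH4.ppart_conj]
    exact CfsgH4.ppart_mem p hgx)
  have hr : rpart p x ∈ H ⊓ C[D] := CfsgH4.rpart_mem p hx
  obtain ⟨h', hh', e⟩ := ih _ (by
      rw [← hn]
      exact lt_of_le_of_ne (Nat.le_of_dvd (orderOf_pos x)
        (orderOf_dvd_of_mem_zpowers (CfsgH4.rpart_mem_zpowers p x)))
        fun e => CfsgH4.reg_rpart p x (e ▸ hd))
    (D ⊔ zpowers (ppart p x)) (rpart p x) rfl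
    (piN_sup hD (IsPGroup.piN hQ hπ) (Or.inr ((hl.trans inf_le_right).trans (cent_le_norm D))))
    (hA.step hh hπ hD hQ hl)
    ⟨hr.1, by
      rw [cent_sup, cent_zpowers]
      exact ⟨hr.2, mem_centralizer_singleton_iff.2 (CfsgH4.commute_ppart_rpart p x).symm.eq⟩⟩
    (h⁻¹ * g) (by rw [cent_sup]; exact mem_inf.2 ⟨mul_mem (inv_mem (mem_inf.1 hh1).2) hg, hc⟩) (by
      rw [← CfsgH4.rpart_conj]
      refine CfsgH4.rpart_mem p ?_
      rw [show h⁻¹ * g * x * (h⁻¹ * g)⁻¹ = h⁻¹ * (g * x * g⁻¹) * h by group]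
      exact mul_mem (mul_mem (inv_mem (mem_inf.1 hh1).1) hgx) hh1.1)
  rw [cent_sup] at hh'
  refine ⟨h * h', mul_mem hh1 ⟨hh'.1, hh'.2.1⟩, ?_⟩
  have a1 := mem_cent_iff.1 hh'.2.2 _ (mem_zpowers _)
  have a2 := mem_cent_iff.1 hc _ (mem_zpowers _)
  rw [← CfsgH4.ppart_mul_rpart p x]
  generalize ppart p x = u at *
  generalize rpart p x = v at *
  rw [show h * h' * (u * v) * (h * h')⁻¹ = h * (h' * u) * h'⁻¹ * (h' * v * h'⁻¹) * h⁻¹ by group, ← a1,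
    e, show g * (u * v) * g⁻¹ = h * (h⁻¹ * g * u) * v * g⁻¹ by group, ← a2]
  group

theorem closed (hh : Hom π G) (hH : PiN π o[H])
    (hA : ∀ K : Subgroup G, PiN π o[K] → ∃ c, K.map (cJ c) ≤ H) :
    ∃ K : Subgroup G, ∀ x : G, x ∈ K ↔ PiN πᶜ (orderOf x) := by
  have hA' : DP π H ⊥ := fun K _ hK => by
    obtain ⟨c, hc⟩ := hA K hK
    exact ⟨c, cent_bot.ge (mem_top c), hc⟩
  have hi : PiN πᶜ H.index := fun p hp hd hπ => by
    haveI := Fact.mk hp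
    obtain ⟨S, hS⟩ := exists_syl p (H ⊓ C[(⊥ : Subgroup G)])
    have := (hA'.syl hπ hS).not_dvd_of_le (hS.le.trans inf_le_left)
    rw [cent_bot, relIndex_top_right] at this
    exact this hd
  obtain ⟨K, hK, h1, h2⟩ := Cfsg.Agent.S0877.result H (hH.coprime hi) (fun x hx y hy hc => by
    obtain ⟨g, rfl⟩ := isConj_iff.1 hc
    obtain ⟨h, hh, e⟩ := fus_elt hh hH _ ⊥ x rfl piN_bot hA' ⟨hx, cent_bot.ge (mem_top x)⟩ g
      (cent_bot.ge (mem_top g)) hy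
    exact ⟨h, hh.1, e⟩) fun E p _ _ hd => hA E (hH.of_dvd hd)
  have n : H ≤ N[K] := le_top.trans (top_le_norm_iff.2 hK)
  have c := card_sup_of_disj (Or.inr n) h2
  rw [h1, card_top, ← H.index_mul_card, Nat.mul_left_inj (card_pos' H).ne'] at c
  refine ⟨K, fun x => ⟨piN_orderOf (c ▸ hi), fun hx => ?_⟩⟩
  have i : K.index = o[H] := by
    have := K.index_mul_card
    rwa [← H.index_mul_card, c, mul_comm, Nat.mul_right_inj (card_pos' K).ne'] at this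
  exact mem_of_pow_mem_coprime (K.pow_index_mem x) (hx.coprime' (i ▸ hH))

end CfsgL0.PH
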