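import Cfsg.Agent.L0.PCon

/-! The Puig subgroup (Bender-Glauberman, Appendix B). -/

namespace CfsgL0
open Subgroup Function Cfsg CfsgH2
open scoped commutatorElement

universe u

section
variable {G : Type*} [Group G] {G' : Type*} [Group G']
  {A B D E H K L M N P Q R S T U V X Y Z : Subgroup G} {p e n m : ℕ}

def pu (P X : Subgroup G) : Subgroup G := sSup {A | A ≤ P ∧ Ab[A] ∧ X ≤ N[A]}

def ps (P : Subgroup G) : ℕ → Subgroup G
  | 0 => ⊥
  | n + 1 => pu P (ps P n)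

def pU (P : Subgroup G) : Subgroup G := ⨅ n, ps P (2 * n + 1)
def pL (P : Subgroup G) : Subgroup G := ⨆ n, ps P (2 * n)

theorem ps_succ : ps P (n + 1) = pu P (ps P n) := rfl
theorem pu_le : pu P X ≤ P := sSup_le fun _ h => h.1
theorem le_pu (h1 : A ≤ P) (h2 : Ab[A]) (h3 : X ≤ N[A]) : A ≤ pu P X := le_sSup ⟨h1, h2, h3⟩
theorem pu_le_pu (h1 : pu P X ≤ Q) (h2 : Y ≤ X) : pu P X ≤ pu Q Y :=
  sSup_le fun _ h => le_pu ((le_sSup h).trans h1) h.2.1 (h2.trans h.2.2)
theorem pu_bot : pu P ⊥ = P := le_antisymm pu_le fun x hx =>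
  le_pu (zpowers_le.2 hx) inferInstance bot_le (mem_zpowers x)
theorem ps_le : ps P n ≤ P := by cases n; exacts [bot_le, pu_le]
theorem ps_one : ps P 1 = P := pu_bot
theorem pu_top : pu ⊤ X = puigStep X := by simp only [pu, puigStep, le_top, true_and]
theorem ps_top : ps (⊤ : Subgroup G) n = puigSeq G n := by
  induction n with
  | zero => rfl
  | succ n ih => rw [ps_succ, ih, pu_top]; rfl
theorem pU_top : pU (⊤ : Subgroup G) = puigSubgroup G := iInf_congr fun _ => ps_top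
theorem pL_top : pL (⊤ : Subgroup G) = puigLower G := iSup_congr fun _ => ps_top

theorem inj_pu {f : G →* G'} (hf : Injective f) : pu (P.map f) (X.map f) = (pu P X).map f :=
  (map_sSup_of (P := P) (fun _ h => h.1) fun B => by simp only [Set.mem_setOf_eq, inj_simps hf]).symm

theorem inj_ps {f : G →* G'} (hf : Injective f) : ps (P.map f) n = (ps P n).map f := by
  induction n with
  | zero => exact (Subgroup.map_bot f).symm
  | succ n ih => rw [ps_succ, ih, inj_pu hf, ps_succ]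

theorem inj_pL {f : G →* G'} (hf : Injective f) : pL (P.map f) = (pL P).map f := by
  simp only [pL, inj_ps hf, Subgroup.map_iSup]

theorem inj_pU {f : G →* G'} (hf : Injective f) : pU (P.map f) = (pU P).map f := by
  simp only [pU, inj_ps hf, Subgroup.map_iInf f hf]

theorem map_pU : (puigSubgroup P).map P.subtype = pU P := by
  rw [← pU_top, ← inj_pU P.subtype_injective, map_subtype_top]
theorem map_pL : (puigLower P).map P.subtype = pL P := by
  rw [← pL_top, ← inj_pL P.subtype_injective, map_subtype_top]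

theorem ps_mono : ps P (2 * n) ≤ ps P (2 * n + 2) ∧ ps P (2 * n + 3) ≤ ps P (2 * n + 1) := by
  induction n with
  | zero => exact ⟨bot_le, ps_le.trans ps_one.ge⟩
  | succ n ih =>
    have h : ps P (2 * n + 2) ≤ ps P (2 * n + 4) := pu_le_pu pu_le ih.2
    exact ⟨h, pu_le_pu (X := ps P (2 * n + 4)) pu_le h⟩

theorem ps_even_mono : Monotone fun n => ps P (2 * n) := monotone_nat_of_le_succ fun _ => ps_mono.1
theorem ps_odd_anti : Antitone fun n => ps P (2 * n + 1) :=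
  antitone_nat_of_succ_le fun _ => ps_mono.2

theorem ps_even_odd' : ps P (2 * n) ≤ ps P (2 * n + 1) := by
  induction n with
  | zero => exact bot_le
  | succ n ih =>
    exact pu_le_pu (X := ps P (2 * n + 1)) (Y := ps P (2 * n + 2)) pu_le (pu_le_pu pu_le ih)

theorem ps_even_odd : ps P (2 * n) ≤ ps P (2 * m + 1) :=
  ((ps_even_mono (le_max_left n m)).trans ps_even_odd').trans (ps_odd_anti (le_max_right n m))

theorem pL_le_pU : pL P ≤ pU P := iSup_le fun _ => le_iInf fun _ => ps_even_odd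
theorem pU_le : pU P ≤ P := (iInf_le _ 0).trans ps_le
theorem pL_le : pL P ≤ P := pL_le_pU.trans pU_le
theorem le_ps (h1 : A ≤ P) (h2 : Ab[A]) (h3 : P ≤ N[A]) : A ≤ ps P (n + 1) :=
  le_pu h1 h2 (ps_le.trans h3)
theorem le_pL (h1 : A ≤ P) (h2 : Ab[A]) (h3 : P ≤ N[A]) : A ≤ pL P :=
  (le_ps h1 h2 h3).trans (le_iSup (fun n => ps P (2 * n)) 1)

theorem norm_le_norm_ps : N[P] ≤ N[ps P n] := fun g hg => by
  rw [← map_cj_eq_iff, ← inj_ps (cj_injective g), map_cj_eq hg]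
theorem norm_le_norm_pU : N[P] ≤ N[pU P] := fun g hg => by
  rw [← map_cj_eq_iff, ← inj_pU (cj_injective g), map_cj_eq hg]
theorem norm_le_norm_pL : N[P] ≤ N[pL P] := fun g hg => by
  rw [← map_cj_eq_iff, ← inj_pL (cj_injective g), map_cj_eq hg]

variable [Finite G]

theorem exists_ps_stable (P : Subgroup G) :
    ∃ k, ∀ n, k ≤ n → ps P (2 * n) = pL P ∧ ps P (2 * n + 1) = pU P := by
  obtain ⟨a, ha⟩ := WellFoundedGT.monotone_chain_condition (⟨_, ps_even_mono (P := P)⟩ : ℕ →o _)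
  obtain ⟨b, hb⟩ := WellFoundedGT.monotone_chain_condition
    (⟨_, (ps_odd_anti (P := P)).dual_right⟩ : ℕ →o (Subgroup G)ᵒᵈ)
  refine ⟨max a b, fun n hn => ⟨le_antisymm (le_iSup (fun n => ps P (2 * n)) n) (iSup_le fun m => ?_),
    le_antisymm (le_iInf fun m => ?_) (iInf_le (fun n => ps P (2 * n + 1)) n)⟩⟩
  · exact (ps_even_mono (le_max_left m n)).trans ((ha _ ((le_max_left a b).trans
      (hn.trans (le_max_right m n)))).symm.trans (ha n ((le_max_left a b).trans hn))).le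
  · have : ps P (2 * n + 1) = ps P (2 * max m n + 1) :=
      (hb n ((le_max_right a b).trans hn)).symm.trans (hb _ ((le_max_right a b).trans
        (hn.trans (le_max_right m n))))
    exact this.le.trans (ps_odd_anti (le_max_left m n))

theorem pu_pL : pu P (pL P) = pU P := by
  obtain ⟨k, hk⟩ := exists_ps_stable P
  rw [← (hk k le_rfl).1, ← (hk k le_rfl).2, ps_succ]

theorem pu_pU : pu P (pU P) = pL P := by
  obtain ⟨k, hk⟩ := exists_ps_stable P
  rw [← (hk k le_rfl).2, ← (hk (k + 1) k.le_succ).1]; rfl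

theorem pU_eq_of_le (h1 : pU P ≤ Q) (h2 : Q ≤ P) : pU Q = pU P := by
  refine le_antisymm (le_iInf fun n => ?_) (le_iInf fun n => ?_)
  · induction n with
    | zero => exact (pU_le.trans h2).trans ps_one.ge
    | succ n ih =>
      rw [← pu_pL]
      refine pu_le_pu (Y := ps P (2 * n + 2)) (pu_le.trans h2) ?_
      rw [← pu_pU]
      exact pu_le_pu (((le_iSup (fun n => ps P (2 * n)) (n + 1)).trans pL_le_pU).trans h1) ih
  · induction n with
    | zero => exact h1.trans ps_one.ge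
    | succ n ih =>
      rw [← pu_pL]
      refine pu_le_pu (Y := ps Q (2 * n + 2)) (pu_pL.le.trans h1) ?_
      rw [← pu_pU]
      exact pu_le_pu (pu_le.trans h2) ih

variable [hp : Fact p.Prime]

theorem exists_scn_pu (hP : PG[p, P]) : ∃ A ≤ P, Ab[A] ∧ P ≤ N[A] ∧ P ⊓ C[A] ≤ A := by
  obtain ⟨A, -, h⟩ := exists_scn_ge hP bot_le (by rw [norm_bot]; exact le_top) inferInstance
  exact ⟨A, h.1, scn_comm h, h.2.1, h.2.2.le⟩

theorem cent_ps_le (hP : PG[p, P]) : P ⊓ C[ps P (n + 1)] ≤ ps P (n + 1) := by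
  obtain ⟨A, a, b, c, d⟩ := exists_scn_pu hP
  exact ((inf_le_inf_left _ (cent_anti (le_ps a b c))).trans d).trans (le_ps a b c)

theorem cent_pL_le (hP : PG[p, P]) : P ⊓ C[pL P] ≤ pL P := by
  obtain ⟨A, a, b, c, d⟩ := exists_scn_pu hP
  exact ((inf_le_inf_left _ (cent_anti (le_pL a b c))).trans d).trans (le_pL a b c)

theorem cent_pU_le (hP : PG[p, P]) : P ⊓ C[pU P] ≤ pU P :=
  ((inf_le_inf_left _ (cent_anti pL_le_pU)).trans (cent_pL_le hP)).trans pL_le_pU

omit [Finite G] hp in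
theorem quad_of_ab (hA : Ab[A]) (h : P ≤ N[A]) : ⁅⁅P, A⁆, A⁆ = ⊥ :=
  comm_eq_bot_iff.2 ((comm_le_right h).trans (le_cent_self hA))

theorem le_core_of_cent (hc : Con p M) (h0 : O[{p}ᶜ, M] = ⊥) (hs : Sol[M]) (nP : M ≤ N[P])
    (h : O[{p}, M] ⊓ C[P] ≤ P) (d1 : D ≤ M) (d2 : M ≤ N[D]) (d3 : piRes {p} D ≤ C[P]) :
    D ≤ O[{p}, M] := by
  have n : M ≤ N[M ⊓ C[P]] := le_norm_inf le_normalizer (le_norm_cent nP)
  have c := con_of_core' (p := p) (isSolvable_of_le hs (inf_le_left (b := C[P])))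
    (le_bot_iff.1 (h0 ▸ piCoreOf_le_of_norm inf_le_left n))
  have h1 : O[{p}, M ⊓ C[P]] ≤ P :=
    (le_inf (piCoreOf_le_of_norm inf_le_left n) (piCoreOf_le.trans inf_le_right)).trans h
  have h2 : M ⊓ C[P] ≤ O[{p}, M ⊓ C[P]] :=
    (le_inf le_rfl (inf_le_right.trans (cent_anti h1))).trans c
  exact le_pCoreOf d1 d2 (isPGroup_of_piRes (isPGroup_piCoreOf.to_le
    ((le_inf (piRes_le.trans d1) d3).trans h2)))

theorem pu_le_core (hs : Sol[M]) (ho : Odd o[M]) (h0 : O[{p}ᶜ, M] = ⊥) (hS : S ≤ M)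
    (hP : P ≤ O[{p}, M]) (nP : M ≤ N[P]) (h : O[{p}, M] ⊓ C[P] ≤ P) (hX : P ≤ X) :
    pu S X ≤ O[{p}, M] := by
  obtain ⟨D, d1, d2, d3, d4⟩ := exists_quad_core hs ho (hP.trans piCoreOf_le) nP
    (isPGroup_piCoreOf.to_le hP)
  exact (sSup_le fun A a => d4 A (a.1.trans hS) (quad_of_ab a.2.1 (hX.trans a.2.2))).trans
    (le_core_of_cent (con_of_core' hs h0) h0 hs nP h d1 d2 d3)

theorem ps_core (hs : Sol[M]) (ho : Odd o[M]) (h0 : O[{p}ᶜ, M] = ⊥) (hS : Syl p S M) :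
    ps S (2 * n) ≤ ps O[{p}, M] (2 * n) ∧ ps O[{p}, M] (2 * n + 1) ≤ ps S (2 * n + 1) := by
  have k : ∀ n, ps S (2 * n) ≤ ps O[{p}, M] (2 * n) →
      ps O[{p}, M] (2 * n + 1) ≤ ps S (2 * n + 1) := fun n h =>
    pu_le_pu (pu_le.trans hS.pCoreOf_le) h
  suffices ps S (2 * n) ≤ ps O[{p}, M] (2 * n) from ⟨this, k n this⟩
  induction n with
  | zero => exact bot_le
  | succ n ih =>
    exact pu_le_pu (X := ps S (2 * n + 1)) (pu_le_core hs ho h0 hS.le ps_le
      (le_norm_piCoreOf.trans norm_le_norm_ps) (cent_ps_le isPGroup_piCoreOf) (k n ih)) (k n ih)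

theorem pL_le_core (hs : Sol[M]) (ho : Odd o[M]) (h0 : O[{p}ᶜ, M] = ⊥) (hS : Syl p S M) :
    pL S ≤ pL O[{p}, M] := iSup_mono fun _ => (ps_core hs ho h0 hS).1

theorem pU_core_le (hs : Sol[M]) (ho : Odd o[M]) (h0 : O[{p}ᶜ, M] = ⊥) (hS : Syl p S M) :
    pU O[{p}, M] ≤ pU S := iInf_mono fun _ => (ps_core hs ho h0 hS).2

theorem puig_center (hs : Sol[M]) (ho : Odd o[M]) (h0 : O[{p}ᶜ, M] = ⊥) (hS : Syl p S M) :
    M ≤ N[Z[pU S]] := by
  have nL : M ≤ N[pU O[{p}, M]] := le_norm_piCoreOf.trans norm_le_norm_pU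
  have nY : M ≤ N[Z[pU O[{p}, M]]] := le_norm_inf nL (le_norm_cent nL)
  have lY : Z[pU O[{p}, M]] ≤ S := (inf_le_left.trans pU_le).trans hS.pCoreOf_le
  have zY : Z[pU S] ≤ Z[pU O[{p}, M]] := le_inf
    (((inf_le_inf pU_le (cent_anti pL_le_pU)).trans (cent_pL_le hS.pg)).trans
      ((pL_le_core hs ho h0 hS).trans pL_le_pU))
    (inf_le_right.trans (cent_anti (pU_core_le hs ho h0 hS)))
  obtain ⟨D, d1, d2, d3, d4⟩ := exists_quad_core hs ho (lY.trans hS.le) nY (hS.pg.to_le lY)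
  have yL : Z[pU O[{p}, M]] ≤ pL S := le_pL lY (isMulComm_cent_inf _) (hS.le.trans nY)
  have lD : pU S ≤ D := by
    rw [← pu_pL]
    exact sSup_le fun A a => d4 A (a.1.trans hS.le) (quad_of_ab a.2.1 (yL.trans a.2.2))
  have e : pU (S ⊓ D) = pU S := pU_eq_of_le (le_inf pU_le lD) inf_le_left
  have nS : S ≤ N[pU S] := le_normalizer.trans norm_le_norm_pU
  rw [← (hS.inf_norm d1 (hS.le.trans d2)).frattini_sup d1 d2]
  refine sup_le (le_norm_of_piRes hS d1 d2 d3 zY (le_norm_inf nS (le_norm_cent nS))) ?_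
  have := (inf_le_right (a := M)).trans (norm_le_norm_pU (P := S ⊓ D))
  rw [e] at this
  exact le_norm_inf this (le_norm_cent this)

end
end CfsgL0
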